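import Cfsg.Prelude.Def_Classical

/-! Recognition of `Sp₆(2)` from its transvections. -/

set_option autoImplicit false
set_option linter.unusedVariables false

namespace Cfsg.Agent.YK

open Subgroup Matrix

abbrev V6 := Fin 3 ⊕ Fin 3 → ZMod 2
abbrev Sp6 := Matrix.symplecticGroup (Fin 3) (ZMod 2)
def sB (u v : V6) : ZMod 2 := u ⬝ᵥ (Matrix.J (Fin 3) (ZMod 2) *ᵥ v)

theorem z2 : ∀ a : ZMod 2, a + a = 0 := by decide
theorem z01 : ∀ a : ZMod 2, a = 0 ∨ a = 1 := by decide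
theorem v2 (x : V6) : x + x = 0 := funext fun i => z2 _

theorem sB_eq (u v : V6) : sB u v = ∑ i, (u (.inl i) * v (.inr i) + u (.inr i) * v (.inl i)) := by
  have : ∀ a : ZMod 2, -a = a := by decide
  simp [sB, Matrix.J, dotProduct, Matrix.fromBlocks_mulVec, Finset.sum_add_distrib, this,
    Matrix.neg_mulVec]

theorem sB_comm (u v : V6) : sB u v = sB v u := by
  simp only [sB_eq]; exact Finset.sum_congr rfl fun i _ => by ring
theorem sB_self (u : V6) : sB u u = 0 := by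
  simp only [sB_eq]; exact Finset.sum_eq_zero fun i _ => by rw [mul_comm, z2]
theorem sB_addl (u v w : V6) : sB (u + v) w = sB u w + sB v w := add_dotProduct _ _ _
theorem sB_addr (u v w : V6) : sB w (u + v) = sB w u + sB w v := by
  rw [sB_comm, sB_addl, sB_comm u, sB_comm v]
theorem sB_smull (c : ZMod 2) (v w : V6) : sB (c • v) w = c * sB v w := smul_dotProduct _ _ _
theorem sB_smulr (c : ZMod 2) (v w : V6) : sB w (c • v) = c * sB w v := by
  rw [sB_comm, sB_smull, sB_comm v]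

theorem mem_sp {M : Matrix (Fin 3 ⊕ Fin 3) (Fin 3 ⊕ Fin 3) (ZMod 2)} :
    M ∈ Sp6 ↔ ∀ u v, sB (M *ᵥ u) (M *ᵥ v) = sB u v := by
  have e : ∀ u v, sB (M *ᵥ u) (M *ᵥ v) = u ⬝ᵥ ((Mᵀ * J _ _ * M) *ᵥ v) := fun u v => by
    rw [sB, ← mulVec_mulVec, ← mulVec_mulVec, dotProduct_mulVec u, vecMul_transpose]
  rw [SymplecticGroup.mem_iff']
  refine ⟨fun h u v => by rw [e, h]; rfl, fun h => Matrix.ext fun i j => ?_⟩
  have := h (Pi.single i 1) (Pi.single j 1)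
  rw [e, sB] at this
  simpa using this

/-- the transvection with centre `u` -/
def tv (u : V6) : Sp6 :=
  ⟨1 + vecMulVec u (u ᵥ* J _ _), mem_sp.2 fun x y => by
    have e : ∀ x, (1 + vecMulVec u (u ᵥ* J _ _)) *ᵥ x = x + sB u x • u := fun x => by
      rw [add_mulVec, one_mulVec, vecMulVec_mulVec, sB, dotProduct_mulVec]; simp
    rw [e, e]
    simp only [sB_addl, sB_addr, sB_smull, sB_smulr, sB_self, sB_comm x u]
    linear_combination z2 (sB u x * sB u y)⟩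

theorem tv_ap (u x : V6) : (tv u).1 *ᵥ x = x + sB u x • u := by
  show (1 + vecMulVec u (u ᵥ* J _ _)) *ᵥ x = _
  rw [add_mulVec, one_mulVec, vecMulVec_mulVec, sB, dotProduct_mulVec]; simp

theorem mul_ap (a b : Sp6) (x : V6) : (a * b).1 *ᵥ x = a.1 *ᵥ (b.1 *ᵥ x) := by
  rw [mulVec_mulVec]; rfl

theorem sp_ne (a : Sp6) {x : V6} (hx : x ≠ 0) : a.1 *ᵥ x ≠ 0 := fun e => hx (by
  have := mul_ap a⁻¹ a x
  rwa [inv_mul_cancel, e, mulVec_zero, show (1 : Sp6).1 = 1 from rfl, one_mulVec] at this)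

def TT : Subgroup Sp6 := closure (Set.range tv)

theorem mv1 {u v : V6} (h : sB u v = 1) : (tv (u + v)).1 *ᵥ u = v := by
  rw [tv_ap, sB_addl, sB_self, sB_comm v, h, zero_add, one_smul, ← add_assoc, v2, zero_add]

theorem sp_step (F : List V6) (v : V6)
    (H : ∀ u, u ≠ 0 → (∀ f ∈ F, sB u f = sB v f) → u = v ∨ sB u v = 1 ∨
      ∃ w, sB u w = 1 ∧ sB w v = 1 ∧ ∀ f ∈ F, sB w f = sB v f) (v0 : v ≠ 0)
    (ih : ∀ g : Sp6, (∀ f ∈ v :: F, g.1 *ᵥ f = f) → g ∈ TT) :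
    ∀ g : Sp6, (∀ f ∈ F, g.1 *ᵥ f = f) → g ∈ TT := fun g hg => by
  have mt : ∀ u, tv u ∈ TT := fun u => subset_closure ⟨u, rfl⟩
  have fx : ∀ a b f, sB a f = sB b f → (tv (a + b)).1 *ᵥ f = f := fun a b f e => by
    rw [tv_ap, sB_addl, e, z2, zero_smul, add_zero]
  have hu : ∀ f ∈ F, sB (g.1 *ᵥ v) f = sB v f := fun f hf => by
    rw [← mem_sp.1 g.2 v f, hg f hf]
  have k : ∀ t ∈ TT, t.1 *ᵥ (g.1 *ᵥ v) = v → (∀ f ∈ F, t.1 *ᵥ f = f) → g ∈ TT := fun t ht a b => by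
    refine (TT.mul_mem_cancel_left ht).1 (ih _ fun f hf => ?_)
    rw [mul_ap]
    rcases List.mem_cons.1 hf with rfl | hf
    · exact a
    · rw [hg f hf, b f hf]
  rcases H _ (sp_ne g v0) hu with e | e | ⟨w, a, b, c⟩
  · exact k 1 (one_mem _) (by simpa using e) (by simp)
  · exact k _ (mt _) (mv1 e) fun f hf => fx _ _ _ (hu f hf)
  · refine k _ (mul_mem (mt (w + v)) (mt (g.1 *ᵥ v + w))) (by rw [mul_ap, mv1 a, mv1 b]) fun f hf => ?_
    rw [mul_ap, fx _ _ _ ((hu f hf).trans (c f hf).symm), fx _ _ _ (c f hf)]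

def bv (i : Fin 3 ⊕ Fin 3) : V6 := Pi.single i 1
theorem sB_l (u : V6) (i : Fin 3) : sB u (bv (.inl i)) = u (.inr i) := by
  simp [sB_eq, bv, Pi.single_apply]
theorem sB_r (u : V6) (i : Fin 3) : sB u (bv (.inr i)) = u (.inl i) := by
  simp [sB_eq, bv, Pi.single_apply]

theorem stepE (F : List V6) (v v' : V6) (hv : sB v' v = 1) (h1 : ∀ f ∈ F, sB v f = 0)
    (h2 : ∀ f ∈ F, sB v' f = 0)
    (nd : ∀ u, u ≠ 0 → (∀ f ∈ F, sB u f = 0) → ∃ w, sB u w = 1 ∧ ∀ f ∈ F, sB w f = 0) :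
    ∀ u, u ≠ 0 → (∀ f ∈ F, sB u f = sB v f) → u = v ∨ sB u v = 1 ∨
      ∃ w, sB u w = 1 ∧ sB w v = 1 ∧ ∀ f ∈ F, sB w f = sB v f := fun u u0 hu => by
  right; right
  obtain ⟨w, a, b⟩ := nd u u0 fun f hf => (hu f hf).trans (h1 f hf)
  rcases z01 (sB w v) with c | c
  · rcases z01 (sB u v') with d | d
    · exact ⟨w + v', by rw [sB_addr, a, d, add_zero], by rw [sB_addl, c, hv, zero_add],
        fun f hf => by rw [sB_addl, b f hf, h2 f hf, h1 f hf, add_zero]⟩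
    · exact ⟨v', d, hv, fun f hf => by rw [h2 f hf, h1 f hf]⟩
  · exact ⟨w, a, c, fun f hf => by rw [b f hf, h1 f hf]⟩

theorem stepF (F : List V6) (v e : V6) (hv : sB v e = 1) (h1 : ∀ f ∈ F, sB e f = 0) :
    ∀ u, u ≠ 0 → (∀ f ∈ e :: F, sB u f = sB v f) → u = v ∨ sB u v = 1 ∨
      ∃ w, sB u w = 1 ∧ sB w v = 1 ∧ ∀ f ∈ e :: F, sB w f = sB v f := fun u u0 hu => by
  right
  refine (z01 (sB u v)).symm.imp id fun c => ⟨u + e, ?_, ?_, fun f hf => ?_⟩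
  · rw [sB_addr, sB_self, hu e (by simp), hv, zero_add]
  · rw [sB_addl, c, sB_comm, hv, zero_add]
  · rw [sB_addl, hu f hf]
    rcases List.mem_cons.1 hf with rfl | hf
    · rw [sB_self, add_zero]
    · rw [h1 f hf, add_zero]

theorem ndF (F : List V6) (hF : ∀ f ∈ F, ∃ i, f = bv i ∧ bv i.swap ∈ F) :
    ∀ u, u ≠ 0 → (∀ f ∈ F, sB u f = 0) → ∃ w, sB u w = 1 ∧ ∀ f ∈ F, sB w f = 0 := fun u u0 hu => by
  have sb : ∀ (u : V6) (i : Fin 3 ⊕ Fin 3), sB u (bv i) = u i.swap := fun u i => by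
    rcases i with i | i
    · exact sB_l u i
    · exact sB_r u i
  obtain ⟨j, hj⟩ := Function.ne_iff.1 u0
  refine ⟨bv j.swap, by rw [sb, Sum.swap_swap]; exact (z01 _).resolve_left hj, fun f hf => ?_⟩
  obtain ⟨i, rfl, hi⟩ := hF f hf
  rw [sB_comm, sb, Sum.swap_swap, bv, Pi.single_apply, if_neg]
  rintro rfl
  exact hj (by simpa [sb] using hu _ hi)

theorem sp_gen (g : Sp6) : g ∈ TT := by
  have n : ∀ i, bv i ≠ 0 := fun i e => by simpa [bv] using congrFun e i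
  refine sp_step [] (bv (.inl 0)) (stepE _ _ (bv (.inr 0)) ?_ ?_ ?_ (ndF _ ?_)) (n _)
    (sp_step _ (bv (.inr 0)) (stepF _ _ _ ?_ ?_) (n _)
    (sp_step _ (bv (.inl 1)) (stepE _ _ (bv (.inr 1)) ?_ ?_ ?_ (ndF _ ?_)) (n _)
    (sp_step _ (bv (.inr 1)) (stepF _ _ _ ?_ ?_) (n _)
    (sp_step _ (bv (.inl 2)) (stepE _ _ (bv (.inr 2)) ?_ ?_ ?_ (ndF _ ?_)) (n _)
    (sp_step _ (bv (.inr 2)) (stepF _ _ _ ?_ ?_) (n _) fun g hg => ?_))))) g (by simp)
  rotate_right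
  · have : g = 1 := Subtype.ext (Matrix.ext fun i j => by
      have := congrFun (hg (bv j) (by rcases j with j | j <;> fin_cases j <;> simp)) i
      simpa [bv, Pi.single_apply, Matrix.one_apply] using this)
    rw [this]; exact one_mem _
  all_goals first
    | (simp; done)
    | (simp only [List.forall_mem_cons, sB_l, sB_r]; simp [bv]; done)
    | (simp only [List.forall_mem_cons]; refine ⟨⟨_, rfl, by simp⟩, ⟨_, rfl, by simp⟩, ?_⟩;
        first | (simp; done) | exact ⟨⟨_, rfl, by simp⟩, ⟨_, rfl, by simp⟩, by simp⟩)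

theorem sp_ext {a b : Sp6} (h : ∀ v, v ≠ 0 → a.1 *ᵥ v = b.1 *ᵥ v) : a = b :=
  Subtype.ext (Matrix.ext fun i j => by
    simpa using congrFun (h (Pi.single j 1) fun e => by simpa using congrFun e j) i)

theorem spId {G : Type*} [Group G] (l : V6 → G)
    (hT : ∀ u v, u ≠ 0 → v ≠ 0 → l u * l v * (l u)⁻¹ =
      l (v + (u ⬝ᵥ (Matrix.J (Fin 3) (ZMod 2) *ᵥ v)) • u))
    (inj : ∀ u v, u ≠ 0 → v ≠ 0 → l u = l v → u = v)
    (ct : ∀ g ∈ closure (l '' {v | v ≠ 0}), (∀ v, v ≠ 0 → Commute g (l v)) → g = 1) :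
    ∃ Φ : closure (l '' {v | v ≠ 0}) ≃* Matrix.symplecticGroup (Fin 3) (ZMod 2),
      ∀ (g : closure (l '' {v | v ≠ 0})) v, v ≠ 0 → (g : G) * l v * (g : G)⁻¹ = l ((Φ g).1 *ᵥ v) := by
  let L := closure (l '' {v | v ≠ 0})
  let Ω : Subgroup (L × Sp6) :=
    { carrier := {t | ∀ v, v ≠ 0 → (t.1 : G) * l v * (t.1 : G)⁻¹ = l (t.2.1 *ᵥ v)}
      mul_mem' := fun {a b} ha hb v hv => by
        rw [Prod.snd_mul, mul_ap, ← ha _ (sp_ne _ hv), ← hb v hv, Prod.fst_mul, coe_mul]; group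
      one_mem' := fun v hv => by simp
      inv_mem' := fun {a} ha v hv => by
        have := ha _ (sp_ne a.2⁻¹ hv)
        rw [← mul_ap, mul_inv_cancel, show (1 : Sp6).1 = 1 from rfl, one_mulVec] at this
        rw [Prod.snd_inv, Prod.fst_inv, coe_inv, ← this]; group }
  have gen : ∀ u (hu : u ≠ 0), ((⟨l u, subset_closure ⟨u, hu, rfl⟩⟩, tv u) : L × Sp6) ∈ Ω :=
    fun u hu v hv => by rw [tv_ap]; exact hT u v hu hv
  let p1 := (MonoidHom.fst _ _).comp Ω.subtype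
  let p2 := (MonoidHom.snd _ _).comp Ω.subtype
  have b1 : Function.Bijective p1 := by
    refine ⟨(injective_iff_map_eq_one _).2 fun ⟨⟨x, g⟩, h⟩ e => ?_, fun ⟨x, hx⟩ => ?_⟩
    · obtain rfl : x = 1 := e
      refine Subtype.ext (Prod.ext rfl (sp_ext fun v hv => ?_))
      have := h v hv
      simpa using (inj _ _ hv (sp_ne _ hv) (by simpa using this)).symm
    · refine closure_induction (p := fun x hx => ∃ a, p1 a = ⟨x, hx⟩) ?_ ⟨1, rfl⟩ ?_ ?_ hx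
      · rintro _ ⟨u, hu, rfl⟩; exact ⟨⟨_, gen u hu⟩, rfl⟩
      · rintro x y _ _ ⟨a, ha⟩ ⟨b, hb⟩; exact ⟨a * b, by rw [map_mul, ha, hb]; rfl⟩
      · rintro x _ ⟨a, ha⟩; exact ⟨a⁻¹, by rw [map_inv, ha]; rfl⟩
  have b2 : Function.Bijective p2 := by
    refine ⟨(injective_iff_map_eq_one _).2 fun ⟨⟨x, g⟩, h⟩ e => ?_, fun g => ?_⟩
    · obtain rfl : g = 1 := e
      refine Subtype.ext (Prod.ext (Subtype.ext (ct x x.2 fun v hv => ?_)) rfl)
      exact mul_inv_eq_iff_eq_mul.1 (by simpa using h v hv)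
    · refine (show TT ≤ p2.range from (closure_le _).2 ?_) (sp_gen g)
      rintro _ ⟨u, rfl⟩
      by_cases hu : u = 0
      · exact ⟨1, sp_ext fun v hv => by rw [tv_ap, hu]; simp⟩
      · exact ⟨⟨_, gen u hu⟩, rfl⟩
  refine ⟨(MulEquiv.ofBijective p1 b1).symm.trans (MulEquiv.ofBijective p2 b2), fun g v hv => ?_⟩
  obtain ⟨t, rfl⟩ := (MulEquiv.ofBijective p1 b1).surjective g
  rw [MulEquiv.trans_apply, MulEquiv.symm_apply_apply]
  exact t.2 v hv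

theorem sp_center : center Sp6 = ⊥ := by
  refine eq_bot_iff.2 fun g hg => mem_bot.2 (sp_ext fun v hv => ?_)
  obtain ⟨w, a, -⟩ := ndF [] (by simp) v hv (by simp)
  have e := congrArg (fun t : Sp6 => t.1 *ᵥ w) (mem_center_iff.1 hg (tv v))
  simp only [mul_ap, tv_ap, mulVec_add, mulVec_smul, a, one_smul, add_right_inj] at e
  rcases z01 (sB v (g.1 *ᵥ w)) with c | c
  · exact absurd (by simpa [c] using e.symm) (sp_ne g hv)
  · simpa [c] using e.symm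

theorem sp_psp : Nonempty (Matrix.symplecticGroup (Fin 3) (ZMod 2) ≃* PSp 3 (ZMod 2)) :=
  ⟨QuotientGroup.quotientBot.symm.trans (QuotientGroup.quotientMulEquivOfEq sp_center.symm)⟩

end Cfsg.Agent.YK
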