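import Cfsg.Agent.YK.L1

/-! Endgame of the alternating case: finite facts in the model group. -/

set_option autoImplicit false

namespace Cfsg.Agent.YK.E

/-- number of points moved to another pair -/
def nt (w : W) : ℕ := frc w.1 fun c =>
  Nat.rec 0 (fun i acc => if ap c i / 2 = i / 2 then acc else acc + 1) 12

/-- cheap test for involutions -/
def iB (w : W) : Bool := allLt 12 fun i => ap w.1 (ap w.1 i) == i

theorem iB_of {w : W} (h : w * w = 1) : iB w = true := by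
  unfold iB
  rw [allLt_iff]
  intro i hi
  rw [← ap_mul _ _ hi, h, ap_one hi]
  simp

def cj (w : W) (a b : ℕ) : W := (tr 0 a * tr 1 b)⁻¹ * w * (tr 0 a * tr 1 b)

def Red (w u : W) : Prop := u = w1 ∨ u = ga ∨ (Q4 (s1 * u) ∧ nt (w1 * (s1 * u)) < nt w)
instance (w u : W) : Decidable (Red w u) := by unfold Red; infer_instance

def RedB (w : W) : Bool := !allLt 12 fun a => allLt 10 fun b =>
  (nt w != 0 && ap (tr 0 a).1 (2 + b) != ap w.1 a) ||
    frW (cj w a b) fun u => !decide (Red w u)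

theorem redB : ∀ w : W, iB w = true → w = 1 ∨ w = al ∨ RedB w = true := by
  decide +kernel

theorem red {w : W} (h : w * w = 1) : w = 1 ∨ w = al ∨ ∃ k : W, Red w (k⁻¹ * w * k) := by
  rcases redB w (iB_of h) with e | e | e
  · exact .inl e
  · exact .inr (.inl e)
  refine .inr (.inr ?_)
  by_contra c
  have : (allLt 12 fun a => allLt 10 fun b =>
    (nt w != 0 && ap (tr 0 a).1 (2 + b) != ap w.1 a) ||
      frW (cj w a b) fun u => !decide (Red w u)) = true := by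
    simp only [allLt_iff, frW_eq]
    intro a _ b _
    have : ¬ Red w (cj w a b) := fun h => c ⟨_, h⟩
    simp [this]
  simp [RedB, this] at e

theorem mv1 : mv 1 = 0 ∧ mv al = 12 ∧ mv ga = 8 ∧ mv w1 = 4 ∧ mv w2 = 4 ∧ mv w3 = 4 := by
  decide +kernel

theorem fx1 : al * al = 1 ∧ ga * ga = 1 ∧ w1 * w1 = 1 ∧ w2 * w2 = 1 ∧ w3 * w3 = 1 ∧
    s1 * s1 = 1 ∧ Q4 w2 ∧ Q4 s2 ∧ Commute t1 ga ∧ Commute t1 w2 ∧
    Commute s2 w2 ∧ Commute s2 ga ∧ Commute w2 ga ∧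
    (r 0 2 * r 1 3) * w1 * (r 0 2 * r 1 3)⁻¹ = w2 ∧ t1 * t1 = 1 ∧ s2 * s2 = 1 := by
  decide +kernel

theorem st2 : ∀ w : W, Commute w w2 → iB w = true → mv w = 4 → mv (w * w2) = 4 →
    ∃ k ∈ [1, f 2 4, r 0 1, r 0 4, r 0 5, r 2 3, r 2 3 * r 0 1, r 2 3 * r 0 4, r 2 3 * r 0 5],
      Commute k w2 ∧ (k * w * k⁻¹ = s2 ∨ k * w * k⁻¹ = t1) := by decide +kernel

theorem st3 : ∀ w : W, Commute w w2 → iB w = true → mv w = 4 → ∀ v ∈ [s2, t1], Commute w v →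
    mv (w * w2) ≤ 4 → mv (w * v) ≤ 4 → mv (w * (v * w2)) ≤ 4 → w ∈ [w2, s2, s2 * w2, t1, t1 * w2] ∧
      (w = w2 ∨ w = v ∨ w = v * w2) := by
  decide +kernel

theorem st4 : ∀ w ∈ [w2, s2, s2 * w2, t1, t1 * w2], mv (ga * w) ≠ 12 ∧ mv (ga * (w2 * w)) ≠ 4 ∧
    ga * (w2 * w) * w = w3 ∧ ga * (w2 * w) * (ga * (w2 * w)) = 1 ∧ ga * w * (ga * w) = 1 ∧
      Commute (w2 * w) ga ∧ w2 * w * (w2 * w) = 1 := by
  decide +kernel

end Cfsg.Agent.YK.E
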