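import Cfsg.Agent.YK.E1

/-! Endgame of the alternating case. -/

set_option autoImplicit false

namespace Cfsg.Agent.YK
open Subgroup

variable {G : Type*} [Group G]

namespace E

theorem syl [Finite G] {H M : Subgroup G} (ho : Odd H.index) (hH : H ≤ M) {t : G} (ht : t ∈ M)
    (t2 : t * t = 1) : ∃ m ∈ M, m * t * m⁻¹ ∈ H := by
  classical
  haveI := Fintype.ofFinite (M ⧸ H.subgroupOf M)
  haveI : Fact (Nat.Prime 2) := ⟨Nat.prime_two⟩
  have o : Odd (H.relIndex M) := ho.of_dvd_nat (relIndex_dvd_index_of_le hH)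
  obtain ⟨q, hq⟩ := Equiv.Perm.exists_fixed_point_of_prime (p := 2) (n := 1)
    (α := M ⧸ H.subgroupOf M) (by
      rw [← Nat.card_eq_fintype_card]; exact o.not_two_dvd_nat)
    (σ := MulAction.toPermHom M _ ⟨t, ht⟩) (by
      rw [← map_pow, show (⟨t, ht⟩ : M) ^ 2 ^ 1 = 1 from Subtype.ext (by simpa [pow_two] using t2),
        map_one])
  induction q using QuotientGroup.induction_on with | H m => ?_
  have e : ((⟨t, ht⟩ * m : M) : M ⧸ H.subgroupOf M) = m := hq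
  rw [eq_comm, QuotientGroup.eq, mem_subgroupOf] at e
  exact ⟨(m : G)⁻¹, inv_mem m.2, by simpa [mul_assoc] using e⟩

theorem dpow {a b : G} (ha : a * a = 1) (hb : b * b = 1) (j : ℤ) :
    (Even j → IsConj b (b * (a * b) ^ j)) ∧ (Odd j → IsConj a (b * (a * b) ^ j)) := by
  have ia := inv_eq_of_mul_eq_one_right ha
  have ib := inv_eq_of_mul_eq_one_right hb
  have sb : SemiconjBy b (a * b) (a * b)⁻¹ := by rw [SemiconjBy, mul_inv_rev, ia, ib, mul_assoc]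
  have sc : SemiconjBy (b * (a * b)) (a * b) (a * b)⁻¹ := by
    rw [SemiconjBy, sb.eq, mul_assoc, sb.eq]
  have e : ∀ d, SemiconjBy d (a * b) (a * b)⁻¹ → ∀ k : ℤ, IsConj d (d * (a * b) ^ (k + k)) :=
    fun d h k => isConj_iff.2 ⟨((a * b) ^ k)⁻¹, by
      rw [← inv_zpow, ← (h.zpow_right k).eq, inv_zpow, inv_inv, zpow_add, mul_assoc]⟩
  refine ⟨fun ⟨k, hk⟩ => hk ▸ e b sb k, fun ⟨k, hk⟩ => ?_⟩
  have := e _ sc k
  rw [hk, show b * (a * b) ^ (2 * k + 1) = b * (a * b) * (a * b) ^ (k + k) by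
    rw [mul_assoc b, ← zpow_one_add]; congr 2; ring]
  exact (isConj_iff.2 ⟨b, by rw [ib, mul_assoc]⟩).trans this

def EM (M : Subgroup G) (a b : G) : Prop := ∃ m ∈ M, m * a * m⁻¹ = b

theorem EM.trans {M : Subgroup G} {a b c : G} (h : EM M a b) (k : EM M b c) : EM M a c := by
  obtain ⟨m, hm, rfl⟩ := h
  obtain ⟨n, hn, rfl⟩ := k
  exact ⟨n * m, mul_mem hn hm, by group⟩

theorem EM.ic {M : Subgroup G} {a b : G} (h : EM M a b) : IsConj a b := by
  obtain ⟨m, -, e⟩ := h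
  exact isConj_iff.2 ⟨m, e⟩

theorem csq {a b m : G} (e : m * a * m⁻¹ = b) (h : a * a = 1) : b * b = 1 := by
  rw [← e, conj_mul, h]; simp

structure Ctx (S : St G) (x : G) (Y M : Subgroup G) : Prop extends YS S x Y where
  hH : ∀ w, S.ι w ∈ M
  hY : Y ≤ M

variable {S : St G} {x : G} {Y M : Subgroup G}

theorem isq {w : W} : S.ι w * S.ι w = 1 ↔ w * w = 1 := by
  rw [← map_mul, ← map_one S.ι]; exact S.inj.eq_iff

theorem icm {a b : W} : Commute (S.ι a) (S.ι b) ↔ Commute a b := by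
  rw [commute_iff_eq, commute_iff_eq, ← map_mul, ← map_mul]; exact S.inj.eq_iff

namespace Ctx
variable (h : Ctx S x Y M)
include h

theorem clsW : ∀ (n : ℕ) (w : W), nt w < n → w * w = 1 → w = 1 ∨ EM M (S.ι w) (S.ι al) ∨
    EM M (S.ι w) (S.ι ga) ∨ EM M (S.ι w) (S.ι w1) := by
  intro n
  induction n with
  | zero => intro w hw; omega
  | succ n ih =>
    intro w hw w2
    rcases red w2 with e | rfl | ⟨k, e⟩
    · exact .inl e
    · exact .inr (.inl ⟨1, one_mem _, by simp⟩)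
    have c : EM M (S.ι w) (S.ι (k⁻¹ * w * k)) := ⟨S.ι k⁻¹, h.hH _, by simp⟩
    rcases e with e | e | ⟨q, l⟩
    · exact .inr (.inr (.inr (e ▸ c)))
    · exact .inr (.inr (.inl (e ▸ c)))
    generalize k⁻¹ * w * k = u at c q l
    have c' : EM M (S.ι w) (S.ι (w1 * (s1 * u))) := c.trans ⟨x⁻¹, inv_mem (h.hY h.xY), by
      have e1 : S.ι u = S.ι s1 * S.ι (s1 * u) := by
        rw [← map_mul, ← mul_assoc, fx1.2.2.2.2.2.1, one_mul]
      rw [e1, map_mul S.ι w1, ← h.xw, inv_inv]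
      calc _ = S.ι w1 * (x⁻¹ * (S.ι (s1 * u) * x)) := by group
        _ = _ := by rw [← (h.xq _ q).eq]; group⟩
    obtain ⟨m, hm, e⟩ := c'
    rcases ih _ (by omega) (isq.1 (csq e (isq.2 w2))) with a | a
    · rw [a, map_one, conj_eq_one_iff, ← map_one S.ι] at e
      exact .inl (S.inj e)
    · have c' : EM M _ _ := ⟨m, hm, e⟩
      exact .inr (a.imp c'.trans (Or.imp c'.trans c'.trans))

theorem cls [Finite G] {t : G} (ht : t ∈ M) (t2 : t * t = 1) : t = 1 ∨ EM M t (S.ι al) ∨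
    EM M t (S.ι ga) ∨ EM M t (S.ι w1) := by
  obtain ⟨m, hm, w, e⟩ := syl S.odd (by rintro _ ⟨w, rfl⟩; exact h.hH w) ht t2
  have c' : EM M _ _ := ⟨m, hm, e.symm⟩
  rcases h.clsW _ w (Nat.lt_succ_self _) (isq.1 (csq e.symm t2)) with a | a
  · rw [a, map_one, eq_comm, conj_eq_one_iff] at e
    exact .inl e
  · exact .inr (a.imp c'.trans (Or.imp c'.trans c'.trans))

theorem ca {g : G} (c : Commute g (S.ι al)) : g ∈ M := by
  obtain ⟨w, rfl⟩ := S.cen g c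
  exact h.hH w

theorem cg {g : G} (c : Commute g (S.ι ga)) : g ∈ M := by
  obtain ⟨y, hy, w, -, rfl⟩ := h.dec g c
  exact mul_mem (h.hY hy) (h.hH w)

omit h in
theorem back {m g : G} (hm : m ∈ M) (a : m * g * m⁻¹ ∈ M) : g ∈ M := by
  simpa [mul_assoc] using mul_mem (mul_mem (inv_mem hm) a) hm

theorem four [Finite G] {d t : G} (hd : d ∉ M) (ht : t ∈ M) (t2 : t * t = 1) (c : Commute d t) :
    t = 1 ∨ EM M t (S.ι w1) := by
  rcases h.cls ht t2 with a | ⟨m, hm, e⟩ | ⟨m, hm, e⟩ | a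
  · exact .inl a
  · exact absurd (back hm (h.ca (e ▸ c.conj m))) hd
  · exact absurd (back hm (h.cg (e ▸ c.conj m))) hd
  · exact .inr a

theorem four' [Finite G] {d : G} {w : W} (hd : d ∉ M) (t2 : w * w = 1) (c : Commute d (S.ι w)) :
    mv w ≤ 4 ∧ (w ≠ 1 → mv w = 4) := by
  rcases h.four hd (h.hH w) (isq.2 t2) c with a | a
  · rw [← map_one S.ι] at a
    rw [S.inj a, mv1.1]; simp
  · rw [h.ty _ _ t2 fx1.2.2.1 a.ic, mv1.2.2.2.1]; simp

theorem zed [Finite G] {d : G} (hc : IsConj (S.ι al) d) :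
    ∃ z ∈ zpowers (d * S.ι ga), z * z = 1 ∧ z ≠ 1 ∧ Commute d z ∧ Commute z (S.ι ga) := by
  obtain ⟨g, e⟩ := isConj_iff.1 hc
  rcases dih (csq e (isq.2 fx1.1)) (isq (S := S).2 fx1.2.1) with ⟨u, -, a⟩ | ⟨z, a, b, c, d, e, -⟩
  · have := h.ty _ _ fx1.1 fx1.2.1 (hc.trans (isConj_iff.2 ⟨u, a⟩))
    rw [mv1.2.1, mv1.2.2.1] at this
    omega
  · exact ⟨z, a, b, c, d.symm, e⟩

theorem fin {d : G} (hc : IsConj (S.ι al) d) (c2 : Commute d (S.ι w2)) {w : W}
    (hw : w ∈ [w2, s2, s2 * w2, t1, t1 * w2]) (c : Commute d (S.ι w))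
    (hz : S.ι w ∈ zpowers (d * S.ι ga)) : False := by
  obtain ⟨g, e⟩ := isConj_iff.1 hc
  have d2 := csq e (isq.2 fx1.1)
  obtain ⟨j, hj⟩ := hz
  simp only at hj
  obtain ⟨k1, k2, k3, k4, k5, k6, k7⟩ := st4 w hw
  rcases Int.even_or_odd j with a | a
  · have := (dpow d2 (isq (S := S).2 k4) j).1 a
    have cv : Commute (d * S.ι ga) (S.ι (w2 * w)) :=
      (by rw [map_mul]; exact c2.mul_right c : Commute d _).mul_left (icm.2 k6.symm)
    obtain ⟨i, rfl⟩ := a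
    rw [map_mul S.ι ga, ← mul_assoc d, cv.mul_zpow, hj, ← two_mul, zpow_mul, zpow_two, isq.2 k7,
      one_zpow, mul_one, ← map_mul, ← map_mul, k3] at this
    have := h.ty _ _ k4 fx1.2.2.2.2.1 this
    rw [mv1.2.2.2.2.2] at this
    exact k2 this
  · have := (dpow d2 (isq (S := S).2 fx1.2.1) j).2 a
    rw [hj, ← map_mul] at this
    have := h.ty _ _ fx1.1 k5 (hc.trans this)
    rw [mv1.2.1] at this
    exact k1 this.symm

theorem step3 [Finite G] {d : G} (hc : IsConj (S.ι al) d) (hd : d ∉ M) (c2 : Commute d (S.ι w2))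
    {v : W} (hv : v = s2 ∨ v = t1) (cv : Commute d (S.ι v)) : False := by
  obtain ⟨-, -, -, f4, -, -, q1, q2, f5, f6, f7, f8, f9, -, f10, f11⟩ := fx1
  obtain ⟨z, hz, z2, z1, a, b⟩ := h.zed hc
  have v1 : Commute v w2 := by rcases hv with rfl | rfl <;> assumption
  have v2 : Commute v ga := by rcases hv with rfl | rfl <;> assumption
  have v3 : v * v = 1 := by rcases hv with rfl | rfl <;> assumption
  have zw : Commute z (S.ι w2) := cz (c2.mul_left (icm.2 f9.symm)) hz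
  have zv : Commute z (S.ι v) := cz (cv.mul_left (icm.2 v2.symm)) hz
  obtain ⟨σ, hσ, s2, sv, w, e⟩ : ∃ σ ∈ Y, Commute σ (S.ι w2) ∧ Commute σ (S.ι v) ∧
      ∃ w, σ * z * σ⁻¹ = S.ι w := by
    rcases hv with rfl | rfl
    · obtain ⟨σ, hσ, w, e⟩ := h.toYS.L4 b z2
      exact ⟨σ, hσ, h.cq σ hσ _ q1, h.cq σ hσ _ q2, w, e⟩
    · obtain ⟨σ, hσ, c, w, e⟩ := h.toYS.L3 (j := 3) (by decide) b z2 zv
      exact ⟨σ, hσ, h.cq σ hσ _ q1, c, w, e⟩
  have fx : ∀ g, Commute σ g → σ * g * σ⁻¹ = g := fun g c => by rw [c.eq, mul_inv_cancel_right]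
  have hd' : σ * d * σ⁻¹ ∉ M := fun c => hd (back (h.hY hσ) c)
  have w2' : w * w = 1 := isq.1 (csq e z2)
  have d1 : Commute (σ * d * σ⁻¹) (S.ι w) := e ▸ a.conj σ
  have d2 : Commute (σ * d * σ⁻¹) (S.ι w2) := fx _ s2 ▸ c2.conj σ
  have d3 : Commute (σ * d * σ⁻¹) (S.ι v) := fx _ sv ▸ cv.conj σ
  have ww : Commute w w2 := icm.1 (e ▸ fx _ s2 ▸ zw.conj σ)
  have wv : Commute w v := icm.1 (e ▸ fx _ sv ▸ zv.conj σ)
  have sq : ∀ a b : W, Commute a b → a * a = 1 → b * b = 1 → a * b * (a * b) = 1 :=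
    fun a b c p q => by rw [mul_assoc, ← mul_assoc b, ← c.eq, mul_assoc, q, mul_one, p]
  have w1 : w ≠ 1 := fun c => z1 (by rwa [c, map_one, conj_eq_one_iff] at e)
  obtain ⟨m, o⟩ := st3 w ww (iB_of w2') ((h.four' hd' w2' d1).2 w1) v (by simpa using hv) wv
    (h.four' hd' (sq _ _ ww w2' f4) (by rw [map_mul]; exact d1.mul_right d2)).1
    (h.four' hd' (sq _ _ wv w2' v3) (by rw [map_mul]; exact d1.mul_right d3)).1
    (h.four' hd' (sq _ _ (wv.mul_right ww) w2' (sq _ _ v1 v3 f4))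
      (by rw [map_mul, map_mul]; exact d1.mul_right (d3.mul_right d2))).1
  have : Commute σ (S.ι w) := by
    rcases o with rfl | rfl | rfl
    exacts [s2, sv, by rw [map_mul]; exact sv.mul_right s2]
  have ez : z = S.ι w := by
    have := fx _ this
    rw [← e] at this ⊢
    exact (mul_left_cancel (mul_right_cancel this)).symm
  exact h.fin hc c2 m (ez ▸ a) (ez ▸ hz)

theorem step2 [Finite G] {d : G} (hc : IsConj (S.ι al) d) (hd : d ∉ M) (c2 : Commute d (S.ι w2)) :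
    False := by
  obtain ⟨-, -, -, f4, -, -, q1, q2, f5, f6, f7, f8, f9, -, f10, f11⟩ := fx1
  obtain ⟨z, hz, z2, z1, a, b⟩ := h.zed hc
  have zw : Commute z (S.ι w2) := cz (c2.mul_left (icm.2 f9.symm)) hz
  have n : z ≠ S.ι w2 := fun e => h.fin hc c2 (by simp) c2 (e ▸ hz)
  obtain ⟨σ, hσ, w, e⟩ := h.toYS.L4 b z2
  have s2 := h.cq σ hσ _ q1
  have fx : σ * S.ι w2 * σ⁻¹ = S.ι w2 := by rw [s2.eq, mul_inv_cancel_right]
  have hd' : σ * d * σ⁻¹ ∉ M := fun c => hd (back (h.hY hσ) c)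
  have w2' : w * w = 1 := isq.1 (csq e z2)
  have d1 : Commute (σ * d * σ⁻¹) (S.ι w) := e ▸ a.conj σ
  have d2 : Commute (σ * d * σ⁻¹) (S.ι w2) := fx ▸ c2.conj σ
  have ww : Commute w w2 := icm.1 (e ▸ fx ▸ zw.conj σ)
  have w1 : w ≠ 1 := fun c => z1 (by rwa [c, map_one, conj_eq_one_iff] at e)
  have w3 : w * w2 ≠ 1 := fun c => n (by
    rw [mul_right_cancel (c.trans f4.symm), ← fx] at e
    exact mul_left_cancel (mul_right_cancel e))
  obtain ⟨k, -, kc, o⟩ := st2 w ww (iB_of w2') ((h.four' hd' w2' d1).2 w1)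
    ((h.four' hd' (by rw [mul_assoc, ← mul_assoc w2, ← ww.eq, mul_assoc, f4, mul_one, w2'])
      (by rw [map_mul]; exact d1.mul_right d2)).2 w3)
  refine h.step3 (d := S.ι k * (σ * d * σ⁻¹) * (S.ι k)⁻¹)
    (hc.trans (isConj_iff.2 ⟨S.ι k * σ, by group⟩)) (fun c => hd' (back (h.hH k) c)) ?_ o ?_
  · have := d2.conj (S.ι k)
    rwa [(icm.2 kc).eq, mul_inv_cancel_right] at this
  · simpa only [map_mul, map_inv] using d1.conj (S.ι k)

theorem all [Finite G] (g : G) : g ∈ M := by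
  by_contra hg
  have hc : IsConj (S.ι al) (g * S.ι al * g⁻¹) := isConj_iff.2 ⟨g, rfl⟩
  have hd : g * S.ι al * g⁻¹ ∉ M := fun c => by
    have ty : ∀ b : W, b * b = 1 → EM M (g * S.ι al * g⁻¹) (S.ι b) → 12 = mv b := fun b p q =>
      mv1.2.1 ▸ h.ty _ _ fx1.1 p (hc.trans q.ic)
    rcases h.cls c (csq rfl (isq.2 fx1.1)) with a | ⟨m, hm, e⟩ | a | a
    · have := ty 1 (mul_one _) ⟨1, one_mem _, by simp [a]⟩
      rw [mv1.1] at this; omega
    · have : m * g ∈ M := h.ca (by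
        rw [commute_iff_eq]; nth_rewrite 2 [← e]; group)
      exact hg (by simpa using mul_mem (inv_mem hm) this)
    · have := ty _ fx1.2.1 a
      rw [mv1.2.2.1] at this; omega
    · have := ty _ fx1.2.2.1 a
      rw [mv1.2.2.2.1] at this; omega
  generalize g * S.ι al * g⁻¹ = d at hc hd
  obtain ⟨z, -, z2, z1, a, b⟩ := h.zed hc
  obtain ⟨m, hm, e⟩ := ((h.four hd (h.cg b) z2 a).resolve_left z1).trans
    (⟨S.ι (r 0 2 * r 1 3), h.hH _, by
      rw [← map_inv, ← map_mul, ← map_mul, fx1.2.2.2.2.2.2.2.2.2.2.2.2.2.1]⟩ : EM M _ (S.ι w2))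
  exact h.step2 (d := m * d * m⁻¹) (hc.trans (isConj_iff.2 ⟨m, rfl⟩)) (fun c => hd (back hm c))
    (e ▸ a.conj m)

end Ctx
end E

theorem endg [Finite G] {S : St G} {x : G} {Y : Subgroup G} (h : YS S x Y) (M : Subgroup G)
    (hH : ∀ w, S.ι w ∈ M) (hY : Y ≤ M) : M = ⊤ :=
  eq_top_iff.2 fun g _ => E.Ctx.all ⟨h, hH, hY⟩ g

end Cfsg.Agent.YK
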