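import Cfsg.Agent.YK.Stmt

/-! Sylow 2-subgroup of the model, the unique elementary abelian subgroup of order 64. -/

set_option autoImplicit false

namespace Cfsg.Agent.YK
open Subgroup

def S0 : Subgroup W where
  carrier := {a | (a * w1 = w1 * a ∧ a * w2 = w2 * a) ∨ (a * w1 = w2 * a ∧ a * w2 = w1 * a)}
  one_mem' := Or.inl ⟨by simp, by simp⟩
  mul_mem' := by
    rintro a b (⟨h1, h2⟩ | ⟨h1, h2⟩) (⟨h3, h4⟩ | ⟨h3, h4⟩)
    · left; simp only [mul_assoc, h3, h4]; simp only [← mul_assoc, h1, h2, and_self]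
    · right; simp only [mul_assoc, h3, h4]; simp only [← mul_assoc, h1, h2, and_self]
    · right; simp only [mul_assoc, h3, h4]; simp only [← mul_assoc, h1, h2, and_self]
    · left; simp only [mul_assoc, h3, h4]; simp only [← mul_assoc, h1, h2, and_self]
  inv_mem' := by
    have k : ∀ a x y : W, a * x = y * a → a⁻¹ * y = x * a⁻¹ := fun a x y h => by
      rw [inv_mul_eq_iff_eq_mul, ← mul_assoc, h, mul_inv_cancel_right]
    rintro a (⟨h1, h2⟩ | ⟨h1, h2⟩)
    · exact Or.inl ⟨k _ _ _ h1, k _ _ _ h2⟩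
    · exact Or.inr ⟨k _ _ _ h2, k _ _ _ h1⟩

instance (a : W) : Decidable (a ∈ S0) := inferInstanceAs (Decidable
  ((a * w1 = w1 * a ∧ a * w2 = w2 * a) ∨ (a * w1 = w2 * a ∧ a * w2 = w1 * a)))

theorem S0_w3 : ∀ a : W, a ∈ S0 → Commute a w3 := fun a h => by
  have e : w3 = al * (w1 * w2) := by decide +kernel
  have c : w2 * w1 = w1 * w2 := by decide +kernel
  refine e ▸ (al_comm a).mul_right ?_
  rcases h with ⟨h1, h2⟩ | ⟨h1, h2⟩
  · exact Commute.mul_right h1 h2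
  · show a * _ = _ * a
    rw [← mul_assoc, h1, mul_assoc, h2, ← mul_assoc, c]

def us (i : Fin 8) : W := (if i.1 % 2 = 1 then f 0 2 else 1) * (if i.1 / 2 % 2 = 1 then f 0 4 else 1) *
  (if i.1 / 4 % 2 = 1 then r 0 2 * r 1 3 else 1)

theorem S0_a : ∀ a : W, Commute a w3 → a ∈ S0 → a ^ 8 = 1 ∧ (a ^ 4 = 1 ∨ a ^ 4 = w1 * w2) ∧
    ∃ i, (us i)⁻¹ * a ∈ A0 := by decide +kernel

theorem S0_max : ∀ q : W, (∃ a ∈ [s1, s2, s3], ∃ b ∈ [s1, s2, s3],
    ¬ Commute (q * a * q⁻¹) b ∧ (q * a * q⁻¹ * b) ^ 3 = 1) ∨ q ∈ S0 ∨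
    ∃ t ∈ [1, r 0 2 * r 1 3], ((q * t) ^ 4) ^ 3 = 1 ∧ (q * t) ^ 4 ≠ 1 := by decide +kernel

theorem two_three {G : Type*} [Group G] {Q : Subgroup G} (h : IsPGroup 2 Q) {y : G} (hy : y ∈ Q)
    (y3 : y ^ 3 = 1) : y = 1 := by
  obtain ⟨k, hk⟩ := h ⟨y, hy⟩
  have e : y ^ 2 ^ k = 1 := congrArg Subtype.val hk
  have := pow_gcd_eq_one.2 ⟨y3, e⟩
  rwa [Nat.Coprime.gcd_eq_one (Nat.Coprime.pow_right k (by decide)), pow_one] at this

def PS : Sylow 2 W where
  toSubgroup := S0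
  isPGroup' := fun a => ⟨3, Subtype.ext (S0_a a.1 (S0_w3 _ a.2) a.2).1⟩
  is_maximal' := fun {Q} hQ hle => le_antisymm (fun q hq => by
    have m : ∀ a ∈ [s1, s2, s3, 1, r 0 2 * r 1 3], a ∈ S0 := by decide +kernel
    have sq : ∀ a ∈ [s1, s2, s3], a * a = 1 := by decide +kernel
    rcases S0_max q with ⟨a, ha, b, hb, h1, h2⟩ | h | ⟨t, ht, h1, h2⟩
    · have := two_three hQ (mul_mem (mul_mem (mul_mem hq (hle (m a (by simp at ha ⊢; tauto))))
        (inv_mem hq)) (hle (m b (by simp at hb ⊢; tauto)))) h2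
      exact absurd (by rw [eq_inv_of_mul_eq_one_left this]; exact (Commute.refl b).inv_left) h1
    · exact h
    · exact absurd (two_three hQ (pow_mem (mul_mem hq (hle (m t (by simp at ht ⊢; tauto)))) 4) h1)
        h2) hle

theorem A0_av : ∀ a : W, a ∈ A0 → ∃ n < 64, av n = a := by decide +kernel

theorem av_A0 : ∀ n < 64, av n ∈ A0 ∧ av n ∈ S0 ∧ av n * av n = 1 := by decide +kernel

theorem av_xor : ∀ n < 64, ∀ m < 64, av n * av m = av (n ^^^ m) := by decide +kernel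

theorem av_inj : ∀ n < 64, ∀ m < 64, av n = av m → n = m := by
  have : ∀ n < 64, av n = 1 → n = 0 := by decide +kernel
  intro n hn m hm e
  have h := this _ (Nat.xor_lt_two_pow (n := 6) hn hm) (by rw [← av_xor n hn m hm, e, (av_A0 m hm).2.2])
  exact Nat.xor_eq_zero_iff.1 h

theorem A0_sq {a : W} (h : a ∈ A0) : a * a = 1 := by
  obtain ⟨n, hn, rfl⟩ := A0_av a h; exact (av_A0 n hn).2.2

theorem A0_le : A0 ≤ S0 := fun a h => by
  obtain ⟨n, hn, rfl⟩ := A0_av a h; exact (av_A0 n hn).2.1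

theorem A0_comm {a b : W} (h : a ∈ A0) (h' : b ∈ A0) : Commute a b := by
  obtain ⟨n, hn, rfl⟩ := A0_av a h
  obtain ⟨m, hm, rfl⟩ := A0_av b h'
  show _ * _ = _ * _
  rw [av_xor n hn m hm, av_xor m hm n hn, Nat.xor_comm]

theorem card_A0 : Nat.card A0 = 64 := by
  rw [← Nat.card_eq_of_bijective (fun n : Fin 64 => (⟨av n, (av_A0 n n.2).1⟩ : A0))
    ⟨fun n m e => Fin.ext (av_inj _ n.2 _ m.2 (congrArg Subtype.val e)), fun a => by
      obtain ⟨n, hn, e⟩ := A0_av a.1 a.2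
      exact ⟨⟨n, hn⟩, Subtype.ext e⟩⟩]
  simp

theorem invA' : ∀ w : W, w * w = 1 → ∃ j k : Fin 6, r 3 k * r 1 j * w * (r 3 k * r 1 j)⁻¹ ∈ A0 := by
  decide +kernel

theorem invA (w : W) (h : w * w = 1) : ∃ h : W, h * w * h⁻¹ ∈ A0 :=
  let ⟨_, _, e⟩ := invA' w h; ⟨_, e⟩

def cA (i j : Fin 8) : Prop := (us j * us i)⁻¹ * (us i * us j) ∈ A0 ∧ us i * us i ∈ A0
instance (i j : Fin 8) : Decidable (cA i j) := by unfold cA; infer_instance

theorem uq (B : Subgroup W) (hB : B ≤ S0) (cm : ∀ a ∈ B, ∀ b ∈ B, a * b = b * a)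
    (sq : ∀ a ∈ B, a * a = 1) (cd : 64 ≤ Nat.card B) : B ≤ A0 := by
  classical
  by_contra hn
  obtain ⟨b0, hb0, n0⟩ := SetLike.not_le_iff_exists.1 hn
  let P : Fin 8 → Prop := fun i => ∃ b ∈ B, (us i)⁻¹ * b ∈ A0
  have nm : ∀ i, ∀ a ∈ A0, (us i)⁻¹ * a * us i ∈ A0 := fun i a ha => by
    obtain ⟨n, hn, rfl⟩ := A0_av a ha
    revert i n; decide +kernel
  have bd : ∀ (U : Finset (Fin 8)) (C : Finset ℕ), (∀ i, P i → i ∈ U) →
      (∀ n < 64, av n ∈ B → n ∈ C) → Nat.card B ≤ U.card * C.card := fun U C hU hC => by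
    choose! g hg hg' using fun i (h : P i) => h
    have : (B : Set W) ⊆ ((U ×ˢ C).image fun q => g q.1 * av q.2 : Finset W) := fun b hb => by
      obtain ⟨i, hi⟩ := (S0_a b (S0_w3 _ (hB hb)) (hB hb)).2.2
      have pi : P i := ⟨b, hb, hi⟩
      have e : (g i)⁻¹ * b = ((us i)⁻¹ * g i)⁻¹ * ((us i)⁻¹ * b) := by group
      obtain ⟨n, hn, en⟩ := A0_av _ (e ▸ mul_mem (inv_mem (hg' i pi)) hi)
      simp only [Finset.coe_image, Finset.coe_product, Set.mem_image]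
      exact ⟨(i, n), ⟨hU i pi, hC n hn (en ▸ mul_mem (inv_mem (hg i pi)) hb)⟩, by simp [en]⟩
    have := Set.ncard_le_ncard this (Finset.finite_toSet _)
    rw [Set.ncard_coe_finset] at this
    exact this.trans (Finset.card_image_le.trans (Finset.card_product _ _).le)
  have c1 : ∀ i, P i → ∀ n < 64, av n ∈ B → Commute (av n) (us i) := by
    rintro i ⟨b, hb, e⟩ n hn h
    have := (show Commute (av n) b from cm _ h _ hb).mul_right (A0_comm (av_A0 n hn).1 e).inv_right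
    simpa using this
  have c2 : ∀ i j, P i → P j → cA i j := by
    rintro i j ⟨b, hb, e⟩ ⟨c, hc, e'⟩
    obtain ⟨a, ha, rfl⟩ : ∃ a ∈ A0, b = us i * a := ⟨_, e, by simp⟩
    obtain ⟨d, hd, rfl⟩ : ∃ a ∈ A0, c = us j * a := ⟨_, e', by simp⟩
    constructor
    · have : (us j * us i)⁻¹ * (us i * us j) =
          ((us i)⁻¹ * d * us i) * a * d⁻¹ * ((us j)⁻¹ * a * us j)⁻¹ := by
        rw [inv_mul_eq_iff_eq_mul]
        calc us i * us j = us i * a * (us j * d) * (d⁻¹ * ((us j)⁻¹ * a * us j)⁻¹) := by group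
          _ = _ := by rw [cm _ hb _ hc]; group
      exact this ▸ mul_mem (mul_mem (mul_mem (nm i d hd) ha) (inv_mem hd)) (inv_mem (nm j a ha))
    · have : us i * us i = (((us i)⁻¹ * a * us i) * a)⁻¹ := by
        rw [eq_inv_iff_mul_eq_one, ← sq _ hb]; group
      exact this ▸ inv_mem (mul_mem (nm i a ha) ha)
  obtain ⟨i, hi⟩ := (S0_a b0 (S0_w3 _ (hB hb0)) (hB hb0)).2.2
  have pi : P i := ⟨b0, hb0, hi⟩
  have i0 : i ≠ 0 := by
    rintro rfl
    exact n0 (by rwa [show us 0 = 1 by decide +kernel, inv_one, one_mul] at hi)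
  by_cases h : ∃ j, P j ∧ j ≠ 0 ∧ j ≠ i
  · obtain ⟨j, pj, j0, ji⟩ := h
    have := bd (Finset.univ.filter fun k => cA k i ∧ cA k j)
      ((Finset.range 64).filter fun n => Commute (av n) (us i) ∧ Commute (av n) (us j))
      (fun k pk => by simp [c2 k i pk pi, c2 k j pk pj])
      (fun n hn h => by simp [hn, c1 i pi n hn h, c1 j pj n hn h])
    have k : ∀ i j : Fin 8, i ≠ 0 → j ≠ 0 → j ≠ i → cA i j → cA j i →
        (Finset.univ.filter fun k => cA k i ∧ cA k j).card * ((Finset.range 64).filter fun n =>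
          Commute (av n) (us i) ∧ Commute (av n) (us j)).card ≤ 32 := by decide +kernel
    have := k i j i0 j0 ji (c2 i j pi pj) (c2 j i pj pi)
    omega
  · have := bd {0, i} ((Finset.range 64).filter fun n => Commute (av n) (us i))
      (fun k pk => by
        by_contra c
        simp only [Finset.mem_insert, Finset.mem_singleton, not_or] at c
        exact h ⟨k, pk, c⟩)
      (fun n hn h => by simp [hn, c1 i pi n hn h])
    have k : ∀ i : Fin 8, i ≠ 0 → ({0, i} : Finset (Fin 8)).card *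
        ((Finset.range 64).filter fun n => Commute (av n) (us i)).card ≤ 32 := by decide +kernel
    have := k i i0
    omega

end Cfsg.Agent.YK
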