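import Cfsg.Agent.YK.F1

/-! Control of fusion by the normalizer of the elementary abelian subgroup of order 64. -/

set_option autoImplicit false
set_option linter.unusedSectionVars false

namespace Cfsg.Agent.YK
open Subgroup
open scoped Pointwise

variable {G : Type*} [Group G] [Finite G]

namespace St
variable (S : St G)

theorem cmα (w : W) : Commute (S.ι w) (S.ι al) := (al_comm w).map S.ι

def PG : Sylow 2 G := IsPGroup.toSylow (P := S0.map S.ι) (PS.isPGroup'.map S.ι) (by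
  rw [index_map_of_injective _ S.inj, Nat.prime_two.dvd_mul]
  rintro (h | h)
  · exact PS.not_dvd_index h
  · exact S.odd.not_two_dvd_nat h)

theorem mem_PG {g : G} : g ∈ S.PG ↔ ∃ w ∈ S0, S.ι w = g := Iff.rfl

theorem cjP {P : Subgroup G} (h : IsPGroup 2 P) :
    ∃ g : G, ∀ x ∈ P, ∃ w ∈ S0, S.ι w = g * x * g⁻¹ := by
  obtain ⟨Q, hQ⟩ := h.exists_le_sylow
  obtain ⟨g, hg⟩ := MulAction.exists_smul_eq G Q S.PG
  refine ⟨g, fun x hx => S.mem_PG.1 ?_⟩
  rw [← hg]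
  exact Subgroup.smul_mem_pointwise_smul _ (MulAut.conj g) _ (hQ hx)

/-- `g` normalizes the image of `A0` -/
def NA (g : G) : Prop := ∀ a ∈ A0, ∃ b ∈ A0, g * S.ι a * g⁻¹ = S.ι b

theorem NA.mul {S : St G} {g h : G} (hg : S.NA g) (hh : S.NA h) : S.NA (g * h) := fun a ha => by
  obtain ⟨b, hb, e⟩ := hh a ha
  obtain ⟨c, hc, e'⟩ := hg b hb
  exact ⟨c, hc, by rw [← e', ← e]; group⟩

theorem NA.inv {S : St G} {g : G} (hg : S.NA g) : S.NA g⁻¹ := fun b hb => by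
  choose φ h1 h2 using fun a : A0 => hg a.1 a.2
  have : Function.Injective fun a => (⟨φ a, h1 a⟩ : A0) := fun a c e => by
    have e' : φ a = φ c := congrArg Subtype.val e
    have := (h2 a).trans (e' ▸ (h2 c).symm)
    exact Subtype.ext (S.inj (by simpa using this))
  obtain ⟨a, e⟩ := Finite.surjective_of_injective this ⟨b, hb⟩
  have e' : φ a = b := congrArg Subtype.val e
  exact ⟨a, a.2, by rw [← e', ← h2 a]; group⟩

theorem na_of {g : G} (h : ∀ a ∈ A0, ∃ w ∈ S0, S.ι w = g * S.ι a * g⁻¹) : S.NA g := by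
  let B : Subgroup W := ((A0.map S.ι).map (MulAut.conj g).toMonoidHom).comap S.ι
  have m : ∀ b, b ∈ B ↔ ∃ a ∈ A0, g * S.ι a * g⁻¹ = S.ι b := fun b => by
    simp [B, mem_comap, mem_map]
  have := uq B (fun b hb => by
      obtain ⟨a, ha, e⟩ := (m b).1 hb
      obtain ⟨w, hw, e'⟩ := h a ha
      rwa [S.inj (e.symm.trans e'.symm)])
    (fun b hb c hc => S.inj (by
      obtain ⟨a, ha, e⟩ := (m b).1 hb
      obtain ⟨d, hd, e'⟩ := (m c).1 hc
      rw [map_mul, map_mul, ← e, ← e', conj_mul, conj_mul, ← map_mul, ← map_mul,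
        (A0_comm ha hd).eq]))
    (fun b hb => S.inj (by
      obtain ⟨a, ha, e⟩ := (m b).1 hb
      rw [map_mul, ← e, conj_mul, ← map_mul, A0_sq ha]; simp))
    (by
      choose φ h1 h2 using fun a : A0 => h a.1 a.2
      rw [← card_A0]
      exact Nat.card_le_card_of_injective (fun a => (⟨φ a, (m _).2 ⟨a, a.2, (h2 a).symm⟩⟩ : B))
        fun a c e => by
          have e' : φ a = φ c := congrArg Subtype.val e
          have := (h2 a).symm.trans (e' ▸ h2 c)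
          exact Subtype.ext (S.inj (by simpa using this)))
  intro a ha
  obtain ⟨w, -, e⟩ := h a ha
  exact ⟨w, this ((m w).2 ⟨a, ha, e.symm⟩), e.symm⟩

theorem pA (g : G) : IsPGroup 2 ((A0.map S.ι).map (MulAut.conj g).toMonoidHom) :=
  ((PS.isPGroup'.to_le A0_le).map _).map _

theorem ctrl {a b : W} (ha : a ∈ A0) (hb : b ∈ A0) (h : IsConj (S.ι a) (S.ι b)) :
    ∃ n, S.NA n ∧ n * S.ι a * n⁻¹ = S.ι b := by
  obtain ⟨g, hg⟩ := isConj_iff.1 h
  let K := centralizer {S.ι b}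
  have mK : ∀ u : G, u * S.ι a * u⁻¹ = S.ι b → ∀ c ∈ A0, u * S.ι c * u⁻¹ ∈ K := fun u e c hc => by
    rw [mem_centralizer_singleton_iff, ← e, conj_mul, conj_mul, ← map_mul, ← map_mul,
      (A0_comm hc ha).eq]
  have mK' : ∀ c ∈ A0, S.ι c ∈ K := fun c hc =>
    mem_centralizer_singleton_iff.2 ((A0_comm hc hb).map S.ι)
  obtain ⟨P, hP⟩ := ((S.pA g).comap_subtype (K := K)).exists_le_sylow
  obtain ⟨Q, hQ⟩ := ((S.pA 1).comap_subtype (K := K)).exists_le_sylow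
  obtain ⟨k, hk⟩ := MulAction.exists_smul_eq K P Q
  obtain ⟨u, hu⟩ := S.cjP (Q.isPGroup'.map K.subtype)
  have n1 : S.NA u := S.na_of fun c hc => hu _ ⟨⟨_, mK' c hc⟩, hQ ⟨_, ⟨c, hc, rfl⟩, by simp⟩, rfl⟩
  have n2 : S.NA (u * (k * g)) := S.na_of fun c hc => by
    have : k * ⟨_, mK g hg c hc⟩ * k⁻¹ ∈ (Q : Subgroup K) := by
      rw [← hk]
      exact Subgroup.smul_mem_pointwise_smul _ (MulAut.conj k) _ (hP ⟨_, ⟨c, hc, rfl⟩, rfl⟩)
    obtain ⟨w, hw, e⟩ := hu _ ⟨_, this, rfl⟩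
    exact ⟨w, hw, by rw [e]; simp [mul_assoc]⟩
  refine ⟨k * g, by simpa using n1.inv.mul n2, ?_⟩
  have := mem_centralizer_singleton_iff.1 k.2
  rw [mul_inv_rev, ← mul_assoc, mul_assoc (k : G), mul_assoc (k : G), hg, this, mul_inv_cancel_right]

theorem nf3 : ¬ IsConj (S.ι al) (S.ι w3) := fun h => by
  obtain ⟨g, hg⟩ := isConj_iff.1 h
  let K := centralizer {S.ι w3}
  have k1 : (S.PG : Subgroup G) ≤ K := by
    rintro _ ⟨w, hw, rfl⟩
    exact mem_centralizer_singleton_iff.2 ((S0_w3 w hw).map S.ι)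
  have k2 : ((g • S.PG : Sylow 2 G) : Subgroup G) ≤ K := by
    rintro _ ⟨_, ⟨w, hw, rfl⟩, rfl⟩
    show g * S.ι w * g⁻¹ ∈ K
    rw [mem_centralizer_singleton_iff, ← hg, conj_mul, conj_mul, (S.cmα w).eq]
  obtain ⟨k, hk⟩ := MulAction.exists_smul_eq K ((g • S.PG).subtype k2) (S.PG.subtype k1)
  have N : ∀ w ∈ S0, ∃ v ∈ S0, S.ι v = k * g * S.ι w * (k * g)⁻¹ := fun w hw => by
    have m : g * S.ι w * g⁻¹ ∈ ((g • S.PG : Sylow 2 G) : Subgroup G) := ⟨_, ⟨w, hw, rfl⟩, rfl⟩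
    have : k * ⟨_, k2 m⟩ * k⁻¹ ∈ ((S.PG.subtype k1 : Sylow 2 K) : Subgroup K) := by
      rw [← hk]
      exact Subgroup.smul_mem_pointwise_smul _ (MulAut.conj k) _ m
    obtain ⟨v, hv, e⟩ := S.mem_PG.1 this
    exact ⟨v, hv, by rw [e]; simp [mul_assoc]⟩
  have a1 : k * g * S.ι al * (k * g)⁻¹ = S.ι w3 := by
    have := mem_centralizer_singleton_iff.1 k.2
    rw [mul_inv_rev, ← mul_assoc, mul_assoc (k : G), mul_assoc (k : G), hg, this,
      mul_inv_cancel_right]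
  generalize (k : G) * g = n at N a1
  have a2 : n * S.ι (w1 * w2) * n⁻¹ = S.ι (w1 * w2) := by
    have e : r 0 2 * r 1 3 * r 0 1 * f 0 4 ∈ S0 ∧ (r 0 2 * r 1 3 * r 0 1 * f 0 4) ^ 4 = w1 * w2 ∧
      w1 * w2 ≠ 1 := by decide +kernel
    obtain ⟨v, hv, e'⟩ := N _ e.1
    have : S.ι (v ^ 4) = n * S.ι (w1 * w2) * n⁻¹ := by rw [← e.2.1, map_pow, map_pow, e', conj_pow]
    rcases (S0_a v (S0_w3 v hv) hv).2.1 with c | c
    · rw [c, map_one] at this
      exact absurd (S.inj (by simpa using this.symm)) e.2.2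
    · rw [← this, c]
  have a3 : n * S.ι w3 * n⁻¹ = S.ι al := by
    rw [show w3 = al * (w1 * w2) by decide +kernel, map_mul, ← conj_mul, a1, a2, ← map_mul]
    congr 1; decide +kernel
  have hn : n ∈ normalizer ((S.PG : Subgroup G) : Set G) :=
    mem_normalizer_fintype fun x hx => by
      obtain ⟨w, hw, rfl⟩ := S.mem_PG.1 hx
      exact S.mem_PG.2 (N w hw)
  obtain ⟨j, m, hm, e⟩ := Nat.exists_eq_two_pow_mul_odd (orderOf_pos n).ne'
  have p2 : IsPGroup 2 (zpowers (n ^ m)) := by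
    rintro ⟨_, i, rfl⟩
    refine ⟨j, Subtype.ext ?_⟩
    show ((n ^ m) ^ i) ^ 2 ^ j = 1
    rw [← zpow_natCast, ← zpow_mul, mul_comm, zpow_mul, zpow_natCast, ← pow_mul, mul_comm, ← e,
      pow_orderOf_eq_one, one_zpow]
  have : n ^ m ∈ zpowers (n ^ m) ⊓ (S.PG : Subgroup G) := by
    rw [← p2.inf_normalizer_sylow]; exact ⟨mem_zpowers _, pow_mem hn m⟩
  obtain ⟨w, -, ew⟩ := S.mem_PG.1 this.2
  obtain ⟨t, rfl⟩ := hm
  have c2 : Commute (n ^ 2) (S.ι al) := by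
    show _ * _ = _ * _
    rw [← mul_inv_eq_iff_eq_mul]
    calc _ = n * (n * S.ι al * n⁻¹) * n⁻¹ := by simp [pow_two, mul_assoc]
      _ = _ := by rw [a1, a3]
  have c1 : Commute n (S.ι al) := by
    have := (ew ▸ S.cmα w).mul_left (c2.pow_left t).inv_left
    rwa [pow_succ', pow_mul, mul_inv_cancel_right] at this
  rw [c1.eq, mul_inv_cancel_right] at a1
  exact absurd (S.inj a1) (by decide +kernel)

end St

end Cfsg.Agent.YK
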