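import Cfsg.Agent.YK.F2

/-! The possible fusion patterns. -/

set_option autoImplicit false
set_option linter.unusedSectionVars false

namespace Cfsg.Agent.YK
open Subgroup

def sm (F : ℕ → ℕ) (n : ℕ) : ℕ := Nat.rec 0 (fun i acc => Nat.add acc (F i)) n

theorem sm_eq (F : ℕ → ℕ) (n : ℕ) : sm F n = ∑ i ∈ Finset.range n, F i := by
  induction n with
  | zero => rfl
  | succ n ih => rw [Finset.sum_range_succ, ← ih]; rfl

def bt (M i : ℕ) : ℕ := Nat.land (Nat.shiftRight M i) 1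
def c2 (M z : ℕ) : ℕ := sm (fun i => Nat.mul (bt M i) (bt M (Nat.xor i z))) 64
def c3 (M z : ℕ) : ℕ := sm (fun i => cond (Nat.beq (bt M i) 1) (c2 M (Nat.xor i z)) 0) 64

/-- linear bijections of the index set -/
structure Lb (φ : ℕ → ℕ) : Prop where
  lt : ∀ i < 64, φ i < 64
  inj : ∀ i < 64, ∀ j < 64, φ i = φ j → i = j
  xor : ∀ i < 64, ∀ j < 64, φ (i ^^^ j) = φ i ^^^ φ j

theorem x64 {i j : ℕ} (hi : i < 64) (hj : j < 64) : i ^^^ j < 64 :=
  Nat.xor_lt_two_pow (n := 6) hi hj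

theorem Lb.sum {φ : ℕ → ℕ} (h : Lb φ) {F F' : ℕ → ℕ} (e : ∀ i < 64, F (φ i) = F' i) :
    sm F 64 = sm F' 64 := by
  rw [sm_eq, sm_eq]
  have m : ∀ i ∈ Finset.range 64, φ i ∈ Finset.range 64 := fun i hi =>
    Finset.mem_range.2 (h.lt i (Finset.mem_range.1 hi))
  have j : Set.InjOn φ (Finset.range 64) := fun i hi j hj =>
    h.inj i (by simpa using hi) j (by simpa using hj)
  exact (Finset.sum_nbij φ m j (Finset.surjOn_of_injOn_of_card_le φ m j le_rfl)
    fun i hi => (e i (Finset.mem_range.1 hi)).symm).symm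

theorem Lb.c2 {φ : ℕ → ℕ} (h : Lb φ) {M : ℕ} (e : ∀ i < 64, bt M (φ i) = bt M i) {z : ℕ}
    (hz : z < 64) : c2 M (φ z) = c2 M z :=
  h.sum fun i hi => by
    show bt M (φ i) * bt M (φ i ^^^ φ z) = bt M i * bt M (i ^^^ z)
    rw [← h.xor i hi z hz, e i hi, e _ (x64 hi hz)]

theorem Lb.c3 {φ : ℕ → ℕ} (h : Lb φ) {M : ℕ} (e : ∀ i < 64, bt M (φ i) = bt M i) {z : ℕ}
    (hz : z < 64) : c3 M (φ z) = c3 M z :=
  h.sum fun i hi => by
    show cond _ (YK.c2 M (φ i ^^^ φ z)) 0 = cond _ (YK.c2 M (i ^^^ z)) 0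
    rw [← h.xor i hi z hz, e i hi, h.c2 e (x64 hi hz)]

def mk8 (a b c d e g h k : Bool) : ℕ := 2097152 + cond a 281479271682316 0 + cond b 1179680 0 +
  cond c 5066627176211136 0 + cond d 1228375541602634752 0 + cond e 9007337276702720 0 +
  cond g 2504039604269613056 0 + cond h 5188291906265677824 0 + cond k 9511681577843687424 0

def LM : List ℕ := [2097152, 281479273779468, 9007337278799872, 17204294567652757772,
  17213020425657778176]

def ck (M : ℕ) : Bool := frc M fun M => frc (c2 M 21) fun a =>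
  cond ([2, 5, 6, 10, 22, 26, 42, 43].all fun z => cond (Nat.beq (bt M z) 1) (Nat.beq (c2 M z) a) true)
    (frc (c3 M 21) fun b => [2, 5, 6, 10, 22, 26, 42, 43].all fun z =>
      cond (Nat.beq (bt M z) 1) (Nat.beq (c3 M z) b) true) false

theorem ck_mk : ∀ a b c d e g h k : Bool, ck (mk8 a b c d e g h k) = true →
    mk8 a b c d e g h k ∈ LM := by decide +kernel

def rp (i : ℕ) : ℕ := (26881180417206423325194193962458473122589029599595825420877437336723861975791861566438508333728498248939363507904576 >>> (6 * i)) % 64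

def hk (k : ℕ) : W := (if k % 2 = 1 then f 0 2 else 1) * (if k / 2 % 2 = 1 then f 0 4 else 1) *
  ([1, r 0 2 * r 1 3, r 2 4 * r 3 5, r 0 2 * r 1 3 * (r 2 4 * r 3 5), r 2 4 * r 3 5 * (r 0 2 * r 1 3),
    r 0 2 * r 1 3 * (r 2 4 * r 3 5) * (r 0 2 * r 1 3)].getD (k / 4) 1)

theorem rp_cj : ∀ i < 64, ∃ k < 24, hk k * av (rp i) = av i * hk k := by decide +kernel

theorem bt_mk : ∀ a b c d e g h k : Bool, ∀ i < 64, bt (mk8 a b c d e g h k) i =
    if rp i = 21 ∨ (rp i = 2 ∧ a) ∨ (rp i = 5 ∧ b) ∨ (rp i = 6 ∧ c) ∨ (rp i = 10 ∧ d) ∨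
      (rp i = 22 ∧ e) ∨ (rp i = 26 ∧ g) ∨ (rp i = 42 ∧ h) ∨ (rp i = 43 ∧ k) then 1 else 0 := by
  decide +kernel

variable {G : Type*} [Group G] [Finite G]

namespace St
variable (S : St G)

def O (i : ℕ) : Prop := IsConj (S.ι al) (S.ι (av i))

theorem lb {n : G} (h : S.NA n) : ∃ φ, Lb φ ∧ ∀ i < 64, n * S.ι (av i) * n⁻¹ = S.ι (av (φ i)) := by
  have : ∀ i < 64, ∃ j < 64, n * S.ι (av i) * n⁻¹ = S.ι (av j) := fun i hi => by
    obtain ⟨b, hb, e⟩ := h _ (av_A0 i hi).1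
    obtain ⟨j, hj, rfl⟩ := A0_av b hb
    exact ⟨j, hj, e⟩
  choose! φ h1 h2 using this
  refine ⟨φ, ⟨h1, fun i hi j hj e => av_inj i hi j hj (S.inj ?_), fun i hi j hj =>
    av_inj _ (h1 _ (x64 hi hj)) _ (x64 (h1 i hi) (h1 j hj)) (S.inj ?_)⟩, h2⟩
  · exact mul_left_cancel (mul_right_cancel ((h2 i hi).trans (e ▸ (h2 j hj).symm)))
  · rw [← h2 _ (x64 hi hj), ← av_xor i hi j hj, ← av_xor _ (h1 i hi) _ (h1 j hj), map_mul, map_mul,
      ← h2 i hi, ← h2 j hj, conj_mul]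

theorem cb {i j : ℕ} (hi : i < 64) (hj : j < 64) (h : IsConj (S.ι (av i)) (S.ι (av j))) :
    ∃ n φ, Lb φ ∧ (∀ i < 64, n * S.ι (av i) * n⁻¹ = S.ι (av (φ i))) ∧ φ i = j := by
  obtain ⟨n, hn, e⟩ := S.ctrl (av_A0 i hi).1 (av_A0 j hj).1 h
  obtain ⟨φ, h1, h2⟩ := S.lb hn
  exact ⟨n, φ, h1, h2, av_inj _ (h1.lt i hi) j hj (S.inj (by rw [← h2 i hi, e]))⟩

/-- `M` is the characteristic function of the class of the central involution -/
def Mk (M : ℕ) : Prop := ∀ i < 64, (S.O i ∧ bt M i = 1) ∨ (¬ S.O i ∧ bt M i = 0)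

theorem Mk.inv {S : St G} {M : ℕ} (h : S.Mk M) {n : G} {φ : ℕ → ℕ} (l : Lb φ)
    (e : ∀ i < 64, n * S.ι (av i) * n⁻¹ = S.ι (av (φ i))) : ∀ i < 64, bt M (φ i) = bt M i := by
  intro i hi
  have c : IsConj (S.ι (av i)) (S.ι (av (φ i))) := isConj_iff.2 ⟨n, e i hi⟩
  rcases h i hi with ⟨a, b⟩ | ⟨a, b⟩ <;> rcases h _ (l.lt i hi) with ⟨a', b'⟩ | ⟨a', b'⟩
  · rw [b, b']
  · exact absurd (a.trans c) a'
  · exact absurd (a'.trans c.symm) a
  · rw [b, b']

theorem av21 : av 21 = al := by decide +kernel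

theorem masks : ∃ M ∈ LM, S.Mk M := by
  classical
  have rr : ∀ i < 64, S.O i ↔ S.O (rp i) := fun i hi => by
    obtain ⟨k, -, e⟩ := rp_cj i hi
    have c : IsConj (S.ι (av (rp i))) (S.ι (av i)) :=
      isConj_iff.2 ⟨S.ι (hk k), by rw [← map_mul, e, map_mul, mul_inv_cancel_right]⟩
    exact ⟨fun h => h.trans c.symm, fun h => h.trans c⟩
  have o0 : ¬ S.O 0 := fun h => by
    rw [O, show av 0 = 1 by decide +kernel, map_one, isConj_one_left] at h
    exact absurd (S.inj (h.trans (map_one _).symm)) (by decide +kernel)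
  have o1 : ¬ S.O 1 := fun h => S.nf3 (by
    have := (rr 16 (by omega)).2 h
    rwa [O, show av 16 = w3 by decide +kernel] at this)
  have o21 : S.O 21 := by rw [O, av21]
  have hM : S.Mk (mk8 (S.O 2) (S.O 5) (S.O 6) (S.O 10) (S.O 22) (S.O 26) (S.O 42) (S.O 43)) := by
    intro i hi
    rw [bt_mk _ _ _ _ _ _ _ _ i hi, rr i hi]
    have : ∀ i < 64, rp i ∈ [0, 1, 21, 2, 5, 6, 10, 22, 26, 42, 43] := by decide +kernel
    have := this i hi
    generalize rp i = j at this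
    simp only [List.mem_cons, List.not_mem_nil, or_false] at this
    rcases this with rfl | rfl | rfl | rfl | rfl | rfl | rfl | rfl | rfl | rfl | rfl <;>
      simp [o0, o1, o21, em]
  refine ⟨_, ck_mk _ _ _ _ _ _ _ _ ?_, hM⟩
  generalize mk8 _ _ _ _ _ _ _ _ = M at hM
  have k : ∀ z < 64, bt M z = 1 → c2 M z = c2 M 21 ∧ c3 M z = c3 M 21 := fun z hz b => by
    have oz : S.O z := by
      rcases hM z hz with ⟨a, -⟩ | ⟨-, a⟩
      · exact a
      · omega
    obtain ⟨n, φ, l, e, rfl⟩ := S.cb (i := 21) (by omega) hz (av21 ▸ oz)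
    exact ⟨l.c2 (hM.inv l e) (by omega), l.c3 (hM.inv l e) (by omega)⟩
  have q : ∀ (c : ℕ → ℕ), (∀ z < 64, bt M z = 1 → c z = c 21) →
      ([2, 5, 6, 10, 22, 26, 42, 43].all fun z =>
        cond (Nat.beq (bt M z) 1) (Nat.beq (c z) (c 21)) true) = true := fun c hc => by
    rw [List.all_eq_true]
    intro z hz
    cases e : Nat.beq (bt M z) 1
    · rfl
    · exact Nat.beq_eq ▸ hc z (by simp at hz; omega) (Nat.eq_of_beq_eq_true e)
  simp only [ck, frc_eq]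
  rw [q _ fun z hz b => (k z hz b).1, q _ fun z hz b => (k z hz b).2]
  rfl

theorem toA {w : W} (h : IsConj (S.ι al) (S.ι w)) :
    ∃ j k : Fin 6, ∃ i < 64, S.O i ∧ w = (r 3 k * r 1 j)⁻¹ * av i * (r 3 k * r 1 j) := by
  have : w * w = 1 := S.inj (by
    obtain ⟨g, e⟩ := isConj_iff.1 h
    rw [map_mul, ← e, conj_mul, ← map_mul, show al * al = 1 by decide +kernel]; simp)
  obtain ⟨j, k, e⟩ := invA' w this
  obtain ⟨i, hi, e'⟩ := A0_av _ e
  refine ⟨j, k, i, hi, h.trans (isConj_iff.2 ⟨S.ι (r 3 k * r 1 j), ?_⟩), by rw [e']; group⟩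
  rw [e', map_mul _ _ (_⁻¹), map_inv, map_mul _ _ w]

theorem iso (h : S.Mk 2097152) : Cfsg.IsIsolated (S.ι al) := fun g c => by
  obtain ⟨w, e⟩ := S.cen _ c.symm
  obtain ⟨j, k, i, hi, o, rfl⟩ := S.toA (w := w) (isConj_iff.2 ⟨g, e.symm⟩)
  have : ∀ i < 64, bt 2097152 i = 1 → i = 21 := by decide +kernel
  obtain rfl := this i hi (by rcases h i hi with a | a; exacts [a.2, absurd o a.1])
  rw [← e, av21, ((al_comm _).inv_left).eq, inv_mul_cancel_right]

theorem sph (h : S.Mk 281479273779468) : SpH S where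
  cl w c := by
    obtain ⟨j, k, i, hi, o, rfl⟩ := S.toA c
    have : ∀ i < 64, bt 281479273779468 i = 1 → ∀ j k : Fin 6,
      (r 3 k * r 1 j)⁻¹ * av i * (r 3 k * r 1 j) = al ∨
        Rf ((r 3 k * r 1 j)⁻¹ * av i * (r 3 k * r 1 j)) := by decide +kernel
    exact this i hi (by rcases h i hi with a | a; exacts [a.2, absurd o a.1]) j k
  fu := by
    rcases h 2 (by omega) with a | a
    · have := a.1; rwa [O, show av 2 = s1 by decide +kernel] at this
    · exact absurd a.2 (by decide +kernel)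

end St

end Cfsg.Agent.YK
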