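import Cfsg.Agent.YK.F3

/-! The twist by the sign character and the alternating case. -/

set_option autoImplicit false
set_option linter.unusedSectionVars false

namespace Cfsg.Agent.YK
open Subgroup

theorem ap_al' : ∀ j < 12, ap al.1 j / 2 = j / 2 ∧ (ap al.1 j = 2 * (j / 2) ∨ j = 2 * (j / 2)) := by
  decide +kernel

theorem ap_half (a : W) {j : ℕ} (hj : j < 12) : ap a.1 (2 * (j / 2)) / 2 = ap a.1 j / 2 := by
  rcases (ap_al' j hj).2 with e | e
  · rw [← e, ← ap_mul _ _ hj, (al_comm a).eq, ap_mul _ _ hj, (ap_al' _ (ap_lt a hj)).1]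
  · rw [← e]

def p6 (a : W) (i : Fin 6) : Fin 6 :=
  ⟨ap a.1 (2 * i) / 2, by have := ap_lt a (by omega : 2 * i.1 < 12); omega⟩

instance : MulAction W (Fin 6) where
  smul := p6
  one_smul i := Fin.ext (by
    show ap (1 : W).1 (2 * i) / 2 = i
    rw [ap_one (by omega)]; omega)
  mul_smul a b i := Fin.ext (by
    show ap (a * b).1 (2 * i) / 2 = ap a.1 (2 * (ap b.1 (2 * i) / 2)) / 2
    rw [ap_mul _ _ (by omega), ap_half a (ap_lt b (by omega))])

def sg : W →* ℤˣ := Equiv.Perm.sign.comp (MulAction.toPermHom W (Fin 6))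

theorem sg_f (i j : Fin 6) : sg (f i j) = 1 := by
  have : ∀ i j k : Fin 6, p6 (f i j) k = k := by decide +kernel
  rw [sg, MonoidHom.comp_apply, show MulAction.toPermHom W (Fin 6) (f i j) = 1 from
    Equiv.ext (this i j), map_one]

theorem sg_r {i j : Fin 6} (h : i ≠ j) : sg (r i j) = -1 := by
  have : ∀ i j k : Fin 6, p6 (r i j) k = Equiv.swap i j k := by decide +kernel
  rw [sg, MonoidHom.comp_apply, show MulAction.toPermHom W (Fin 6) (r i j) = Equiv.swap i j from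
    Equiv.ext (this i j), Equiv.Perm.sign_swap h]

theorem al_sq : al * al = 1 := by decide +kernel

theorem sg_al : sg al = 1 := by simp [al, sg_f]

def dl : W →* W := MonoidHom.mk' (fun w => if sg w = 1 then w else w * al) fun a b => by
  rcases Int.units_eq_one_or (sg a) with h | h <;> rcases Int.units_eq_one_or (sg b) with h' | h' <;>
    simp [h, h', mul_assoc, (al_comm b).eq]
  rw [← mul_assoc, al_sq, one_mul]

theorem dl_of {w : W} (h : sg w = 1) : dl w = w := if_pos h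
theorem dl_of' {w : W} (h : sg w = -1) : dl w = w * al := if_neg (by rw [h]; decide)

theorem dl_dl (w : W) : dl (dl w) = w := by
  rcases Int.units_eq_one_or (sg w) with h | h
  · rw [dl_of h, dl_of h]
  · rw [dl_of' h, dl_of' (by simp [h, sg_al]), mul_assoc, al_sq, mul_one]

def od (i : ℕ) : ℕ := if (i / 2 + i / 8 + i / 32) % 2 = 1 then i ^^^ 21 else i

theorem dl_av {i : ℕ} (hi : i < 64) : dl (av i) = av (od i) := by
  have a : dl w1 = w1 := dl_of (sg_f _ _)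
  have b : dl w2 = w2 := dl_of (sg_f _ _)
  have c : dl w3 = w3 := dl_of (sg_f _ _)
  have a' : dl s1 = s1 * al := dl_of' (sg_r (by decide))
  have b' : dl s2 = s2 * al := dl_of' (sg_r (by decide))
  have c' : dl s3 = s3 * al := dl_of' (sg_r (by decide))
  rw [av]
  simp only [map_mul, apply_ite dl, map_one, a, b, c, a', b', c']
  revert i; decide +kernel

theorem genQ (P : Subgroup W) (a : s2 ∈ P) (b : r 3 4 ∈ P) (c : s3 ∈ P) (d : w3 ∈ P) {q : W}
    (h : Q4 q) : q ∈ P := by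
  have k : ∀ x ∈ P, ∀ y ∈ P, x * y * x ∈ P := fun x hx y hy => mul_mem (mul_mem hx hy) hx
  have r24 := k _ b _ a
  have t : ∀ k < 5, 2 ≤ k → ∀ j < 12 - 2 * k, ∃ x ∈ [1, w3, r 3 4 * w3 * r 3 4,
      r 3 4 * s2 * r 3 4 * w3 * (r 3 4 * s2 * r 3 4)], ∃ y ∈ [1, s2, r 3 4, s3, r 3 4 * s2 * r 3 4,
      s3 * r 3 4 * s3, s3 * (r 3 4 * s2 * r 3 4) * s3], tr k j = x * y := by decide +kernel
  have t' : ∀ k < 5, 2 ≤ k → ∀ j < 12 - 2 * k, tr k j ∈ P := fun i hi i2 j hj => by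
    obtain ⟨x, hx, y, hy, e⟩ := t i hi i2 j hj
    simp only [List.mem_cons, List.not_mem_nil, or_false] at hx hy
    refine e ▸ mul_mem ?_ ?_
    · rcases hx with rfl | rfl | rfl | rfl
      exacts [one_mem _, d, k _ b _ d, k _ r24 _ d]
    · rcases hy with rfl | rfl | rfl | rfl | rfl | rfl | rfl
      exacts [one_mem _, a, b, c, r24, k _ c _ b, k _ c _ r24]
  have o : ∀ k < 6, ap q.1 (2 * k) = 2 * k → ap q.1 (2 * k + 1) = 2 * k + 1 := fun k hk e => by
    rw [← ap_al k hk, ← ap_mul _ _ (by omega), (al_comm _).eq, ap_mul _ _ (by omega), e]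
  obtain ⟨c, hc, h3⟩ := tr_step (k := 2) (w := q) (by omega) fun i hi => by
    rcases (by omega : i = 0 ∨ i = 1 ∨ i = 2 ∨ i = 3) with rfl | rfl | rfl | rfl
    exacts [h.1, o 0 (by omega) h.1, h.2, o 1 (by omega) h.2]
  obtain ⟨d, hd, h4⟩ := tr_step (k := 3) (by omega) h3
  obtain ⟨e, he, h5⟩ := tr_step (k := 4) (by omega) h4
  have := fix_ten h5
  simp only [inv_mul_eq_iff_eq_mul, mul_one] at this
  exact this ▸ mul_mem (t' 2 (by omega) le_rfl c hc) (mul_mem (t' 3 (by omega) (by omega) d hd)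
    (t' 4 (by omega) (by omega) e he))

def ps (k t : ℕ) : ℕ := (3879544174915292793244222304886634572836571041760991533751971579076066826070290913935338998757684874666847553187078959822769968960054672338208203005289595401255935418287034448643412262756971318142477798336699407480217157955913586679083698702283358762262610049 >>> (6 * (6 * k + t))) % 64

theorem ps_spec : ∀ k < 24, ∀ t < 6, ps k t < 64 ∧
    hk k * av (2 ^ t) * (hk k)⁻¹ = av (ps k t) := by decide +kernel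

def ln (a b c d e g i : ℕ) : ℕ := (if i % 2 = 1 then a else 0) ^^^ (if i / 2 % 2 = 1 then b else 0) ^^^
  (if i / 4 % 2 = 1 then c else 0) ^^^ (if i / 8 % 2 = 1 then d else 0) ^^^
  (if i / 16 % 2 = 1 then e else 0) ^^^ (if i / 32 % 2 = 1 then g else 0)

theorem Lb.ln {φ : ℕ → ℕ} (h : Lb φ) {i : ℕ} (hi : i < 64) :
    φ i = ln (φ 1) (φ 2) (φ 4) (φ 8) (φ 16) (φ 32) i := by
  have z : φ 0 = 0 := by simpa using h.xor 0 (by omega) 0 (by omega)
  have k : ∀ (c : Prop) [Decidable c] (a : ℕ), (if c then φ a else 0) = φ (if c then a else 0) :=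
    fun c _ a => by split <;> simp [z]
  have l : ∀ (c : Prop) [Decidable c] (a : ℕ), a < 64 → (if c then a else 0) < 64 :=
    fun c _ a _ => by split <;> omega
  have e : ∀ i < 64, i = YK.ln 1 2 4 8 16 32 i := by decide +kernel
  have a := l (i % 2 = 1) 1 (by omega)
  have b := l (i / 2 % 2 = 1) 2 (by omega)
  have c := l (i / 4 % 2 = 1) 4 (by omega)
  have d := l (i / 8 % 2 = 1) 8 (by omega)
  have f := l (i / 16 % 2 = 1) 16 (by omega)
  have g := l (i / 32 % 2 = 1) 32 (by omega)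
  simp only [YK.ln, k]
  rw [← h.xor _ a _ b, ← h.xor _ (x64 a b) _ c, ← h.xor _ (x64 (x64 a b) c) _ d,
    ← h.xor _ (x64 (x64 (x64 a b) c) d) _ f, ← h.xor _ (x64 (x64 (x64 (x64 a b) c) d) f) _ g]
  exact congrArg φ (e i hi)

def L9 : List ℕ := [1, 2, 3, 4, 8, 12, 16, 32, 48]

theorem ex_hk : ∀ a ∈ L9, ∀ c ∈ L9, ∀ e ∈ L9, a ^^^ c ^^^ e = 22 → ∀ b ∈ L9, a ^^^ b ∈ L9 →
    ∀ d ∈ L9, c ^^^ d ∈ L9 → ∀ g ∈ L9, e ^^^ g ∈ L9 → ∃ k < 24,
      ln a b c d e g (ps k 0) = 2 ∧ ln a b c d e g (ps k 2) = 4 ∧ ln a b c d e g (ps k 3) = 8 ∧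
      ln a b c d e g (ps k 4) = 16 ∧ ln a b c d e g (ps k 5) = 32 ∧
      (ln a b c d e g (ps k 1) = 3 ∨ ln a b c d e g (ps k 1) = 1) := by decide +kernel

variable {G : Type*} [Group G] [Finite G]

namespace St
variable (S : St G)

def tw : St G where
  ι := S.ι.comp dl
  inj := S.inj.comp (Function.LeftInverse.injective dl_dl)
  cen g h := by
    obtain ⟨w, e⟩ := S.cen g (by rwa [MonoidHom.comp_apply, dl_of sg_al] at h)
    exact ⟨dl w, by rw [MonoidHom.comp_apply, dl_dl, e]⟩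
  odd := by
    rw [MonoidHom.range_comp, MonoidHom.range_eq_top.2 (Function.RightInverse.surjective dl_dl),
      ← MonoidHom.range_eq_map]
    exact S.odd

theorem tw_al : S.tw.ι al = S.ι al := congrArg S.ι (dl_of sg_al)

theorem Mk.tw {S : St G} {M M' : ℕ} (h : S.Mk M) (e : ∀ i < 64, od i < 64 ∧ bt M (od i) = bt M' i) :
    S.tw.Mk M' := fun i hi => by
  have : S.tw.O i ↔ S.O (od i) := by
    rw [O, O, tw_al, ← dl_av hi]; rfl
  rw [this, ← (e i hi).2]
  exact h _ (e i hi).1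

theorem ty (h : S.Mk 17213020425657778176) (a b : W) (ha : a * a = 1) (hb : b * b = 1)
    (c : IsConj (S.ι a) (S.ι b)) : mv a = mv b := by
  have k : ∀ w : W, w * w = 1 → ∃ i < 64, IsConj (S.ι w) (S.ι (av i)) ∧ mv w = mv (av i) := by
    intro w hw
    obtain ⟨j, k, e⟩ := invA' w hw
    obtain ⟨i, hi, e'⟩ := A0_av _ e
    have : ∀ j k : Fin 6, ∀ i < 64,
      mv ((r 3 k * r 1 j)⁻¹ * av i * (r 3 k * r 1 j)) = mv (av i) := by decide +kernel
    refine ⟨i, hi, isConj_iff.2 ⟨S.ι (r 3 k * r 1 j), ?_⟩, ?_⟩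
    · rw [e', map_mul _ _ (_⁻¹), map_inv, map_mul _ _ w]
    · rw [← this j k i hi, e']; congr 1; group
  obtain ⟨i, hi, c1, e1⟩ := k a ha
  obtain ⟨j, hj, c2, e2⟩ := k b hb
  obtain ⟨n, φ, l, e, rfl⟩ := S.cb hi hj ((c1.symm.trans c).trans c2)
  have : ∀ i < 64, mv (av i) = (108 - 4 * YK.c2 17213020425657778176 i) / 15 * 2 +
    (if YK.c2 17213020425657778176 i = 8 then 2 else 0) := by decide +kernel
  rw [e1, e2, this i hi, this _ hj, l.c2 (h.inv l e) hi]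

theorem ex0 (h : S.Mk 17213020425657778176) : ∃ x : G, x * S.ι w1 * x⁻¹ = S.ι s1 ∧
    x * S.ι s1 * x⁻¹ = S.ι (s1 * w1) ∧ Commute x (S.ι w2) ∧ Commute x (S.ι s2) ∧
    Commute x (S.ι w3) ∧ Commute x (S.ι s3) := by
  have o : S.O 22 := by
    rcases h 22 (by omega) with a | a
    exacts [a.1, absurd a.2 (by decide +kernel)]
  obtain ⟨n, φ, l, e, e21⟩ := S.cb (i := 21) (j := 22) (by omega) (by omega) (av21 ▸ o)
  have m : ∀ i ∈ L9, φ i ∈ L9 := fun i hi => by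
    have k : ∀ i < 64, i ∈ L9 ↔ YK.c2 17213020425657778176 i = 18 := by decide +kernel
    have : i < 64 := by revert i; decide
    rw [k _ (l.lt i this), l.c2 (h.inv l e) this, ← k i this]; exact hi
  obtain ⟨k, hk', a1, a2, a3, a4, a5, a6⟩ := ex_hk _ (m 1 (by decide)) _ (m 4 (by decide)) _
    (m 16 (by decide)) (by rw [← l.xor _ (by omega) _ (by omega),
      ← l.xor _ (by decide) _ (by omega)]; exact e21) _ (m 2 (by decide))
    (l.xor 1 (by omega) 2 (by omega) ▸ m 3 (by decide)) _ (m 8 (by decide))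
    (l.xor 4 (by omega) 8 (by omega) ▸ m 12 (by decide)) _ (m 32 (by decide))
    (l.xor 16 (by omega) 32 (by omega) ▸ m 48 (by decide))
  have q : ∀ t < 6, ∀ j, ln (φ 1) (φ 2) (φ 4) (φ 8) (φ 16) (φ 32) (ps k t) = j →
      n * S.ι (hk k) * S.ι (av (2 ^ t)) * (n * S.ι (hk k))⁻¹ = S.ι (av j) := fun t ht j ej => by
    obtain ⟨p1, p2⟩ := ps_spec k hk' t ht
    rw [← ej, ← l.ln p1, ← e _ p1, ← p2]; simp [mul_assoc]
  have v : av (2 ^ 0) = w1 ∧ av (2 ^ 1) = s1 ∧ av (2 ^ 2) = w2 ∧ av (2 ^ 3) = s2 ∧ av (2 ^ 4) = w3 ∧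
    av (2 ^ 5) = s3 ∧ av 3 = s1 * w1 := by decide +kernel
  obtain ⟨v0, v1, v2, v3, v4, v5, v6⟩ := v
  have b1 := q 0 (by omega) (2 ^ 1) a1
  have b2 := q 2 (by omega) (2 ^ 2) a2
  have b3 := q 3 (by omega) (2 ^ 3) a3
  have b4 := q 4 (by omega) (2 ^ 4) a4
  have b5 := q 5 (by omega) (2 ^ 5) a5
  have b6 := a6.imp (q 1 (by omega) 3) (q 1 (by omega) (2 ^ 0))
  generalize n * S.ι (hk k) = y at b1 b2 b3 b4 b5 b6
  rw [v0, v1] at b1 b6
  rw [v2, mul_inv_eq_iff_eq_mul] at b2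
  rw [v3, mul_inv_eq_iff_eq_mul] at b3
  rw [v4, mul_inv_eq_iff_eq_mul] at b4
  rw [v5, mul_inv_eq_iff_eq_mul] at b5
  rcases b6 with b6 | b6
  · exact ⟨y, b1, v6 ▸ b6, b2, b3, b4, b5⟩
  have u : ∀ a b c d : W, y * S.ι a * y⁻¹ = S.ι b → y * S.ι (f 0 2 * b * f 0 2) * y⁻¹ = S.ι c →
      f 0 2 * c * f 0 2 = d → S.ι (f 0 2) * y * S.ι (f 0 2) * y * S.ι a *
        (S.ι (f 0 2) * y * S.ι (f 0 2) * y)⁻¹ = S.ι d := fun a b c d h1 h2 h3 => by
    have : (S.ι (f 0 2))⁻¹ = S.ι (f 0 2) := by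
      rw [← map_inv]; congr 1; decide +kernel
    rw [← h3, map_mul, map_mul, ← h2, map_mul, map_mul, ← h1]
    simp [mul_assoc, this]
  have c : ∀ a, y * S.ι a = S.ι a * y → y * S.ι a * y⁻¹ = S.ι a := fun a h => by simp [h]
  have c' : ∀ a b, y * S.ι a = S.ι a * y → y * S.ι b = S.ι b * y →
      y * S.ι (a * b) * y⁻¹ = S.ι (a * b) := fun a b h h' => by
    rw [map_mul, ← conj_mul, c a h, c b h']
  have d : y * S.ι (s1 * w1) * y⁻¹ = S.ι (w1 * s1) := by rw [map_mul, ← conj_mul, b1, b6, map_mul]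
  refine ⟨_, u w1 s1 (w1 * s1) s1 b1 ?_ ?_, u s1 w1 s1 _ b6 ?_ ?_, ?_, ?_, ?_, ?_⟩
  · rwa [show f 0 2 * s1 * f 0 2 = s1 * w1 by decide +kernel]
  · decide +kernel
  · rwa [show f 0 2 * w1 * f 0 2 = w1 by decide +kernel]
  · decide +kernel
  · exact mul_inv_eq_iff_eq_mul.1 (u w2 w2 w2 w2 (c _ b2) (by
      rw [show f 0 2 * w2 * f 0 2 = w2 by decide +kernel, c _ b2]) (by decide +kernel))
  · exact mul_inv_eq_iff_eq_mul.1 (u s2 s2 (s2 * w2) s2 (c _ b3) (by
      rw [show f 0 2 * s2 * f 0 2 = s2 * w2 by decide +kernel, c' _ _ b3 b2]) (by decide +kernel))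
  · exact mul_inv_eq_iff_eq_mul.1 (u w3 w3 w3 w3 (c _ b4) (by
      rw [show f 0 2 * w3 * f 0 2 = w3 by decide +kernel, c _ b4]) (by decide +kernel))
  · exact mul_inv_eq_iff_eq_mul.1 (u s3 s3 s3 s3 (c _ b5) (by
      rw [show f 0 2 * s3 * f 0 2 = s3 by decide +kernel, c _ b5]) (by decide +kernel))

end St

end Cfsg.Agent.YK
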