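import Cfsg.Agent.YK.F4

/-! The element of order 3 in the alternating case; the fusion theorem. -/

set_option autoImplicit false
set_option linter.unusedSectionVars false

namespace Cfsg.Agent.YK
open Subgroup

set_option synthInstance.maxSize 2000 in
theorem k_rho : ∀ e : W, Commute e w1 → Commute e s1 → Commute e ga → (e * s2) ^ 3 = 1 →
    (e * (s2 * w2)) ^ 3 = 1 → (e * s3) ^ 3 = 1 → (e * (s3 * w3)) ^ 3 = 1 →
    ∃ i < 16, e = av (4 * i) * r 3 4 * av (4 * i) := by decide +kernel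

theorem k_cq : ∀ e : W, Commute e w1 → Commute e s1 → Commute e s2 → Commute e (r 3 4) →
    Commute e s3 → Commute e w3 → V1 e ∨ V1 (e * ga) := by decide +kernel

variable {G : Type*} [Group G] [Finite G]

namespace St
variable (S : St G)

theorem cm {a b : W} (h : Commute (S.ι a) (S.ι b)) : Commute a b :=
  S.inj (by rw [map_mul, map_mul, h.eq])

theorem al_eq : S.ι al = S.ι w1 * (S.ι w2 * S.ι w3) := by
  rw [← map_mul, ← map_mul]; congr 1; decide +kernel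

theorem cen2 {g : G} (h1 : Commute g (S.ι w1)) (h2 : Commute g (S.ι ga)) : ∃ w, S.ι w = g :=
  S.cen g (by rw [show al = w1 * ga by decide +kernel, map_mul]; exact h1.mul_right h2)

theorem ex1 (h : S.Mk 17213020425657778176) : ∃ x : G, x ^ 3 = 1 ∧ x * S.ι w1 * x⁻¹ = S.ι s1 ∧
    x * S.ι s1 * x⁻¹ = S.ι (s1 * w1) ∧ ∀ q, Q4 q → Commute x (S.ι q) := by
  obtain ⟨y, a1, a2, c1, c2, c3, c4⟩ := S.ex0 h
  have a3 : y * S.ι (s1 * w1) * y⁻¹ = S.ι w1 := by
    rw [map_mul, ← conj_mul, a1, a2, ← map_mul]; congr 1; decide +kernel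
  have p3 : ∀ a b c : G, y * a * y⁻¹ = b → y * b * y⁻¹ = c → y * c * y⁻¹ = a →
      Commute (y ^ 3) a := fun a b c h1 h2 h3 => by
    show _ * _ = _ * _
    rw [← mul_inv_eq_iff_eq_mul]
    calc _ = y * (y * (y * a * y⁻¹) * y⁻¹) * y⁻¹ := by simp [pow_succ, mul_assoc]
      _ = _ := by rw [h1, h2, h3]
  have d1 := p3 _ _ _ a1 a2 a3
  have d2 := p3 _ _ _ a2 a3 a1
  obtain ⟨a, ea⟩ := S.cen (y ^ 3) (S.al_eq ▸ d1.mul_right ((c1.mul_right c3).pow_left 3))
  have ha : a ∈ A0 := mem_A0.2 ⟨S.cm (ea ▸ d1), S.cm (ea ▸ d2), S.cm (ea ▸ c1.pow_left 3),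
    S.cm (ea ▸ c2.pow_left 3), S.cm (ea ▸ c3.pow_left 3), S.cm (ea ▸ c4.pow_left 3)⟩
  have x3 : (y ^ 4) ^ 3 = 1 := by
    rw [← pow_mul, show 4 * 3 = 3 * (2 * 2) from rfl, pow_mul, ← ea, pow_mul, ← map_pow, pow_two a,
      A0_sq ha]; simp
  have b : ∀ a b : G, Commute (y ^ 3) a → y * a * y⁻¹ = b → y ^ 4 * a * (y ^ 4)⁻¹ = b :=
    fun a b h1 h2 => by
      rw [pow_succ', mul_inv_rev, mul_assoc y, h1.eq, ← h2]; simp [mul_assoc]
  have b1 := b _ _ d1 a1
  have b2 := b _ _ d2 a2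
  have b3 := b _ _ (p3 _ _ _ a3 a1 a2) a3
  have e1 := c1.pow_left 4
  have e2 := c2.pow_left 4
  have e3 := c3.pow_left 4
  have e4 := c4.pow_left 4
  generalize y ^ 4 = x at x3 b1 b2 b3 e1 e2 e3 e4
  refine ⟨x, x3, b1, b2, fun q hq => ?_⟩
  have cj : ∀ a b c : W, x * S.ι a * x⁻¹ = S.ι b → Commute c a →
      Commute (x * S.ι c * x⁻¹) (S.ι b) := fun a b c h1 h2 => h1 ▸ (h2.map S.ι).conj x
  have fx : ∀ a : G, Commute x a → x * a * x⁻¹ = a := fun a h => by rw [h.eq]; simp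
  have f1 := cj _ _ (r 3 4) b3 (by decide +kernel)
  have f2 := cj _ _ (r 3 4) b1 (by decide +kernel)
  have f3 := cj ga ga (r 3 4) (fx _ (by
    rw [show ga = w2 * w3 from rfl, map_mul]; exact e1.mul_right e3)) (by decide +kernel)
  obtain ⟨e, ee⟩ := S.cen2 f1 f3
  have o3 : ∀ a : W, Commute x (S.ι a) → (r 3 4 * a) ^ 3 = 1 → (e * a) ^ 3 = 1 :=
    fun a h1 h2 => S.inj (by
      rw [map_pow, map_mul, ee, ← fx _ h1, conj_mul, conj_pow, ← map_mul, ← map_pow, h2]; simp)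
  obtain ⟨i, hi, ei⟩ := k_rho e (S.cm (ee ▸ f1)) (S.cm (ee ▸ f2)) (S.cm (ee ▸ f3))
    (o3 _ e2 (by decide +kernel)) (o3 _ (map_mul S.ι _ _ ▸ e2.mul_right e1) (by decide +kernel))
    (o3 _ e4 (by decide +kernel)) (o3 _ (map_mul S.ι _ _ ▸ e4.mul_right e3) (by decide +kernel))
  let P : Subgroup W := (centralizer {x}).comap S.ι
  have mP : ∀ w, w ∈ P ↔ Commute x (S.ι w) := fun w => by
    rw [mem_comap, mem_centralizer_singleton_iff]; exact eq_comm
  have hv : Commute x (S.ι (av (4 * i))) := by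
    have : ∀ i < 16, ∃ a ∈ [1, w2], ∃ b ∈ [1, s2], ∃ c ∈ [1, w3], ∃ d ∈ [1, s3],
      av (4 * i) = a * b * c * d := by decide +kernel
    obtain ⟨a, ha, b, hb, c, hc, d, hd, e⟩ := this i hi
    have k : ∀ u v : W, Commute x (S.ι v) → u ∈ [1, v] → u ∈ P := fun u v h hu => by
      simp only [List.mem_cons, List.not_mem_nil, or_false] at hu
      rcases hu with rfl | rfl
      exacts [one_mem _, (mP _).2 h]
    exact (mP _).1 (e ▸ mul_mem (mul_mem (mul_mem (k _ _ e1 ha) (k _ _ e2 hb)) (k _ _ e3 hc))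
      (k _ _ e4 hd))
  have v2 : S.ι (av (4 * i)) * S.ι (av (4 * i)) = 1 := by
    rw [← map_mul, (av_A0 _ (by omega)).2.2, map_one]
  rw [ei, map_mul, map_mul] at ee
  have hr : Commute x (S.ι (r 3 4)) := by
    generalize S.ι (av (4 * i)) = v at hv v2 ee
    generalize S.ι (r 3 4) = ρ at ee
    have k2 : x * (x * ρ * x⁻¹) * x⁻¹ = ρ := by
      rw [← ee, ← conj_mul, ← conj_mul, fx _ hv, ← ee, ← mul_assoc, ← mul_assoc, v2, one_mul,
        mul_assoc, v2, mul_one]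
    have k3 : x * (x * (x * ρ * x⁻¹) * x⁻¹) * x⁻¹ = ρ := by
      calc _ = x ^ 3 * ρ * (x ^ 3)⁻¹ := by simp [pow_succ, mul_assoc]
        _ = _ := by simp [x3]
    rw [k2] at k3
    exact mul_inv_eq_iff_eq_mul.1 k3
  exact (mP q).1 (genQ P ((mP _).2 e2) ((mP _).2 hr) ((mP _).2 e4) ((mP _).2 e3) hq)

theorem anh (h : S.Mk 17213020425657778176) : ∃ x, AnH S x := by
  obtain ⟨x, x3, b1, b2, cq⟩ := S.ex1 h
  have b3 : x * S.ι (s1 * w1) * x⁻¹ = S.ι w1 := by
    rw [map_mul, ← conj_mul, b1, b2, ← map_mul]; congr 1; decide +kernel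
  have t2 : S.ι t1 * S.ι t1 = 1 := by rw [← map_mul, show t1 * t1 = 1 by decide +kernel, map_one]
  have ti : (S.ι t1)⁻¹ = S.ι t1 := inv_eq_of_mul_eq_one_right t2
  have u : ∀ a b c : W, x * S.ι a * x⁻¹ = S.ι b → x * S.ι (t1 * b * t1) * x⁻¹ = S.ι c →
      t1 * c * t1 = a → Commute (S.ι t1 * x * S.ι t1 * x) (S.ι a) := fun a b c h1 h2 h3 => by
    show _ * _ = _ * _
    rw [← mul_inv_eq_iff_eq_mul]
    conv_rhs => rw [← h3, map_mul, map_mul, ← h2, map_mul, map_mul, ← h1]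
    simp [mul_assoc, ti]
  have fx : ∀ a : W, Q4 a → x * S.ι a * x⁻¹ = S.ι a := fun a h => by rw [(cq a h).eq]; simp
  have uq : ∀ a : W, Q4 a → Q4 (t1 * a * t1) → Commute (S.ι t1 * x * S.ι t1 * x) (S.ι a) :=
    fun a h1 h2 => u a a _ (fx a h1) (fx _ h2) (by
      rw [← mul_assoc, ← mul_assoc, mul_assoc _ t1, show t1 * t1 = 1 by decide +kernel]; simp)
  have f1 := u w1 s1 w1 b1 (by rwa [show t1 * s1 * t1 = s1 * w1 by decide +kernel])
    (by decide +kernel)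
  have f2 := u s1 (s1 * w1) (s1 * w1) b2
    (by rwa [show t1 * (s1 * w1) * t1 = s1 by decide +kernel]) (by decide +kernel)
  obtain ⟨e, ee⟩ := S.cen2 f1 (uq ga (by decide +kernel) (by decide +kernel))
  have he := k_cq e (S.cm (ee ▸ f1)) (S.cm (ee ▸ f2))
    (S.cm (ee ▸ uq s2 (by decide +kernel) (by decide +kernel)))
    (S.cm (ee ▸ uq (r 3 4) (by decide +kernel) (by decide +kernel)))
    (S.cm (ee ▸ uq s3 (by decide +kernel) (by decide +kernel)))
    (S.cm (ee ▸ uq w3 (by decide +kernel) (by decide +kernel)))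
  have e1 : x * S.ι e * x⁻¹ = S.ι (t1 * e * t1) := by
    rw [map_mul, map_mul, ee]
    simp only [← mul_assoc, t2, one_mul, mul_inv_cancel_right]
  have e2 : (S.ι e * x⁻¹) ^ 3 = 1 := by
    rw [ee, mul_inv_cancel_right]
    conv_lhs => arg 1; arg 2; rw [← ti]
    rw [conj_pow, x3]; simp
  have R : ∀ a b c : W, x * S.ι b * x⁻¹ = S.ι a → x * S.ι c * x⁻¹ = S.ι b →
      (S.ι a * x⁻¹) ^ 3 = 1 → a * b * c = 1 := fun a b c h1 h2 h3 => S.inj (by
    have : S.ι a * S.ι b * S.ι c = (S.ι a * x⁻¹) ^ 3 * x ^ 3 := by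
      have k1 : S.ι b = x⁻¹ * S.ι a * x := by rw [← h1]; simp [mul_assoc]
      have k2 : S.ι c = x⁻¹ * S.ι b * x := by rw [← h2]; simp [mul_assoc]
      rw [k2, k1]; simp [pow_succ, mul_assoc]
    rw [map_mul, map_mul, this, h3, x3, map_one, mul_one])
  have g : ∀ a b : W, x * S.ι a * x⁻¹ = S.ι b → x * S.ι (a * ga) * x⁻¹ = S.ι (b * ga) :=
    fun a b h => by rw [map_mul, ← conj_mul, h, fx ga (by decide +kernel), map_mul]
  have g1 : x * S.ι 1 * x⁻¹ = S.ι 1 := by simp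
  have ty := S.ty h
  rcases he with (rfl | rfl | rfl | rfl) | he
  · refine ⟨x, ty, x3, b1, b2, cq, ?_⟩
    rw [map_one] at ee
    exact eq_inv_of_mul_eq_one_left ee.symm
  · exact absurd (S.inj (b1.symm.trans e1)) (by decide +kernel)
  · have s2' : S.ι s1 * S.ι s1 = 1 := by rw [← map_mul, show s1 * s1 = 1 by decide +kernel, map_one]
    have si : (S.ι s1)⁻¹ = S.ι s1 := inv_eq_of_mul_eq_one_right s2'
    have k : ∀ a b : W, x * S.ι a * x⁻¹ = S.ι b → Commute s1 a → Commute s1 b →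
        S.ι s1 * x * (S.ι s1)⁻¹ * S.ι a * (S.ι s1 * x * (S.ι s1)⁻¹)⁻¹ = S.ι b := fun a b h1 h2 h3 => by
      calc _ = S.ι s1 * (x * ((S.ι s1)⁻¹ * S.ι a * S.ι s1) * x⁻¹) * (S.ι s1)⁻¹ := by group
        _ = _ := by
          rw [mul_assoc _ (S.ι a), ← (h2.map S.ι).eq, inv_mul_cancel_left, h1, (h3.map S.ι).eq,
            mul_inv_cancel_right]
    refine ⟨S.ι s1 * x * (S.ι s1)⁻¹, ty, by rw [conj_pow, x3]; simp,
      k _ _ b1 (by decide +kernel) (by decide +kernel),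
      k _ _ b2 (by decide +kernel) (by decide +kernel), fun q hq => ?_, ?_⟩
    · have : Commute (S.ι s1) (S.ι q) := Commute.map (genQ (centralizer {s1})
        (mem_centralizer_singleton_iff.2 (by decide +kernel))
        (mem_centralizer_singleton_iff.2 (by decide +kernel))
        (mem_centralizer_singleton_iff.2 (by decide +kernel))
        (mem_centralizer_singleton_iff.2 (by decide +kernel)) hq _ rfl) S.ι
      exact (this.mul_left (cq q hq)).mul_left this.inv_left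
    · have k1 : S.ι t1 * S.ι s1 = S.ι (s1 * w1) * S.ι t1 := by
        rw [← map_mul, ← map_mul]; congr 1; decide +kernel
      have k2 : S.ι s1 * S.ι t1 = S.ι t1 * S.ι (s1 * w1) := by
        rw [← map_mul, ← map_mul]; congr 1; decide +kernel
      have k3 : S.ι t1 * x * S.ι t1 = S.ι s1 * x⁻¹ := by rw [ee]; simp
      have k4 : x⁻¹ * S.ι (s1 * w1) = S.ι s1 * x⁻¹ := by rw [← b2]; simp [mul_assoc]
      have k5 : S.ι s1 * x⁻¹ = x⁻¹ * S.ι (s1 * w1) := k4.symm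
      have k6 : S.ι w1 * x⁻¹ = x⁻¹ * S.ι s1 := by rw [← b1]; simp [mul_assoc]
      calc _ = S.ι (s1 * w1) * (S.ι t1 * x * S.ι t1) * S.ι (s1 * w1) := by
            rw [si, ← mul_assoc, ← mul_assoc, k1, mul_assoc _ (S.ι s1), k2]; simp [mul_assoc]
        _ = S.ι (s1 * w1 * s1 * s1) * x⁻¹ := by
            rw [k3, mul_assoc, mul_assoc, k4, map_mul _ _ s1, map_mul _ _ s1]; simp [mul_assoc]
        _ = _ := by
            rw [show s1 * w1 * s1 * s1 = s1 * w1 by decide +kernel, map_mul, mul_assoc, k6]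
            simp [mul_assoc, si]
  · exact absurd (S.inj (b3.symm.trans e1)) (by decide +kernel)
  · obtain ⟨v, hv, rfl⟩ : ∃ v, V1 v ∧ e = v * ga :=
      ⟨_, he, by rw [mul_assoc, show ga * ga = 1 by decide +kernel, mul_one]⟩
    rcases hv with rfl | rfl | rfl | rfl
    · exact absurd (R _ _ _ (g _ _ g1) (g _ _ g1) e2) (by decide +kernel)
    · exact absurd (S.inj ((g _ _ b1).symm.trans e1)) (by decide +kernel)
    · exact absurd (R _ _ _ (g _ _ b1) (g _ _ b3) e2) (by decide +kernel)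
    · exact absurd (S.inj ((g _ _ b3).symm.trans e1)) (by decide +kernel)

theorem fus : Cfsg.IsIsolated (S.ι al) ∨ ∃ S' : St G, SpH S' ∨ ∃ x, AnH S' x := by
  obtain ⟨M, hM, h⟩ := S.masks
  simp only [LM, List.mem_cons, List.not_mem_nil, or_false] at hM
  rcases hM with rfl | rfl | rfl | rfl | rfl
  · exact Or.inl (S.iso h)
  · exact Or.inr ⟨S, Or.inl (S.sph h)⟩
  · exact Or.inr ⟨S.tw, Or.inl (S.tw.sph (h.tw (by decide +kernel)))⟩
  · exact Or.inr ⟨S.tw, Or.inr (S.tw.anh (h.tw (by decide +kernel)))⟩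
  · exact Or.inr ⟨S, Or.inr (S.anh h)⟩

end St

end Cfsg.Agent.YK
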