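import Cfsg.Agent.YK.L1

/-! Finite checks for the key relation. -/

set_option autoImplicit false

namespace Cfsg.Agent.YK.K

def t0 : W := f 3 4
def tk : Fin 3 → W := ![f 0 3, f 1 3, f 2 3]
def wk : Fin 3 → W := ![f 1 2, f 0 2, f 0 1]
def hk : Fin 3 → W := ![r 0 1 * r 0 3, r 0 3, r 0 3 * r 1 2]
def mq : Fin 3 → W := ![r 0 2, r 1 2, 1]
def hh : W := p 0 2 * f 1 3 * f 4 5

theorem k_ty : ∀ e, Commute e w3 → Commute e s3 → Commute e t0 → e * e = 1 →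
    (mv t1 = mv e → mv (t1 * t0) = mv (e * t0) → mv (t1 * w3) = mv (e * w3) → ∃ l, e = tk l) ∧
    (mv al = mv (al * e) → ∃ k, V1 ((mq k)⁻¹ * e * mq k)) := by decide +kernel
theorem k_q : ∀ q, Q4 q → Commute w1 q := by decide +kernel
theorem k_fr : ∀ k, hk k * ga * (hk k)⁻¹ = wk k * w3 ∧ hk k * f 0 4 * (hk k)⁻¹ = t0 ∧
    hk k * w3 * (hk k)⁻¹ = w3 ∧ hk k * s3 * (hk k)⁻¹ = s3 ∧ hk k * w1 * (hk k)⁻¹ = tk k ∧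
    (∀ l, l ≠ k → Q4 ((hk k)⁻¹ * (t0 * tk l) * hk k)) ∧ al * tk k = wk k * w3 ∧
    mq k * w3 * (mq k)⁻¹ = w3 ∧ mq k * s3 * (mq k)⁻¹ = s3 ∧ mq k * t0 * (mq k)⁻¹ = t0 ∧
    mq k * w1 * (mq k)⁻¹ = wk k ∧ (∀ v ∈ [1, w1, s1, s1 * w1],
      Q4 ((hk k)⁻¹ * (mq k * v * (mq k)⁻¹) * hk k) ∧
      ∀ l, (tk l * (mq k * (v * ga) * (mq k)⁻¹)) ^ 4 = 1) := by decide +kernel
theorem k_el : Q4 w3 ∧ Q4 s3 ∧ Q4 t0 ∧ Q4 (tk 2) ∧ Commute t1 w3 ∧ Commute t1 s3 ∧ Commute t1 t0 ∧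
    t1 * t1 = 1 ∧ w3 * w3 = 1 ∧ t0 * t0 = 1 ∧ al * al = 1 ∧ mv t1 ≠ mv al ∧ w1 ≠ s1 ∧
    r 1 2 * tk 2 * (r 1 2)⁻¹ = tk 1 ∧ tk 1 = t1 * w1 ∧ (t1 * w1 * s1⁻¹ * t1) ^ 2 = 1 ∧
    Commute t1 (tk 1) ∧ Commute t1 (tk 2) ∧ Commute (tk 1) (tk 2) ∧ mq 1 * w1 * (mq 1)⁻¹ = t1 * tk 2 ∧
    hh = mq 1 * (s1 * w1 * ga) * (mq 1)⁻¹ ∧ hh * hh = 1 ∧ hh * tk 2 * hh = t1 ∧
    hh * w1 * hh = tk 1 * tk 2 ∧ hh * s1 * hh = r 1 2 ∧ tk 1 * tk 1 = 1 ∧ tk 2 * tk 2 = 1 ∧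
    s1 * (s1 * w1) * w1 = 1 := by decide +kernel

end Cfsg.Agent.YK.K
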