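import Cfsg.Agent.YK.K0

/-! The key relation in the alternating case. -/

set_option autoImplicit false

namespace Cfsg.Agent.YK
open Subgroup

variable {G : Type*} [Group G]
namespace K

theorem kcox {a b c d e : G} (a2 : a * a = 1) (b2 : b * b = 1) (c2 : c * c = 1) (d2 : d * d = 1)
    (e2 : e * e = 1) (ac : Commute a c) (ad : Commute a d) (ae : Commute a e) (bd : Commute b d)
    (be : Commute b e) (ce : Commute c e) (ab : b * a * b = a * b * a)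
    (bc : c * b * c = b * c * b) : (b * a * (d * c * e * d * (b * a) * (d * c * e * d))) ^ 2 = 1 := by
  have y : Commute a (d * c * e * d) := ((ad.mul_right ac).mul_right ae).mul_right ad
  have k : Commute a (d * c * d) := (ad.mul_right ac).mul_right ad
  have e1 : d * c * e * d * b * (d * c * e * d) = b * (d * c * d) * b :=
    calc _ = d * c * (e * (d * b * d * c) * e) * d := by group
      _ = d * (c * b * c) * d := by
        rw [← bd.eq, mul_assoc b, d2, mul_one, ← (be.mul_left ce).eq, mul_assoc _ e, e2]; group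
      _ = d * b * c * (b * d) := by rw [bc]; group
      _ = _ := by rw [← bd.eq]; nth_rewrite 2 [bd.eq]; group
  have e3 : b * a * (d * c * e * d * (b * a) * (d * c * e * d)) =
      a * b * (a * (d * c * d)) * (a * b)⁻¹ := by
    rw [mul_inv_rev, inv_eq_of_mul_eq_one_right a2, inv_eq_of_mul_eq_one_right b2, ← mul_assoc _ b a,
      mul_assoc _ a (d * c * e * d), y.eq, ← mul_assoc _ _ a, e1, ← mul_assoc (a * b) a, ← ab]
    group
  rw [e3, conj_pow, k.mul_pow, sq, sq, a2, show d * c * d * (d * c * d) = d * c * (d * d) * c * d by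
    group, d2, mul_one, mul_assoc d, c2, mul_one, d2]
  simp

/-- centralizing the dihedral group `T` -/
def CT (S : St G) (u : G) : Prop :=
  Commute u (S.ι w3) ∧ Commute u (S.ι s3) ∧ Commute u (S.ι t0)
/-- conjugates of `t1` under the centralizer of `T` -/
def Ty (S : St G) (b : G) : Prop := ∃ u, CT S u ∧ b = u * S.ι t1 * u⁻¹

variable {S : St G}
theorem CT.mul {a b : G} (h : CT S a) (k : CT S b) : CT S (a * b) :=
  ⟨h.1.mul_left k.1, h.2.1.mul_left k.2.1, h.2.2.mul_left k.2.2⟩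
theorem CT.inv {a : G} (h : CT S a) : CT S a⁻¹ := ⟨h.1.inv_left, h.2.1.inv_left, h.2.2.inv_left⟩
theorem CT.zp {a u : G} (h : CT S a) (hu : u ∈ zpowers a) : CT S u :=
  ⟨cz h.1 hu, cz h.2.1 hu, cz h.2.2 hu⟩
theorem Ty.ct {b : G} (h : Ty S b) : CT S b := by
  obtain ⟨u, a, rfl⟩ := h
  exact (a.mul ⟨k_el.2.2.2.2.1.map _, k_el.2.2.2.2.2.1.map _, k_el.2.2.2.2.2.2.1.map _⟩).mul a.inv
theorem Ty.sq {b : G} (h : Ty S b) : b * b = 1 := by
  obtain ⟨u, -, rfl⟩ := h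
  rw [conj_mul, ← map_mul, k_el.2.2.2.2.2.2.2.1]; simp
theorem Ty.cj {b u : G} (h : Ty S b) (k : CT S u) : Ty S (u * b * u⁻¹) := by
  obtain ⟨v, a, rfl⟩ := h
  exact ⟨u * v, k.mul a, by group⟩
theorem cm (S : St G) {a b : W} (h : Commute (S.ι a) (S.ι b)) : Commute a b :=
  S.inj (by rw [map_mul, map_mul]; exact h.eq)
theorem sq' (S : St G) {a : W} (h : S.ι a * S.ι a = 1) : a * a = 1 :=
  S.inj (by rw [map_mul, map_one, h])

end K
open K
namespace YS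
variable {S : St G} {x : G} {Y : Subgroup G} (h : YS S x Y)
include h

theorem ktyW {e : W} (t : Ty S (S.ι e)) : ∃ l, e = tk l := by
  have e2 := sq' S t.sq
  obtain ⟨c1, c2, c3⟩ := t.ct
  obtain ⟨u, ⟨u1, -, u3⟩, a⟩ := t
  obtain ⟨-, -, -, -, k1, -, k2, k3, k4, k5, -⟩ := k_el
  have k : ∀ q, Commute u (S.ι q) → Commute t1 q → Commute (S.ι e) (S.ι q) → q * q = 1 →
      mv (t1 * q) = mv (e * q) := fun q b c d q2 =>
    h.ty _ _ (by rw [c.symm.mul_mul_mul_comm, k3, q2, one_mul]) (by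
      rw [(cm S d).symm.mul_mul_mul_comm, e2, q2, one_mul]) (isConj_iff.2 ⟨u, by
      rw [map_mul, map_mul, ← conj_mul, ← a, b.eq, mul_inv_cancel_right]⟩)
  exact (k_ty e (cm S c1) (cm S c2) (cm S c3) e2).1 (h.ty _ _ k3 e2 (isConj_iff.2 ⟨u, a.symm⟩))
    (k _ u3 k2 c3 k5) (k _ u1 k1 c1 k4)

theorem kfrm [Finite G] (k : Fin 3) {b : G} (t : Ty S b) (c : Commute b (S.ι (wk k))) :
    (∃ l, b = S.ι (tk l)) ∨ ∀ q, Q4 q → Commute b (S.ι (hk k * q * (hk k)⁻¹)) := by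
  obtain ⟨k1, k2, k3, k4, k5, k6, -⟩ := k_fr k
  obtain ⟨σ, s1, s2, e, s3⟩ := h.L3' (hk k) (j := 4) (by decide)
    (by rw [k1, map_mul]; exact c.mul_right t.ct.1) t.sq (by rw [k2]; exact t.ct.2.2)
  rw [k2] at s2
  obtain ⟨l, rfl⟩ := h.ktyW (s3 ▸ t.cj ⟨k3 ▸ s1 _ k_el.1, k4 ▸ s1 _ k_el.2.1, s2⟩)
  obtain rfl : b = σ⁻¹ * S.ι (tk l) * σ := by rw [← s3]; group
  by_cases n : l = k
  · refine Or.inr fun q hq => ((s1 q hq).inv_left.mul_left ?_).mul_left (s1 q hq)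
    rw [n, ← k5]
    exact ((k_q q hq).conj _).map S.ι
  · refine Or.inl ⟨l, ?_⟩
    have := s2.inv_right.mul_right (s1 _ (k6 l n))
    rw [← map_inv, ← map_mul, show t0⁻¹ * (hk k * ((hk k)⁻¹ * (t0 * tk l) * hk k) * (hk k)⁻¹) = tk l by
      group] at this
    rw [mul_assoc, ← this.eq]; simp

theorem kx2 : x * x ≠ 1 := fun e => k_el.2.2.2.2.2.2.2.2.2.2.2.2.1 (S.inj (by
  have := h.x3
  rw [pow_three, e, mul_one] at this
  rw [← h.xw, this]; simp))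

theorem knV {u : G} (hu : u ∈ zpowers x) : ∃ v ∈ [1, w1, s1, s1 * w1],
    u * S.ι w1 * u⁻¹ = S.ι v := by
  obtain ⟨n, rfl⟩ := hu
  have x3 : x ^ (3 : ℤ) = 1 := by exact_mod_cast h.x3
  show ∃ v ∈ _, x ^ n * _ * (x ^ n)⁻¹ = _
  rw [zpow_eq_zpow_emod n x3]
  rcases (by omega : n % 3 = 0 ∨ n % 3 = 1 ∨ n % 3 = 2) with e | e | e <;> rw [e]
  · exact ⟨w1, by simp, by simp⟩
  · exact ⟨s1, by simp, by simpa using h.xw⟩
  · exact ⟨s1 * w1, by simp, by rw [← h.xs, ← h.xw, zpow_two]; group⟩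

theorem kctk (k : Fin 3) {u : G} (hu : u ∈ zpowers x) : CT S (S.ι (mq k) * u * (S.ι (mq k))⁻¹) := by
  obtain ⟨-, -, -, -, -, -, -, k1, k2, k3, -⟩ := k_fr k
  have a : ∀ q, Q4 q → Commute (S.ι (mq k) * u * (S.ι (mq k))⁻¹) (S.ι (mq k * q * (mq k)⁻¹)) :=
    fun q hq => by simpa only [map_mul, map_inv] using (cz (h.xq q hq) hu).conj (S.ι (mq k))
  exact ⟨k1 ▸ a _ k_el.1, k2 ▸ a _ k_el.2.1, k3 ▸ a _ k_el.2.2.1⟩

theorem kfour [Finite G] {b : G} (t : Ty S b) (A : ∀ k, (∀ q, Q4 q →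
    Commute b (S.ι (hk k * q * (hk k)⁻¹))) → False) : (b * S.ι al) ^ 4 = 1 := by
  have a2 : S.ι al * S.ι al = 1 := by rw [← map_mul, k_el.2.2.2.2.2.2.2.2.2.2.1, map_one]
  have B : ∀ k, Commute b (S.ι (wk k)) → (b * S.ι al) ^ 4 = 1 := fun k c => by
    obtain ⟨l, rfl⟩ := (h.kfrm k t c).resolve_right (A k)
    rw [((al_comm _).map S.ι).mul_pow, show 4 = 2 * 2 from rfl, pow_mul, pow_mul, sq (S.ι al),
      sq (S.ι (tk l)), a2, t.sq]; simp
  have ct : CT S (b * S.ι al) := t.ct.mul ⟨((al_comm _).map S.ι).symm, ((al_comm _).map S.ι).symm,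
    ((al_comm _).map S.ι).symm⟩
  rcases dih t.sq a2 with ⟨u, -, e⟩ | ⟨z, hz, z2, z1, zb, za, u, hu, e | e⟩
  · obtain ⟨v, -, rfl⟩ := t
    exact absurd (h.ty _ _ k_el.2.2.2.2.2.2.2.1 k_el.2.2.2.2.2.2.2.2.2.2.1
      (isConj_iff.2 ⟨u * v, by rw [← e]; group⟩)) k_el.2.2.2.2.2.2.2.2.2.2.2.1
  · obtain ⟨ζ, rfl⟩ := S.cen z za
    obtain ⟨c1, c2, c3⟩ := ct.zp hz
    obtain ⟨k, hv⟩ := (k_ty ζ (cm S c1) (cm S c2) (cm S c3) (sq' S z2)).2
      (h.ty _ _ (sq' S a2) (by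
        rw [(al_comm ζ).mul_mul_mul_comm, sq' S a2, sq' S z2, one_mul])
      (isConj_iff.2 ⟨u, by rw [e, map_mul]⟩))
    obtain ⟨u0, h0, e0⟩ := h.rot hv fun c => z1 (by
      rw [show ζ = mq k * ((mq k)⁻¹ * ζ * mq k) * (mq k)⁻¹ by group, c]; simp)
    obtain ⟨v, hv, e1⟩ := h.knV h0
    obtain ⟨-, -, -, -, -, -, -, -, -, -, k1, k2⟩ := k_fr k
    have cγ := h.kctk k h0
    set γ := S.ι (mq k) * u0 * (S.ι (mq k))⁻¹ with hγ
    have f1 : γ * S.ι (wk k) * γ⁻¹ = S.ι (mq k * v * (mq k)⁻¹) := by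
      simp only [← k1, hγ, map_mul, map_inv, ← e1]; group
    rcases h.kfrm k (t.cj cγ) (by
      have : S.ι (wk k) = γ * S.ι ζ * γ⁻¹ := by
        simp only [← k1, hγ, map_mul, map_inv, ← e0]; group
      rw [this]; exact zb.symm.conj γ) with ⟨l, e2⟩ | e2
    · have f2 : γ * S.ι al * γ⁻¹ = S.ι (mq k * (v * ga) * (mq k)⁻¹) := by
        rw [show al = mq k * al * (mq k)⁻¹ by rw [(al_comm _).eq, mul_inv_cancel_right], k_L.1]
        have := (cz (h.xq ga k_L.2.1) h0).eq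
        simp only [hγ, map_mul, map_inv, ← e1]
        calc _ = S.ι (mq k) * (u0 * S.ι w1 * u0⁻¹ * (u0 * S.ι ga * u0⁻¹)) * (S.ι (mq k))⁻¹ := by group
          _ = _ := by rw [this, mul_inv_cancel_right]
      rw [← conj_eq_one_iff (a := γ), ← conj_pow, ← conj_mul, e2, f2, ← map_mul, ← map_pow,
        (k2 v hv).2 l, map_one]
    · have := e2 _ (k2 v hv).1
      rw [show hk k * ((hk k)⁻¹ * (mq k * v * (mq k)⁻¹) * hk k) * (hk k)⁻¹ = mq k * v * (mq k)⁻¹ by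
        group, ← f1] at this
      exact B k (by simpa [mul_assoc] using this.conj γ⁻¹)
  · obtain ⟨ζ, rfl⟩ := S.cen z za
    obtain ⟨l, e'⟩ := h.ktyW (e := al * ζ) (by rw [map_mul, ← e]; exact t.cj (ct.zp hu))
    have : S.ι (wk l) = S.ι ζ * (S.ι w3)⁻¹ := by
      rw [eq_mul_inv_iff_mul_eq, ← map_mul, ← (k_fr l).2.2.2.2.2.2.1, ← e', ← mul_assoc, sq' S a2,
        one_mul]
    exact B l (this ▸ zb.symm.mul_right t.ct.1.inv_right)

theorem key [Finite G] : (x * (S.ι (r 1 2) * x * S.ι (r 1 2))) ^ 2 = 1 := by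
  obtain ⟨-, -, -, q5, -, -, -, t2, -, -, -, -, -, k1, k2, k3, c13, c15, c35, k4, k5, h2, k6, k7, k8,
    k9, k10, k11⟩ := k_el
  have T2 : S.ι t1 * S.ι t1 = 1 := by rw [← map_mul, t2, map_one]
  have Ti := inv_eq_of_mul_eq_one_right T2
  have x3 : x * x * x = 1 := by rw [← h.x3, pow_three']
  have xt : S.ι t1 * x = x⁻¹ * S.ι t1 := by rw [← h.xt, mul_assoc, T2, mul_one]
  have xt' : S.ι t1 * x⁻¹ = x * S.ι t1 := by
    rw [mul_inv_eq_iff_eq_mul, mul_assoc, xt, mul_inv_cancel_left]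
  have xi : x⁻¹ = x * x := inv_eq_of_mul_eq_one_left x3
  have cg := h.kctk 1 (mem_zpowers x)
  set g := S.ι (mq 1) * x * (S.ι (mq 1))⁻¹ with hg
  have ta : Ty S (x * S.ι t1) := ⟨x⁻¹, CT.inv ⟨h.xq _ k_el.1, h.xq _ k_el.2.1, h.xq _ k_el.2.2.1⟩, by
    rw [inv_inv, mul_assoc, xt, ← mul_assoc, eq_comm, mul_left_inj, ← mul_inv_rev, ← xi, inv_inv]⟩
  have a5 : Commute (x * S.ι t1) (S.ι (tk 2)) := (h.xq _ q5).mul_left (c15.map S.ι)
  have F := h.kfour (ta.cj cg) fun k e => by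
    by_cases n : k = 1
    · subst n
      have := e _ ((k_fr 1).2.2.2.2.2.2.2.2.2.2.2 s1 (by simp)).1
      rw [show hk 1 * ((hk 1)⁻¹ * (mq 1 * s1 * (mq 1)⁻¹) * hk 1) * (hk 1)⁻¹ = mq 1 * s1 * (mq 1)⁻¹ by
        group, show S.ι (mq 1 * s1 * (mq 1)⁻¹) = g * S.ι (t1 * tk 2) * g⁻¹ by
        simp only [← k4, hg, map_mul, map_inv, ← h.xw]; group] at this
      have b : Commute (x * S.ι t1) (S.ι t1 * S.ι (tk 2)) := by
        simpa [mul_assoc] using this.conj g⁻¹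
      have b' : Commute (x * S.ι t1) (S.ι t1) := by simpa using b.mul_right a5.inv_right
      have b'' : Commute x (S.ι t1) := by simpa using b'.mul_left (Commute.refl _).inv_left
      exact h.kx2 (by rw [← mul_inv_cancel x, ← h.xt, ← b''.eq, mul_assoc x, T2, mul_one])
    · have := (ta.cj cg).ct.2.2.inv_right.mul_right (e _ ((k_fr k).2.2.2.2.2.1 1 (Ne.symm n)))
      rw [← map_inv, ← map_mul, show t0⁻¹ * (hk k * ((hk k)⁻¹ * (t0 * tk 1) * hk k) * (hk k)⁻¹) =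
        tk 1 by group, show S.ι (tk 1) = g * S.ι (tk 1) * g⁻¹ by
          rw [eq_mul_inv_iff_mul_eq, ← k1, map_mul, map_mul, map_inv]
          exact ((h.xq _ q5).conj _).eq.symm] at this
      have b : Commute (x * S.ι t1) (S.ι (tk 1)) := by simpa [mul_assoc] using this.conj g⁻¹
      have b' : Commute x (S.ι (tk 1)) := by simpa using b.mul_left (c13.map S.ι).inv_left
      have e : x * x = S.ι (t1 * w1 * s1⁻¹ * t1) := by
        rw [← k2, map_mul, map_mul, map_inv, ← h.xw, ← mul_inv_cancel_right (S.ι (tk 1)) x, ← b'.eq,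
          k2, map_mul]
        calc x * x = x * (x * S.ι t1) * S.ι t1 := by rw [mul_assoc x _ (S.ι t1), mul_assoc x, T2, mul_one]
          _ = _ := by rw [← xt']; group
      refine h.kx2 ?_
      have := congrArg (· ^ 2) e
      simp only [← map_pow, k3, map_one] at this
      rw [show (x * x) ^ 2 = x * x * x * x by rw [sq]; group, x3, one_mul] at this
      rw [this, one_mul]
  have H2 : S.ι hh * S.ι hh = 1 := by rw [← map_mul, h2, map_one]
  have Hi := inv_eq_of_mul_eq_one_right H2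
  have gh : g * S.ι hh * g⁻¹ = S.ι al := by
    rw [show al = mq 1 * al * (mq 1)⁻¹ by rw [(al_comm _).eq, mul_inv_cancel_right], k_L.1, k5]
    have := (h.xq ga k_L.2.1).eq
    simp only [hg, map_mul (S.ι) _ ga, map_mul S.ι _ (mq 1)⁻¹, map_mul S.ι (mq 1), map_inv, ← h.xp]
    calc _ = S.ι (mq 1) * (x * S.ι (s1 * w1) * x⁻¹ * (x * S.ι ga * x⁻¹)) * (S.ι (mq 1))⁻¹ := by group
      _ = _ := by rw [this, mul_inv_cancel_right]
  rw [← gh, conj_mul, conj_pow, conj_eq_one_iff] at F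
  have d2 : S.ι hh * (x * S.ι t1) * (S.ι hh)⁻¹ * (S.ι hh * (x * S.ι t1) * (S.ι hh)⁻¹) = 1 := by
    rw [conj_mul, ta.sq]; simp
  have c2 : S.ι (tk 1) * S.ι (tk 1) = 1 := by rw [← map_mul, k9, map_one]
  have ai := inv_eq_of_mul_eq_one_right ta.sq
  have := kcox T2 ta.sq c2 d2 (e := S.ι (tk 2))
    (by rw [← map_mul, k10, map_one]) (c13.map _) ?_ (c15.map _) ?_ a5 (c35.map _) ?_ ?_
  · rwa [mul_assoc x (S.ι t1) (S.ι t1), T2, mul_one, show S.ι hh * (x * S.ι t1) * (S.ι hh)⁻¹ *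
      S.ι (tk 1) * S.ι (tk 2) * (S.ι hh * (x * S.ι t1) * (S.ι hh)⁻¹) = S.ι (r 1 2) from ?_] at this
    have e : S.ι t1 * S.ι w1 * (S.ι t1)⁻¹ = S.ι w1 := by
      rw [← map_inv, ← map_mul, ← map_mul]; congr 1; decide +kernel
    have e' : S.ι (tk 1) * S.ι (tk 2) = S.ι hh * S.ι w1 * (S.ι hh)⁻¹ := by
      rw [Hi, ← map_mul, ← k7, map_mul, map_mul]
    calc _ = S.ι hh * (x * S.ι t1) * (S.ι hh)⁻¹ * (S.ι (tk 1) * S.ι (tk 2)) *
          (S.ι hh * (x * S.ι t1)⁻¹ * (S.ι hh)⁻¹) := by rw [ai]; group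
      _ = S.ι hh * (x * (S.ι t1 * S.ι w1 * (S.ι t1)⁻¹) * x⁻¹) * (S.ι hh)⁻¹ := by rw [e']; group
      _ = _ := by rw [e, h.xw, Hi, ← k8, map_mul, map_mul]
  · have := a5.symm.conj (S.ι hh)
    rwa [show S.ι hh * S.ι (tk 2) * (S.ι hh)⁻¹ = S.ι t1 by rw [Hi, ← k6, map_mul, map_mul]] at this
  · have : x * S.ι t1 * (S.ι hh * (x * S.ι t1) * (S.ι hh)⁻¹) *
        (x * S.ι t1 * (S.ι hh * (x * S.ι t1) * (S.ι hh)⁻¹)) = 1 := by
      rw [← F, Hi, show 4 = 2 * 2 from rfl, pow_mul, sq, sq]; group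
    rw [Commute, SemiconjBy, ← inv_eq_of_mul_eq_one_right this, mul_inv_rev,
      inv_eq_of_mul_eq_one_right d2, ai]
  · rw [mul_assoc x (S.ι t1) (S.ι t1), T2, mul_one, ← mul_assoc, ← mul_assoc, h.xt, xi]
  · have e : x * S.ι t1 * S.ι (tk 1) = x * S.ι w1 := by
      rw [k2, map_mul, mul_assoc, ← mul_assoc (S.ι t1), T2, one_mul]
    have : x * S.ι w1 * (x * S.ι w1) * (x * S.ι w1) = 1 :=
      calc _ = x * S.ι w1 * x⁻¹ * (x * (x * S.ι w1 * x⁻¹) * x⁻¹) * (x * x * x) * S.ι w1 := by group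
        _ = 1 := by rw [x3, mul_one, h.xw, h.xs, ← map_mul, ← map_mul, k11, map_one]
    rw [← e] at this
    rw [← inv_inj, mul_inv_rev, mul_inv_rev, ai, inv_eq_of_mul_eq_one_right c2, eq_comm,
      inv_eq_iff_mul_eq_one, ← this]
    group

end YS
end Cfsg.Agent.YK
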