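import Cfsg.Agent.YK.Stmt

/-! Involutions in the centralizer of `ga`. -/

set_option autoImplicit false

namespace Cfsg.Agent.YK
open Subgroup

variable {G : Type*} [Group G]

/-- two involutions -/
theorem dih [Finite G] {a b : G} (ha : a * a = 1) (hb : b * b = 1) :
    (∃ u ∈ zpowers (a * b), u * a * u⁻¹ = b) ∨ ∃ z ∈ zpowers (a * b), z * z = 1 ∧ z ≠ 1 ∧
      Commute z a ∧ Commute z b ∧
      ∃ u ∈ zpowers (a * b), u * b * u⁻¹ = b * z ∨ u * a * u⁻¹ = b * z := by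
  have ia := inv_eq_of_mul_eq_one_right ha
  have ib := inv_eq_of_mul_eq_one_right hb
  have e : ∀ d, SemiconjBy d (a * b) (a * b)⁻¹ → ∀ k : ℕ,
      d * ((a * b) ^ k)⁻¹ = (a * b) ^ k * d := fun d h k => by
    simpa only [inv_pow, inv_inv] using (h.pow_right k).inv_right.eq
  have ea := e a (by rw [SemiconjBy, mul_inv_rev, ia, ib, ← mul_assoc, ha, mul_assoc, ha]; simp)
  have eb := e b (by rw [SemiconjBy, mul_inv_rev, ia, ib, mul_assoc])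
  have ab : a = a * b * b := by rw [mul_assoc, hb, mul_one]
  rcases Nat.even_or_odd' (orderOf (a * b)) with ⟨m, h | h⟩
  · have z2 : (a * b) ^ m * (a * b) ^ m = 1 := by rw [← pow_add, ← two_mul, ← h, pow_orderOf_eq_one]
    have hp := orderOf_pos (a * b)
    have iz := inv_eq_of_mul_eq_one_right z2
    have cb : Commute ((a * b) ^ m) b := by rw [Commute, SemiconjBy, ← eb, iz]
    refine Or.inr ⟨(a * b) ^ m, npow_mem_zpowers _ _, z2,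
      pow_ne_one_of_lt_orderOf (by omega) (by omega), by rw [Commute, SemiconjBy, ← ea, iz], cb, ?_⟩
    rcases Nat.even_or_odd' m with ⟨j, e | e⟩ <;> refine ⟨(a * b) ^ j, npow_mem_zpowers _ _, ?_⟩
    · left; rw [← cb.eq, mul_assoc, eb, ← mul_assoc, ← pow_add, e, two_mul]
    · right; rw [← cb.eq, mul_assoc, ea, ← mul_assoc, ← pow_add, e, two_mul, pow_succ,
        mul_assoc _ (a * b), ← ab]
  · refine Or.inl ⟨(a * b) ^ m, npow_mem_zpowers _ _, ?_⟩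
    rw [mul_assoc, ea, ← mul_assoc, ← pow_add]
    nth_rewrite 2 [ab]
    rw [← mul_assoc, ← pow_succ, ← two_mul, ← h, pow_orderOf_eq_one, one_mul]

theorem cz {c g u : G} (h : Commute c g) (hu : u ∈ zpowers c) : Commute u g := by
  obtain ⟨k, rfl⟩ := hu
  exact h.zpow_left k

theorem k_L : al = w1 * ga ∧ Q4 ga ∧ (∀ e, Q4 e ∨ Q4 (t1 * e) → (V1 (e * e) → e * e = 1) ∧
    Commute e ga ∧ ∀ j : Fin 6, 2 ≤ j → (Q4 e ∨ Q4 (f 0 j * e)) ∧
      (V1 (e * f 0 j * e⁻¹ * (f 0 j)⁻¹) → Commute e (f 0 j))) ∧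
    (∀ j : Fin 6, 2 ≤ j → Commute w1 (f 0 j) ∧ Commute (f 0 j) ga ∧ ¬ Commute s1 (f 0 j) ∧
      ¬ Commute (s1 * w1) (f 0 j) ∧ f 0 j * f 0 j = 1) ∧ w1 * w1 = 1 ∧ s1 * (s1 * w1) = w1 ∧
    Commute w1 ga := by decide +kernel

namespace YS
variable {S : St G} {x : G} {Y : Subgroup G} (h : YS S x Y)
include h

theorem yg {y : G} (hy : y ∈ Y) : Commute y (S.ι ga) := h.cq y hy ga k_L.2.1

omit h in
theorem inW {g : G} (h1 : Commute g (S.ι w1)) (h2 : Commute g (S.ι ga)) : ∃ w, S.ι w = g :=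
  S.cen g (by rw [k_L.1, map_mul]; exact h1.mul_right h2)

theorem cw {y : G} (hy : y ∈ Y) (c : Commute y (S.ι w1)) : ∃ v, V1 v ∧ S.ι v = y := by
  obtain ⟨v, rfl⟩ := inW c (h.yg hy)
  exact ⟨v, h.YH v hy, rfl⟩

theorem xp : x * S.ι (s1 * w1) * x⁻¹ = S.ι w1 := by
  rw [map_mul, ← conj_mul, h.xs, h.xw, ← map_mul]; congr 1; decide +kernel

/-- rotation of the four-group -/
theorem rot {v : W} (hv : V1 v) (v1 : v ≠ 1) : ∃ u ∈ zpowers x, u * S.ι v * u⁻¹ = S.ι w1 := by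
  rcases hv with rfl | rfl | rfl | rfl
  · exact absurd rfl v1
  · exact ⟨1, one_mem _, by simp⟩
  · exact ⟨x⁻¹, inv_mem (mem_zpowers x), by rw [← h.xw]; group⟩
  · exact ⟨x, mem_zpowers x, h.xp⟩

theorem L0 [Finite G] {y : G} (hy : y ∈ Y) (y2 : y * y = 1) (y1 : y ≠ 1) :
    ∃ σ ∈ Y, σ * y * σ⁻¹ = S.ι w1 := by
  have w2 : S.ι w1 * S.ι w1 = 1 := by rw [← map_mul, k_L.2.2.2.2.1, map_one]
  have le := zpowers_le.2 (mul_mem hy h.wY)
  have lx := zpowers_le.2 h.xY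
  rcases dih y2 w2 with ⟨u, hu, e⟩ | ⟨z, hz, -, z1, a, b, -⟩
  · exact ⟨u, le hu, e⟩
  obtain ⟨v, hv, rfl⟩ := h.cw (le hz) b
  obtain ⟨u, hu, e⟩ := h.rot hv fun e => z1 (by rw [e, map_one])
  obtain ⟨v', hv', e'⟩ := h.cw (y := u * y * u⁻¹) (mul_mem (mul_mem (lx hu) hy) (inv_mem (lx hu)))
    (e ▸ a.symm.conj u)
  obtain ⟨u', hu', e''⟩ := h.rot hv' fun c => y1 (by
    rw [c, map_one] at e'; exact conj_eq_one_iff.1 e'.symm)
  exact ⟨u' * u, mul_mem (lx hu') (lx hu), by rw [← e'', e']; group⟩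

theorem L4 [Finite G] {z : G} (c : Commute z (S.ι ga)) (z2 : z * z = 1) :
    ∃ σ ∈ Y, ∃ w, σ * z * σ⁻¹ = S.ι w := by
  obtain ⟨y, hy, e, he, rfl⟩ := h.dec z c
  obtain ⟨k1, k2, -⟩ := k_L.2.2.1 e he
  have e2 : S.ι e * S.ι e = 1 := by
    rw [← map_mul, k1 (h.YH _ ?_), map_one]
    rw [show S.ι (e * e) = (y * (S.ι e * y * (S.ι e)⁻¹))⁻¹ * (y * S.ι e * (y * S.ι e)) by
      rw [map_mul]; group, z2, mul_one]
    exact inv_mem (mul_mem hy (h.nrm _ (k2.map S.ι) y hy))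
  have le : zpowers (y * S.ι e * S.ι e) ≤ Y := zpowers_le.2 (by rwa [mul_assoc, e2, mul_one])
  rcases dih z2 e2 with ⟨u, hu, e⟩ | ⟨v, hv, v2, v1, a, -⟩
  · exact ⟨u, le hu, _, e⟩
  obtain ⟨σ, hσ, e'⟩ := h.L0 (le hv) v2 v1
  obtain ⟨w, hw⟩ := inW (S := S) (e' ▸ a.symm.conj σ)
    (((h.yg hσ).mul_left c).mul_left (h.yg hσ).inv_left)
  exact ⟨σ, hσ, w, hw.symm⟩

theorem L3 [Finite G] {j : Fin 6} (hj : 2 ≤ j) {z : G} (c : Commute z (S.ι ga)) (z2 : z * z = 1)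
    (ct : Commute z (S.ι (f 0 j))) :
    ∃ σ ∈ Y, Commute σ (S.ι (f 0 j)) ∧ ∃ w, σ * z * σ⁻¹ = S.ι w := by
  obtain ⟨y, hy, e, he, rfl⟩ := h.dec z c
  obtain ⟨k1, -, k2⟩ := k_L.2.2.1 e he
  obtain ⟨k2, k3⟩ := k2 j hj
  obtain ⟨j1, j2, j3, j4, j5⟩ := k_L.2.2.2.1 j hj
  have et : Commute (S.ι e) (S.ι (f 0 j)) := (k3 (h.YH _ (by
    rw [show S.ι (e * f 0 j * e⁻¹ * (f 0 j)⁻¹) = y⁻¹ * (y * S.ι e * S.ι (f 0 j) * (y * S.ι e)⁻¹ *
      y * (S.ι (f 0 j))⁻¹) by simp only [map_mul, map_inv]; group, ct.eq, mul_inv_cancel_right]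
    exact mul_mem (inv_mem hy) (h.nrm _ (j2.map S.ι) y hy)))).map S.ι
  have yt : Commute y (S.ι (f 0 j)) := by simpa using ct.mul_left et.inv_left
  have ce : ∀ σ ∈ Y, Commute σ (S.ι (f 0 j)) → Commute σ (S.ι e) := fun σ a b => by
    rcases k2 with k | k
    · exact h.cq σ a e k
    · have := b.mul_right (h.cq σ a _ k)
      rwa [← map_mul, ← mul_assoc, j5, one_mul] at this
  have y2 : y * y = 1 := by
    have : y * y * S.ι (e * e) = 1 := by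
      rw [← z2, map_mul, mul_assoc y (S.ι e), ← mul_assoc (S.ι e), ← (ce y hy yt).eq]; group
    rwa [k1 (h.YH _ (by
      rw [← eq_inv_of_mul_eq_one_right this |>.symm]; exact inv_mem (mul_mem hy hy))), map_one,
      mul_one] at this
  have w2 : S.ι w1 * S.ι w1 = 1 := by rw [← map_mul, k_L.2.2.2.2.1, map_one]
  have le := zpowers_le.2 (mul_mem hy h.wY)
  have ct' := yt.mul_left (j1.map S.ι)
  rcases dih y2 w2 with ⟨u, hu, e'⟩ | ⟨v, hv, -, v1, a, b, -⟩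
  · exact ⟨u, le hu, cz ct' hu, w1 * e, by
      rw [← conj_mul, e', (ce u (le hu) (cz ct' hu)).eq, mul_inv_cancel_right, map_mul]⟩
  obtain ⟨v, hv', rfl⟩ := h.cw (le hv) b
  have vt : Commute v (f 0 j) := S.inj (by rw [map_mul, map_mul]; exact (cz ct' hv).eq)
  obtain ⟨v', -, e'⟩ := h.cw hy (by
    rcases hv' with rfl | rfl | rfl | rfl
    exacts [absurd (map_one _) v1, a.symm, absurd vt j3, absurd vt j4])
  exact ⟨1, one_mem _, Commute.one_left _, v' * e, by rw [map_mul, e']; simp⟩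

/-- `L4` in the frame `k` -/
theorem L4' [Finite G] (k : W) {z : G} (c : Commute z (S.ι (k * ga * k⁻¹))) (z2 : z * z = 1) :
    ∃ σ, (∀ q, Q4 q → Commute σ (S.ι (k * q * k⁻¹))) ∧ ∃ w, σ * z * σ⁻¹ = S.ι w := by
  obtain ⟨σ, hσ, w, e⟩ := h.L4 (z := (S.ι k)⁻¹ * z * S.ι k)
    (by simpa [mul_assoc] using c.conj (S.ι k)⁻¹) (by
      rw [show (S.ι k)⁻¹ * z * S.ι k * ((S.ι k)⁻¹ * z * S.ι k) = (S.ι k)⁻¹ * (z * z) * S.ι k by group,
        z2]; group)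
  refine ⟨S.ι k * σ * (S.ι k)⁻¹, fun q hq => by
    simpa only [map_mul, map_inv] using (h.cq σ hσ q hq).conj (S.ι k), k * w * k⁻¹, ?_⟩
  simp only [map_mul, map_inv, ← e]; group

/-- `L3` in the frame `k` -/
theorem L3' [Finite G] (k : W) {j : Fin 6} (hj : 2 ≤ j) {z : G}
    (c : Commute z (S.ι (k * ga * k⁻¹))) (z2 : z * z = 1) (ct : Commute z (S.ι (k * f 0 j * k⁻¹))) :
    ∃ σ, (∀ q, Q4 q → Commute σ (S.ι (k * q * k⁻¹))) ∧ Commute σ (S.ι (k * f 0 j * k⁻¹)) ∧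
      ∃ w, σ * z * σ⁻¹ = S.ι w := by
  obtain ⟨σ, hσ, a, w, e⟩ := h.L3 hj (z := (S.ι k)⁻¹ * z * S.ι k)
    (by simpa [mul_assoc] using c.conj (S.ι k)⁻¹) (by
      rw [show (S.ι k)⁻¹ * z * S.ι k * ((S.ι k)⁻¹ * z * S.ι k) = (S.ι k)⁻¹ * (z * z) * S.ι k by group,
        z2]; group) (by simpa [mul_assoc] using ct.conj (S.ι k)⁻¹)
  refine ⟨S.ι k * σ * (S.ι k)⁻¹, fun q hq => by
    simpa only [map_mul, map_inv] using (h.cq σ hσ q hq).conj (S.ι k),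
    by simpa only [map_mul, map_inv] using a.conj (S.ι k), k * w * k⁻¹, ?_⟩
  simp only [map_mul, map_inv, ← e]; group

end YS
end Cfsg.Agent.YK
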