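import Cfsg.Agent.YK.Stmt
import Cfsg.Agent.YK.C3

/-! Finite checks in `W` for the symplectic case: reflections are labelled by vectors. -/

set_option autoImplicit false
set_option synthInstance.maxSize 100000
set_option synthInstance.maxHeartbeats 400000

namespace Cfsg.Agent.YK.Sp

def cI (x : ℕ) : Fin 6 := Fin.ofNat 6 (ap 0x1023102310240100 x)
def cJ (x : ℕ) : Fin 6 := Fin.ofNat 6 (ap 0x4445555433352210 x)
def ro (x : ℕ) : W := r (cI x) (cJ x)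
def qq (x : ℕ) : W := if x = 0 then al else p (cI x) (cJ x)
def wv (n : ℕ) : W := if n < 16 then ro n else if n < 32 then qq (n - 16) else
  if n < 48 then al * qq (n - 32) * ro (n - 32) else qq (n - 48) * ro (n - 48)
def bB (n m : ℕ) : ℕ :=
  (0x6996966996696996 >>> (n &&& (((m &&& 21) <<< 1) ||| ((m >>> 1) &&& 21)))) % 2
def tc (n m : ℕ) : ℕ := m ^^^ (bB n m * n)

theorem eqv1 : ∀ n < 32, ∀ m < 32, wv n * wv m * (wv n)⁻¹ = wv (tc n m) := by decide +kernel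
theorem eqv2 : ∀ n < 32, ∀ m < 64, 32 ≤ m → wv n * wv m = wv (tc n m) * wv (n % 16) := by
  decide +kernel
theorem wv_inj : ∀ n < 32, ∀ m < 32, wv n = wv m → n = m := by decide +kernel
theorem wv_sq : ∀ n < 32, wv n * wv n = 1 := by decide +kernel
theorem tc_lt : ∀ n < 32, ∀ m < 64, tc n m < 64 ∧ (tc n m < 32 ↔ m < 32) := by decide +kernel
theorem tc_eq : ∀ n < 32, ∀ m < 32, n ≠ 0 → (tc n m = m ↔ bB n m = 0) := by decide +kernel
theorem rf_code : ∀ i j : Fin 6, i < j → (∃ n < 32, n % 16 ≠ 0 ∧ r i j = wv n) ∧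
    ∃ n < 32, n % 16 ≠ 0 ∧ p i j = wv n := by decide +kernel
theorem code_rf : ∀ n < 32, n % 16 ≠ 0 → Rf (wv n) ∧ ∃ a < 32, ∃ b < 32, tc a (tc b 1) = n := by
  decide +kernel
theorem wv16 : wv 16 = al := by decide +kernel
theorem wv1 : wv 1 = s1 := by decide +kernel

theorem cm_iff {n m : ℕ} (hn : n < 32) (hm : m < 32) (n0 : n ≠ 0) :
    Commute (wv n) (wv m) ↔ bB n m = 0 := by
  rw [← tc_eq n hn m hm n0, commute_iff_eq, ← mul_inv_eq_iff_eq_mul, eqv1 n hn m hm]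
  exact ⟨wv_inj _ ((tc_lt n hn m (by omega)).2.2 hm) _ hm, fun e => by rw [e]⟩

theorem rf_iff {w : W} : Rf w ↔ ∃ n < 32, n % 16 ≠ 0 ∧ w = wv n :=
  ⟨by rintro ⟨i, j, h, rfl | rfl⟩; exacts [(rf_code i j h).1, (rf_code i j h).2],
    by rintro ⟨n, h, h', rfl⟩; exact (code_rf n h h').1⟩

theorem rf_conj {w : W} (h : Rf w) : ∃ g, g * s1 * g⁻¹ = w := by
  obtain ⟨n, h0, h', rfl⟩ := rf_iff.1 h
  obtain ⟨a, ha, b, hb, rfl⟩ := (code_rf n h0 h').2
  refine ⟨wv a * wv b, ?_⟩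
  rw [← eqv1 a ha _ ((tc_lt b hb 1 (by omega)).2.2 (by omega)), ← eqv1 b hb 1 (by omega), wv1]
  group

def D4a (c a b d : ℕ) : Prop :=
  (∀ y < 32, y % 16 ≠ 0 → y ≠ 1 → bB 1 y = 0 → bB c y = 0 → bB a y = 0 → bB b y = 0 →
      bB d y = 0 → y = 17) ∧
    ∃ t < 32, t % 16 ≠ 0 ∧ bB 1 t ≠ 0 ∧ bB c t = 0 ∧
      (bB b t = 0 ∧ bB d t = 0 ∨ bB a t = 0 ∧ bB b t ≠ 0 ∧ bB d t = 0 ∨
        bB a t = 0 ∧ bB b t = 0 ∧ bB d t ≠ 0)
instance (c a b d : ℕ) : Decidable (D4a c a b d) := by unfold D4a; infer_instance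
def D4b (c a b : ℕ) : Prop := ∀ d < 32, bB 1 d = 0 → bB c d ≠ 0 → bB a d = 0 →
    bB b d = 0 → a ≠ d → b ≠ d → D4a c a b d
instance (c a b : ℕ) : Decidable (D4b c a b) := by unfold D4b; infer_instance

theorem d4 : ∀ c < 32, bB 1 c = 0 → ∀ a < 32, bB 1 a = 0 → bB c a ≠ 0 → ∀ b < 32, bB 1 b = 0 →
    bB c b ≠ 0 → bB a b = 0 → a ≠ b → D4b c a b := by decide +kernel

theorem b17 : ∀ z < 32, bB 17 z = bB 1 z := by decide +kernel
theorem tri : ∀ a < 32, ∀ b < 32, bB a b ≠ 0 → tc a b = tc b a ∧ tc a b ≠ 0 ∧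
    ∀ c < 32, bB a c ≠ 0 → bB b c ≠ 0 → bB (tc a b) c = 0 := by decide +kernel

/-! ### the outer automorphism -/

def th0 (w : W) : W := ⟨mulC (mulC 0xAB9876543210 w.1) 0xAB9876543210, by
  obtain ⟨g, hg, e⟩ := w.2
  have c : cd (Equiv.swap 10 11) = 0xAB9876543210 := by decide +kernel
  refine ⟨Equiv.swap 10 11 * g * Equiv.swap 10 11, ⟨?_, ?_⟩, by rw [cd_mul, cd_mul, c, e]⟩
  · have := Equiv.Perm.mem_alternatingGroup.1 hg.1
    show _ ∈ alternatingGroup _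
    rw [Equiv.Perm.mem_alternatingGroup, map_mul, map_mul, this,
      Equiv.Perm.sign_swap (by decide)]
    simp
  · have s : (Equiv.swap 10 11 : P12) ∈ Subgroup.centralizer {al0} := by
      rw [Subgroup.mem_centralizer_singleton_iff]; decide +kernel
    exact mul_mem (mul_mem s hg.2) s⟩

theorem pm_th (w : W) : pm (th0 w) = Equiv.swap 10 11 * pm w * Equiv.swap 10 11 := cd_inj (by
  rw [cd_pm, cd_mul, cd_mul, cd_pm, show cd (Equiv.swap 10 11) = 0xAB9876543210 by decide +kernel]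
  rfl)

def th : W →* W := MonoidHom.mk' th0 fun a b => pm_inj (by
  simp only [pm_mul, pm_th, mul_assoc, Equiv.swap_mul_self_mul])

theorem th_th (w : W) : th (th w) = w := pm_inj (by
  show pm (th0 (th0 w)) = _
  simp only [pm_th, mul_assoc, Equiv.swap_mul_self_mul, Equiv.swap_mul_self, mul_one])

theorem th_rf0 : ∀ n < 32, n % 16 ≠ 0 → Rf (th0 (wv n)) := by decide +kernel
theorem th_rf {w : W} (h : Rf w) : Rf (th w) := by
  obtain ⟨n, h0, h', rfl⟩ := rf_iff.1 h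
  exact th_rf0 n h0 h'
theorem th_v : th0 al = al ∧ th0 (wv 1) = wv 1 ∧ th0 (wv 17) = wv 17 ∧ th0 (wv 8) = wv 8 ∧
    th0 (wv 5) = wv 5 ∧ th0 (wv 4) = wv 20 ∧ th0 (wv 20) = wv 4 := by decide +kernel

/-! ### the determinant -/

def blk (w : W) (i : Fin 6) : Fin 6 :=
  ⟨ap w.1 (2 * i) / 2, by have := ap_lt w (i := 2 * i) (by omega); omega⟩

theorem ap_al' : ∀ k < 12, ap al.1 k / 2 = k / 2 := by decide +kernel

def blkH : W →* Function.End (Fin 6) where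
  toFun := blk
  map_one' := funext fun i => Fin.ext (by
    show ap (1 : W).1 (2 * i) / 2 = i
    rw [ap_one (by omega)]; omega)
  map_mul' a b := funext fun i => Fin.ext (by
    show ap (a * b).1 (2 * i) / 2 = ap a.1 (2 * (ap b.1 (2 * i) / 2)) / 2
    rw [ap_mul _ _ (by omega)]
    have l := ap_lt b (i := 2 * i) (by omega)
    generalize ap b.1 (2 * i) = j at l
    rcases Nat.even_or_odd' j with ⟨k, rfl | rfl⟩
    · rw [Nat.mul_div_cancel_left _ (by omega)]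
    · rw [show (2 * k + 1) / 2 = k by omega, ← ap_al k (by omega), ← ap_mul _ _ (by omega),
        (al_comm a).eq, ap_mul _ _ (by omega), ap_al' _ (ap_lt _ (by omega))])

noncomputable def sg : W →* ℤˣ := Equiv.Perm.sign.comp blkH.toHomPerm

theorem blk_rf : ∀ n < 32, n % 16 ≠ 0 → cI (n % 16) ≠ cJ (n % 16) ∧
    ∀ i, blk (wv n) i = Equiv.swap (cI (n % 16)) (cJ (n % 16)) i := by decide +kernel

theorem sg_rf {w : W} (h : Rf w) : sg w = -1 := by
  obtain ⟨n, h0, h', rfl⟩ := rf_iff.1 h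
  obtain ⟨a, b⟩ := blk_rf n h0 h'
  rw [← Equiv.Perm.sign_swap a]
  exact congrArg Equiv.Perm.sign (Equiv.ext (f := blkH.toHomPerm (wv n)) fun i => b i)

/-! ### involutions -/

def six : List ℕ := [1, 17, 5, 21, 4, 20]
def bt (w : W) (x : ℕ) : Bool :=
  let d := ap w.1 (if x % 16 = 1 then 0 else if x % 16 = 5 then 4 else 8) % 4
  d = 1 || d = 2 + x / 16

def PA (w : W) : Prop := (∀ e ∈ six, Commute w (wv e)) ∧ (∃ e ∈ six, bt w e) ∧
    w = ((six.filter (bt w)).map wv).prod ∧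
    w = ((16 :: six.filter fun x => !bt w x).map wv).prod ∧
    ((six.filter (bt w)).length + (six.filter fun x => !bt w x).length) % 2 = 0
instance (w : W) : Decidable (PA w) := by unfold PA; infer_instance
def IA (w : W) : Prop := w ≠ 1 → ∃ a ∈ [0, 2, 7, 15, 11], ∃ c ∈ [0, 8, 12],
  PA (wv c * wv a * w * (wv c * wv a)⁻¹)
instance (w : W) : Decidable (IA w) := by unfold IA; infer_instance

theorem invA : ∀ w : W, w * w = 1 → IA w := by decide +kernel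

theorem six_f : ∀ e ∈ 16 :: six, e < 32 ∧ e ≠ 0 ∧ Commute (wv e) w1 ∧
    (e ∈ six → e % 16 ≠ 0) ∧ ∀ e' ∈ 16 :: six, Commute (wv e) (wv e') := by decide +kernel
theorem six_prod : (six.map fun e => wv e * al).prod = al := by decide +kernel
theorem w1_f : w1 * w1 = 1 ∧ w1 = wv 17 * wv 1 ∧ w1 ≠ al ∧ ¬ Rf w1 := by decide +kernel
theorem gen_f : ∀ i j : Fin 6, (∃ n < 32, r i j = wv n) ∧ ∃ n < 32, ∃ m < 32, f i j = wv n * wv m := by
  decide +kernel
theorem ch1 : ∀ x < 16, ∃ a ∈ [0, 1], ∃ b ∈ [0, 2], ∃ c ∈ [0, 5], ∃ d ∈ [0, 8],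
    ∃ e ∈ [0, 1, 2, 5, 8, 4], x = tc a (tc b (tc c (tc d e))) := by decide +kernel
theorem ch2 : ∀ x < 16, x ≠ 0 → ∃ a < 16, ∃ b < 16, tc a (tc b 20) = 16 + x := by decide +kernel
theorem wv_s : wv 0 = 1 ∧ wv 1 = r 0 1 ∧ wv 2 = r 1 2 ∧ wv 5 = r 2 3 ∧ wv 8 = r 3 4 ∧ wv 4 = r 4 5 ∧
    wv 32 = 1 := by decide +kernel

/-! ### vectors -/

def vec (n : ℕ) : V6 := Sum.elim (fun i : Fin 3 => (((n >>> (2 * i.val)) % 2 : ℕ) : ZMod 2))
  fun i : Fin 3 => (((n >>> (2 * i.val + 1)) % 2 : ℕ) : ZMod 2)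
def cdv (v : V6) : ℕ := (v (.inl 0)).val + 2 * (v (.inr 0)).val + 4 * (v (.inl 1)).val +
  8 * (v (.inr 1)).val + 16 * (v (.inl 2)).val + 32 * (v (.inr 2)).val

theorem cdv_vec : ∀ n < 64, cdv (vec n) = n := by decide +kernel
theorem vec_cdv (v : V6) : ∃ n < 64, v = vec n := by
  have : ∀ a b c d e f : ZMod 2, ∃ n < 64, a = vec n (.inl 0) ∧ b = vec n (.inl 1) ∧
      c = vec n (.inl 2) ∧ d = vec n (.inr 0) ∧ e = vec n (.inr 1) ∧ f = vec n (.inr 2) := by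
    decide +kernel
  obtain ⟨n, h, a, b, c, d, e, f⟩ := this (v (.inl 0)) (v (.inl 1)) (v (.inl 2)) (v (.inr 0))
    (v (.inr 1)) (v (.inr 2))
  refine ⟨n, h, funext fun i => ?_⟩
  rcases i with i | i <;> fin_cases i <;> assumption
theorem vec0 : vec 0 = 0 := by decide +kernel
theorem vec_ne {n : ℕ} (h : n < 64) (h0 : n ≠ 0) : vec n ≠ 0 := fun e =>
  h0 (by rw [← cdv_vec n h, e, ← vec0, cdv_vec 0 (by omega)])
theorem sB_vec {n m : ℕ} (hn : n < 64) (hm : m < 64) : sB (vec n) (vec m) = bB n m := by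
  rw [sB_eq]
  exact (by decide +kernel : ∀ n < 64, ∀ m < 64, ∑ i, (vec n (.inl i) * vec m (.inr i) +
    vec n (.inr i) * vec m (.inl i)) = bB n m) n hn m hm
theorem tc_vec {n m : ℕ} (hn : n < 64) (hm : m < 64) :
    vec m + sB (vec n) (vec m) • vec n = vec (tc n m) := by
  rw [sB_vec hn hm]
  exact (by decide +kernel : ∀ n < 64, ∀ m < 64,
    vec m + (bB n m : ZMod 2) • vec n = vec (tc n m)) n hn m hm

end Cfsg.Agent.YK.Sp
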