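import Cfsg.Agent.YK.P1

/-! Frames, and the construction of the seventh generator. -/

set_option autoImplicit false

namespace Cfsg.Agent.YK.Sp

structure Fr (G : Type*) [Group G] where
  ι : W →* G
  inj : Function.Injective ι
  cen : ∀ g, Commute g (ι al) → ∃ w, ι w = g
  cl : ∀ w, IsConj (ι al) (ι w) ↔ w = al ∨ Rf w

variable {G : Type*} [Group G]

theorem cj_cm {a b : G} (g : G) (h : Commute a b) : Commute (g * a * g⁻¹) (g * b * g⁻¹) :=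
  h.map (MulAut.conj g)

theorem cj_cm' {a b g : G} (h : Commute (g * a * g⁻¹) (g * b * g⁻¹)) : Commute a b := by
  simpa [mul_assoc] using cj_cm g⁻¹ h

theorem cm_map {F : W →* G} (h : Function.Injective F) {a b : W} :
    Commute (F a) (F b) ↔ Commute a b := ⟨fun e => e.of_map h, fun e => e.map F⟩

theorem ic (g a : G) : IsConj a (g * a * g⁻¹) := isConj_iff.2 ⟨g, rfl⟩

def Fr.cj (F : Fr G) (g : G) : Fr G where
  ι := (MulAut.conj g).toMonoidHom.comp F.ι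
  inj := (MulAut.conj g).injective.comp F.inj
  cen x h := by
    obtain ⟨w, e⟩ := F.cen (g⁻¹ * x * g) (cj_cm' (g := g) (by simpa [mul_assoc] using h))
    exact ⟨w, by simp [e, mul_assoc]⟩
  cl w := by
    rw [← F.cl]
    exact ⟨fun h => ((ic g _).trans h).trans (ic g _).symm,
      fun h => ((ic g _).symm.trans h).trans (ic g _)⟩

theorem Fr.cj_ι (F : Fr G) (g : G) (w : W) : (F.cj g).ι w = g * F.ι w * g⁻¹ := rfl

def Fr.th (F : Fr G) : Fr G where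
  ι := F.ι.comp Sp.th
  inj := F.inj.comp (Function.LeftInverse.injective th_th)
  cen x h := by
    obtain ⟨w, e⟩ := F.cen x (by rwa [← th_v.1])
    exact ⟨Sp.th w, by rw [MonoidHom.comp_apply, th_th, e]⟩
  cl w := by
    show IsConj (F.ι (th0 al)) (F.ι (Sp.th w)) ↔ _
    rw [th_v.1, F.cl]
    refine or_congr ⟨fun e => ?_, fun e => e ▸ th_v.1⟩ ⟨fun e => th_th w ▸ th_rf e, th_rf⟩
    rw [← th_th w, e]; exact th_v.1

namespace Fr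
variable (F : Fr G)

/-- the class of the central involution -/
def D (x : G) : Prop := IsConj (F.ι al) x

variable {F}

theorem D.cj {x : G} (h : F.D x) (g : G) : F.D (g * x * g⁻¹) := IsConj.trans h (ic g x)

theorem D.sq {x : G} (h : F.D x) : x * x = 1 := by
  obtain ⟨g, rfl⟩ := isConj_iff.1 h
  rw [conj_mul, ← map_mul, ← wv16, wv_sq 16 (by omega)]; simp

theorem D.inv {x : G} (h : F.D x) : x⁻¹ = x := inv_eq_of_mul_eq_one_right h.sq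

theorem D_wv {n : ℕ} (h : n < 32) (h0 : n ≠ 0) : F.D (F.ι (wv n)) := by
  refine (F.cl _).2 ?_
  by_cases e : n = 16
  · exact Or.inl (e ▸ wv16)
  · exact Or.inr (rf_iff.2 ⟨n, h, by omega, rfl⟩)

theorem D.rf {x : G} (h : F.D x) (c : Commute x (F.ι al)) (ne : x ≠ F.ι al) :
    ∃ n < 32, n % 16 ≠ 0 ∧ x = F.ι (wv n) := by
  obtain ⟨w, rfl⟩ := F.cen x c
  obtain ⟨n, a, b, rfl⟩ := rf_iff.1 (((F.cl w).1 h).resolve_left fun e => ne (e ▸ rfl))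
  exact ⟨n, a, b, rfl⟩

theorem D.cd {x : G} (h : F.D x) (c : Commute x (F.ι al)) :
    ∃ n < 32, n ≠ 0 ∧ x = F.ι (wv n) := by
  by_cases e : x = F.ι al
  · exact ⟨16, by omega, by omega, wv16 ▸ e⟩
  · obtain ⟨n, a, b, c⟩ := h.rf c e
    exact ⟨n, a, by omega, c⟩

theorem cm {n m : ℕ} (hn : n < 32) (hm : m < 32) (n0 : n ≠ 0) :
    Commute (F.ι (wv n)) (F.ι (wv m)) ↔ bB n m = 0 := by
  rw [← cm_iff hn hm n0, cm_map F.inj]

theorem frame {x : G} (h : F.D x) : ∃ F' : Fr G, F'.ι al = x ∧ ∀ y, F.D y ↔ F'.D y := by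
  obtain ⟨g, rfl⟩ := isConj_iff.1 h
  exact ⟨F.cj g, rfl, fun y => ⟨fun e => (ic g _).symm.trans e, fun e => (ic g _).trans e⟩⟩

theorem frame2 {x y : G} (h : F.D x) (hy : F.D y) (c : Commute y x) (ne : y ≠ x) :
    ∃ F' : Fr G, F'.ι al = x ∧ F'.ι (wv 1) = y ∧ ∀ y, F.D y ↔ F'.D y := by
  obtain ⟨F1, rfl, e⟩ := frame h
  obtain ⟨n, a, b, rfl⟩ := ((e y).1 hy).rf c ne
  obtain ⟨g, hg⟩ := rf_conj (rf_iff.2 ⟨n, a, b, rfl⟩)
  have k : (F1.cj (F1.ι g)).ι al = F1.ι al := by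
    rw [cj_ι, ← map_inv, ← map_mul, ← map_mul, (al_comm g).eq, mul_inv_cancel_right]
  refine ⟨F1.cj (F1.ι g), k, by rw [cj_ι, ← hg, wv1]; simp, fun y => ?_⟩
  rw [e, D, D, k]

/-- braid and triangle relations next to a common neighbour -/
theorem braid {x a b : G} (h : F.D x) (ha : F.D a) (hb : F.D b) (ca : Commute a x)
    (cb : Commute b x) (n : ¬ Commute a b) : a * b * a = b * a * b ∧
      ∀ c, F.D c → Commute c x → ¬ Commute a c → ¬ Commute b c → Commute (a * b * a) c := by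
  obtain ⟨F', rfl, e⟩ := frame h
  obtain ⟨i, hi, i0, rfl⟩ := ((e a).1 ha).cd ca
  obtain ⟨j, hj, j0, rfl⟩ := ((e b).1 hb).cd cb
  rw [cm hi hj i0] at n
  obtain ⟨t1, t2, t3⟩ := tri i hi j hj n
  have k : ∀ i < 32, ∀ j < 32, F'.ι (wv i) * F'.ι (wv j) * F'.ι (wv i) = F'.ι (wv (tc i j)) :=
    fun i hi j hj => by
      rw [← eqv1 i hi j hj, inv_eq_of_mul_eq_one_right (wv_sq i hi), map_mul, map_mul]
  refine ⟨by rw [k i hi j hj, k j hj i hi, t1], fun c hc cc n1 n2 => ?_⟩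
  obtain ⟨m, hm, m0, rfl⟩ := ((e c).1 hc).cd cc
  rw [cm hi hm i0] at n1
  rw [cm hj hm j0] at n2
  rw [k i hi j hj, cm ((tc_lt i hi j (by omega)).2.2 hj) hm t2]
  exact t3 m hm n1 n2

end Fr

def Pat (x a c n1 n2 n3 y : ℕ) : Prop :=
  (∀ u ∈ [x, a, c, n1, n2, n3, y], u < 32 ∧ u ≠ 0 ∧ bB u x = 0 ∧ bB a u = 0) ∧
  (∀ u ∈ [a, c, n1, n2, n3, y], u ≠ x) ∧ (∀ u ∈ [n1, n2, n3], bB c u ≠ 0) ∧
  (∀ u ∈ [c, n1, n2, n3], bB u y = 0) ∧ y ≠ a ∧ bB n1 n2 = 0 ∧ bB n1 n3 = 0 ∧ bB n2 n3 = 0 ∧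
  n1 ≠ n2 ∧ n1 ≠ n3 ∧ n2 ≠ n3
instance (x a c n1 n2 n3 y : ℕ) : Decidable (Pat x a c n1 n2 n3 y) := by
  unfold Pat; infer_instance

theorem pat1 : Pat 1 16 8 5 4 20 17 := by decide +kernel
theorem pat2 : Pat 4 16 2 1 17 5 20 := by decide +kernel

namespace Fr

theorem d4G (F : Fr G) {x a c n1 n2 n3 y : ℕ} (h : Pat x a c n1 n2 n3 y) :
    (∀ z, F.D z → Commute z (F.ι (wv x)) →
      (Commute (F.ι (wv y)) z ↔ Commute (F.ι (wv a)) z)) ∧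
    ∃ t, F.D t ∧ Commute t (F.ι (wv x)) ∧ ¬ Commute (F.ι (wv a)) t ∧ Commute (F.ι (wv c)) t ∧
      (Commute (F.ι (wv n2)) t ∧ Commute (F.ι (wv n3)) t ∨
        Commute (F.ι (wv n1)) t ∧ ¬ Commute (F.ι (wv n2)) t ∧ Commute (F.ι (wv n3)) t ∨
        Commute (F.ι (wv n1)) t ∧ Commute (F.ι (wv n2)) t ∧ ¬ Commute (F.ι (wv n3)) t) := by
  obtain ⟨h1, h2, h3, h4, h5, c12, c13, c23, d12, d13, d23⟩ := h
  have hx := (h1 x (by simp)).1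
  obtain ⟨ha, a0, ax, -⟩ := h1 a (by simp)
  have ne : ∀ {i j}, i < 32 → j < 32 → i ≠ j → F.ι (wv i) ≠ F.ι (wv j) := fun hi hj n e =>
    n (wv_inj _ hi _ hj (F.inj e))
  obtain ⟨F', ex, ea, e⟩ := frame2 (D_wv hx (h1 x (by simp)).2.1) (D_wv ha a0)
    ((F.cm ha hx a0).2 ax) (ne ha hx (h2 a (by simp)))
  have g : ∀ u ∈ [a, c, n1, n2, n3, y], ∃ n < 32, n % 16 ≠ 0 ∧
      (u < 32 ∧ u ≠ 0 ∧ F.ι (wv u) = F'.ι (wv n)) ∧ bB 1 n = 0 := fun u hu => by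
    obtain ⟨q1, q2, q3, q4⟩ := h1 u (List.mem_cons_of_mem x hu)
    obtain ⟨n, p1, p2, p3⟩ := ((e _).1 (D_wv q1 q2)).rf (by rw [ex]; exact (F.cm q1 hx q2).2 q3)
      (by rw [ex]; exact ne q1 hx (h2 u hu))
    refine ⟨n, p1, p2, ⟨q1, q2, p3⟩, (F'.cm (by omega) p1 (by omega)).1 ?_⟩
    rw [ea, ← p3]; exact (F.cm ha q1 a0).2 q4
  obtain ⟨ic, lc, zc, ec, bc⟩ := g c (by simp)
  obtain ⟨i1, l1, z1, e1, b1⟩ := g n1 (by simp)
  obtain ⟨i2, l2, z2, e2, b2⟩ := g n2 (by simp)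
  obtain ⟨i3, l3, z3, e3, b3⟩ := g n3 (by simp)
  obtain ⟨iy, ly, zy, ey, hy⟩ := g y (by simp)
  have cm' : ∀ {u v i j : ℕ}, i < 32 → j < 32 → i % 16 ≠ 0 →
      (u < 32 ∧ u ≠ 0 ∧ F.ι (wv u) = F'.ι (wv i)) → (v < 32 ∧ v ≠ 0 ∧ F.ι (wv v) = F'.ι (wv j)) →
      (bB u v = 0 ↔ bB i j = 0) := fun {u v i j} hi hj zi ei ej => by
    rw [← F'.cm hi hj (by omega), ← ei.2.2, ← ej.2.2, F.cm ei.1 ej.1 ei.2.1]
  have ne' : ∀ {u v i j : ℕ}, (u < 32 ∧ u ≠ 0 ∧ F.ι (wv u) = F'.ι (wv i)) →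
      (v < 32 ∧ v ≠ 0 ∧ F.ι (wv v) = F'.ι (wv j)) → u ≠ v → i ≠ j :=
    fun {u v i j} ei ej n e => ne ei.1 ej.1 n (by rw [ei.2.2, ej.2.2, e])
  obtain ⟨k1, t, lt, zt, t1, t2, t3⟩ := d4 ic lc bc i1 l1 b1
    ((cm' lc l1 zc ec e1).not.1 (h3 _ (by simp))) i2 l2 b2
    ((cm' lc l2 zc ec e2).not.1 (h3 _ (by simp))) ((cm' l1 l2 z1 e1 e2).1 c12) (ne' e1 e2 d12)
    i3 l3 b3 ((cm' lc l3 zc ec e3).not.1 (h3 _ (by simp))) ((cm' l1 l3 z1 e1 e3).1 c13)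
    ((cm' l2 l3 z2 e2 e3).1 c23) (ne' e1 e3 d13) (ne' e2 e3 d23)
  obtain rfl := k1 iy ly zy (ne' ey ⟨ha, a0, ea.symm⟩ h5) hy
    ((cm' lc ly zc ec ey).1 (h4 _ (by simp)))
    ((cm' l1 ly z1 e1 ey).1 (h4 _ (by simp))) ((cm' l2 ly z2 e2 ey).1 (h4 _ (by simp)))
    ((cm' l3 ly z3 e3 ey).1 (h4 _ (by simp)))
  refine ⟨fun z hz cz => ?_, F'.ι (wv t), (e _).2 (D_wv lt (by omega)),
    by rw [← ex]; exact (al_comm _).map F'.ι, ?_⟩
  · obtain ⟨m, hm, m0, rfl⟩ := ((e z).1 hz).cd (by rw [ex]; exact cz)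
    rw [ey.2.2, ← ea, F'.cm ly hm (by omega), F'.cm (by omega) hm (by omega), b17 m hm]
  · rw [← ea, ec.2.2, e1.2.2, e2.2.2, e3.2.2, F'.cm (by omega) lt (by omega),
      F'.cm lc lt (by omega), F'.cm l1 lt (by omega), F'.cm l2 lt (by omega),
      F'.cm l3 lt (by omega)]
    exact ⟨t1, t2, t3⟩

def Pre (F : Fr G) (t : G) : Prop := F.D t ∧ Commute (F.ι (wv 1)) t ∧ Commute (F.ι (wv 5)) t ∧
  Commute (F.ι (wv 8)) t ∧ Commute (F.ι (wv 4)) t ∧ ¬ Commute (F.ι (wv 16)) t ∧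
  ¬ Commute (F.ι (wv 20)) t

theorem pre (F : Fr G) : ∃ (F' : Fr G) (t : G), F'.Pre t := by
  obtain ⟨t, ht, c1, na, c8, ⟨c4, c20⟩ | ⟨c5, n4, c20⟩ | ⟨c5, c4, n20⟩⟩ := (F.d4G pat1).2
  · exact absurd (((F.d4G pat2).1 t ht c4.symm).1 c20) na
  · obtain ⟨e0, e1, -, e8, e5, e4, e20⟩ := th_v
    have k : ∀ w, F.th.ι w = F.ι (th0 w) := fun _ => rfl
    refine ⟨F.th, t, ?_⟩
    simp only [Pre, D, k, wv16, e0, e1, e8, e5, e4, e20]
    exact ⟨ht, c1.symm, c5, c8, c20, wv16 ▸ na, n4⟩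
  · exact ⟨F, t, ht, c1.symm, c5, c8, c4, na, n20⟩

theorem good (F : Fr G) : ∃ (F' : Fr G) (t : G), F'.Pre t ∧ Commute (F'.ι (wv 2)) t := by
  obtain ⟨F, t, h⟩ := F.pre
  by_cases c : Commute (F.ι (wv 2)) t
  · exact ⟨F, t, h, c⟩
  obtain ⟨ht, c1, c5, c8, c4, na, n20⟩ := h
  have n17 : ¬ Commute (F.ι (wv 17)) t := fun e => na (((F.d4G pat1).1 t ht c1.symm).1 e)
  have d17 : F.D (F.ι (wv 17)) := D_wv (by omega) (by omega)
  have k : ∀ n < 32, bB 17 n = 0 → (Commute (F.ι (wv n)) (F.ι (wv 17) * t * F.ι (wv 17)) ↔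
      Commute (F.ι (wv n)) t) := fun n hn b => by
    have e := ((F.cm (by omega) hn (by omega)).2 b).eq
    have : F.ι (wv n) = F.ι (wv 17) * F.ι (wv n) * (F.ι (wv 17))⁻¹ := by
      rw [e, mul_inv_cancel_right]
    nth_rewrite 2 [← d17.inv]
    exact ⟨fun h => cj_cm' (this ▸ h), fun h => this ▸ cj_cm _ h⟩
  refine ⟨F, F.ι (wv 17) * t * F.ι (wv 17), ⟨?_, (k 1 (by omega) (by decide)).2 c1,
    (k 5 (by omega) (by decide)).2 c5, (k 8 (by omega) (by decide)).2 c8,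
    (k 4 (by omega) (by decide)).2 c4, ?_, (k 20 (by omega) (by decide)).not.2 n20⟩, ?_⟩
  · nth_rewrite 2 [← d17.inv]; exact ht.cj _
  · exact (k 16 (by omega) (by decide)).not.2 na
  · exact ((braid (D_wv (n := 4) (by omega) (by omega)) d17 ht
      ((F.cm (by omega) (by omega) (by omega)).2 (by decide)) c4.symm n17).2 _
      (D_wv (n := 2) (by omega) (by omega)) ((F.cm (by omega) (by omega) (by omega)).2 (by decide))
      ((F.cm (by omega) (by omega) (by omega)).not.2 (by decide)) fun e => c e.symm).symm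

end Fr

end Cfsg.Agent.YK.Sp
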