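import Cfsg.Agent.YK.P2

/-! The labelling of the 63 transvections. -/

set_option autoImplicit false

namespace Cfsg.Agent.YK.Sp

variable {G : Type*} [Group G]

def ta (a v : V6) : V6 := v + sB a v • a

theorem sB_ta (a u v : V6) : sB (ta a u) (ta a v) = sB u v := by
  simp only [ta, sB_addl, sB_addr, sB_smull, sB_smulr, sB_self, sB_comm u a]
  linear_combination z2 (sB a u * sB a v)

theorem ta_ta (a v : V6) : ta a (ta a v) = v := by
  simp only [ta, sB_addr, sB_smulr, sB_self, mul_zero, add_zero, add_assoc, v2]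

theorem ta_cj (a u v : V6) : ta a (ta u (ta a v)) = ta (ta a u) v := by
  simp only [ta, sB_addl, sB_addr, sB_smull, sB_smulr, sB_self, sB_comm u a]
  funext i
  simp only [Pi.add_apply, Pi.smul_apply, smul_eq_mul]
  linear_combination z2 (sB a v * a i)

theorem ta_ne (a : V6) {v : V6} (h : v ≠ 0) : ta a v ≠ 0 := fun e => h (by
  rw [← ta_ta a v, e, ta, ← zero_smul (ZMod 2) (0 : V6), sB_smulr]; simp)

theorem nd {v : V6} (h : v ≠ 0) : ∃ w, sB v w = 1 :=
  (ndF [] (by simp) v h (by simp)).imp fun _ h => h.1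

theorem ta_mv {u v : V6} (h : sB u v = 1) : ta (u + v) u = v := by
  rw [ta, ← tv_ap, mv1 h]

theorem trans {Q : V6 → Prop} (hQ : ∀ a u, Q u → Q (ta a u)) {u v : V6} (hu : u ≠ 0) (hv : v ≠ 0)
    (h : Q u) : Q v := by
  obtain ⟨w, hw⟩ := nd hv
  rcases stepE [] v w (sB_comm _ _ ▸ hw) (by simp) (by simp) (ndF [] (by simp)) u hu (by simp)
    with rfl | e | ⟨x, a, b, -⟩
  · exact h
  · exact ta_mv e ▸ hQ _ _ h
  · exact ta_mv b ▸ hQ _ _ (ta_mv a ▸ hQ _ _ h)

theorem ta_vec {n m : ℕ} (hn : n < 64) (hm : m < 64) : ta (vec n) (vec m) = vec (tc n m) :=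
  tc_vec hn hm

theorem t32 : ∀ x < 16, tc 32 x = x ∧ tc 32 (16 + x) = 48 + x ∧ tc 32 (32 + x) = 32 + x ∧
    tc 32 (48 + x) = 16 + x ∧ wv (48 + x) = wv (16 + x) * wv x ∧
    wv (32 + x) = al * wv (16 + x) * wv x := by decide +kernel
theorem ch3 : ∀ n < 64, 32 ≤ n → ∃ a < 32, ∃ b < 32, tc a (tc b 32) = n := by decide +kernel
theorem b16 : ∀ m < 32, (bB 16 m : ZMod 2) ≠ 1 := by decide +kernel
theorem tc16 : ∀ a < 16, ∀ b < 16, tc a b < 16 := by decide +kernel

structure Lab (F : Fr G) (l : V6 → G) : Prop where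
  hT : ∀ u v, l u * l v * (l u)⁻¹ = l (ta u v)
  lw : ∀ n < 32, l (vec n) = F.ι (wv n)
  inj : ∀ u v, u ≠ 0 → v ≠ 0 → l u = l v → u = v

namespace Fr
variable {F : Fr G} {t : G}

theorem eqv {n m : ℕ} (hn : n < 32) (hm : m < 32) :
    F.ι (wv n) * F.ι (wv m) * (F.ι (wv n))⁻¹ = F.ι (wv (tc n m)) := by
  rw [← eqv1 n hn m hm, map_mul, map_mul, map_inv]

theorem cmA (h : F.Pre t) (c2 : Commute (F.ι (wv 2)) t) :
    ∀ x < 16, Commute (F.ι (wv x)) t := fun x hx => by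
  obtain ⟨-, c1, c5, c8, c4, -⟩ := h
  have b : ∀ e ∈ [0, 1, 2, 5, 8, 4], e < 16 ∧ Commute (F.ι (wv e)) t := by
    simp only [List.forall_mem_cons]
    exact ⟨⟨by omega, by rw [wv_s.1, map_one]; exact Commute.one_left _⟩, ⟨by omega, c1⟩,
      ⟨by omega, c2⟩, ⟨by omega, c5⟩, ⟨by omega, c8⟩, ⟨by omega, c4⟩, by simp⟩
  have st : ∀ a ∈ [0, 1, 2, 5, 8, 4], ∀ e, e < 16 ∧ Commute (F.ι (wv e)) t →
      tc a e < 16 ∧ Commute (F.ι (wv (tc a e))) t := fun a ha e he => by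
    obtain ⟨l, c⟩ := b a ha
    refine ⟨tc16 a l e he.1, ?_⟩
    rw [← eqv (by omega) (by omega)]
    exact (c.mul_left he.2).mul_left c.inv_left
  obtain ⟨a, ha, b', hb, c, hc, d, hd, e, he, rfl⟩ := ch1 x hx
  exact (st a (by simp at ha ⊢; omega) _ (st b' (by simp at hb ⊢; omega) _
    (st c (by simp at hc ⊢; omega) _ (st d (by simp at hd ⊢; omega) _ (b e he))))).2

theorem brA (h : F.Pre t) (c : ∀ x < 16, Commute (F.ι (wv x)) t) : ∀ x < 16,
    F.ι (wv (16 + x)) * t * F.ι (wv (16 + x)) = t * F.ι (wv (16 + x)) * t := fun x hx => by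
  obtain ⟨ht, c1, -, -, -, n16, n20⟩ := h
  have d1 : F.D (F.ι (wv 1)) := D_wv (by omega) (by omega)
  have b : ∀ n < 32, n ≠ 0 → bB n 1 = 0 → ¬ Commute (F.ι (wv n)) t →
      F.ι (wv n) * t * F.ι (wv n) = t * F.ι (wv n) * t := fun n hn n0 e k =>
    (braid d1 (D_wv hn n0) ht ((F.cm hn (by omega) n0).2 e) c1.symm k).1
  have st : ∀ a < 16, ∀ n < 32, F.ι (wv n) * t * F.ι (wv n) = t * F.ι (wv n) * t →
      F.ι (wv (tc a n)) * t * F.ι (wv (tc a n)) = t * F.ι (wv (tc a n)) * t := fun a ha n hn e => by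
    rw [← eqv (by omega) hn]
    have : t = F.ι (wv a) * t * (F.ι (wv a))⁻¹ := by rw [(c a ha).eq, mul_inv_cancel_right]
    rw [this, conj_mul, conj_mul, conj_mul, conj_mul, e]
  by_cases x0 : x = 0
  · subst x0; exact b 16 (by omega) (by omega) (by decide) n16
  · obtain ⟨a, ha, d, hd, e⟩ := ch2 x hx x0
    rw [← e]
    exact st a ha _ ((tc_lt d (by omega) 20 (by omega)).2.2 (by omega))
      (st d hd 20 (by omega) (b 20 (by omega) (by omega) (by decide) n20))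

def lc (F : Fr G) (t : G) (n : ℕ) : G :=
  if n < 32 then F.ι (wv n) else F.ι (wv n) * t * (F.ι (wv n))⁻¹

theorem lcA (c : ∀ x < 16, Commute (F.ι (wv x)) t) {n m : ℕ} (hn : n < 32) (hm : m < 64) :
    F.lc t n * F.lc t m * (F.lc t n)⁻¹ = F.lc t (tc n m) := by
  have k := (tc_lt n hn m hm).2
  by_cases h : m < 32
  · simp only [lc, if_pos hn, if_pos h, if_pos (k.2 h), eqv hn h]
  · simp only [lc, if_pos hn, if_neg h, if_neg (k.not.2 h)]
    have e := congrArg F.ι (eqv2 n hn m hm (by omega))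
    rw [map_mul, map_mul] at e
    calc _ = (F.ι (wv n) * F.ι (wv m)) * t * (F.ι (wv n) * F.ι (wv m))⁻¹ := by group
      _ = _ := by rw [e, mul_assoc (F.ι _), (c _ (Nat.mod_lt _ (by omega))).eq]; group

theorem s4rel {a q t : G} (a2 : a * a = 1) (q2 : q * q = 1) (t2 : t * t = 1) (c : Commute a q)
    (b1 : a * t * a = t * a * t) (b2 : q * t * q = t * q * t) :
    t * (a * (q * t * q) * a) * t = a * (q * t * q) * a := by
  calc _ = (t * a * t) * q * (t * a * t) := by rw [b2]; group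
    _ = a * (t * (a * q * a) * t) * a := by rw [← b1]; group
    _ = _ := by rw [c.eq, mul_assoc q, a2, mul_one, b2]

theorem lcB (h : F.Pre t) (c : ∀ x < 16, Commute (F.ι (wv x)) t) {m : ℕ} (hm : m < 64) :
    F.lc t 32 * F.lc t m * (F.lc t 32)⁻¹ = F.lc t (tc 32 m) := by
  have e32 : F.lc t 32 = t := by simp [lc, wv_s.2.2.2.2.2.2]
  have t2 := h.1.sq
  have b := brA h c
  rw [e32, h.1.inv]
  obtain ⟨x, hx, k⟩ : ∃ x < 16, m = x ∨ m = 16 + x ∨ m = 32 + x ∨ m = 48 + x :=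
    ⟨m % 16, by omega, by omega⟩
  obtain ⟨e0, e1, e2, e3, e4, e5⟩ := t32 x hx
  have dq : F.D (F.ι (wv (16 + x))) := D_wv (by omega) (by omega)
  have da : F.D (F.ι al) := IsConj.refl _
  have l48 : F.lc t (48 + x) = F.ι (wv (16 + x)) * t * F.ι (wv (16 + x)) := by
    rw [lc, if_neg (by omega), e4, map_mul, mul_assoc (F.ι _), (c x hx).eq, mul_inv_rev, dq.inv]
    group
  have l16 : F.lc t (16 + x) = F.ι (wv (16 + x)) := if_pos (by omega)
  rcases k with rfl | rfl | rfl | rfl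
  · rw [e0, lc, if_pos (by omega), ← (c m hx).eq, mul_assoc, t2, mul_one]
  · rw [e1, l48, l16, b x hx]
  · have : F.lc t (32 + x) = F.ι al * (F.ι (wv (16 + x)) * t * F.ι (wv (16 + x))) * F.ι al := by
      rw [lc, if_neg (by omega), e5, map_mul, map_mul, mul_assoc _ _ t, (c x hx).eq, mul_inv_rev,
        mul_inv_rev, dq.inv, da.inv]
      group
    rw [e2, this]
    exact s4rel da.sq dq.sq t2 ((al_comm _).symm.map F.ι) (wv16 ▸ b 0 (by omega)) (b x hx)
  · rw [e3, l48, l16, b x hx]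
    calc _ = (t * t) * F.ι (wv (16 + x)) * (t * t) := by group
      _ = _ := by rw [t2]; group

theorem lab (F : Fr G) : ∃ (F' : Fr G) (l : V6 → G), Lab F' l := by
  obtain ⟨F, t, h, c2⟩ := F.good
  have c := cmA h c2
  let l : V6 → G := fun v => F.lc t (cdv v)
  have lv : ∀ n < 64, l (vec n) = F.lc t n := fun n hn => by simp only [l, cdv_vec n hn]
  have tl : ∀ n < 64, ∀ m < 64, tc n m < 64 := by decide +kernel
  have base : ∀ n < 64, (∀ m < 64, F.lc t n * F.lc t m * (F.lc t n)⁻¹ = F.lc t (tc n m)) →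
      ∀ v, l (vec n) * l v * (l (vec n))⁻¹ = l (ta (vec n) v) := fun n hn k v => by
    obtain ⟨m, hm, rfl⟩ := vec_cdv v
    rw [ta_vec hn hm, lv n hn, lv m hm, lv _ (tl n hn m hm), k m hm]
  have st : ∀ a u, (∀ v, l a * l v * (l a)⁻¹ = l (ta a v)) →
      (∀ v, l u * l v * (l u)⁻¹ = l (ta u v)) →
      ∀ v, l (ta a u) * l v * (l (ta a u))⁻¹ = l (ta (ta a u) v) := fun a u ha hu v => by
    rw [← ta_cj, ← ha, ← ha, ← hu]
    nth_rewrite 1 [← ta_ta a v]
    rw [← ha (ta a v)]; group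
  have b1 : ∀ n < 32, ∀ v, l (vec n) * l v * (l (vec n))⁻¹ = l (ta (vec n) v) := fun n hn =>
    base n (by omega) fun m hm => lcA c hn hm
  have hT : ∀ u v, l u * l v * (l u)⁻¹ = l (ta u v) := fun u => by
    obtain ⟨n, hn, rfl⟩ := vec_cdv u
    by_cases k : n < 32
    · exact b1 n k
    · obtain ⟨a, ha, b, hb, rfl⟩ := ch3 n hn (by omega)
      rw [← ta_vec (by omega) (tl b (by omega) 32 (by omega)), ← ta_vec (by omega) (by omega)]
      exact st _ _ (b1 a ha) (st _ _ (b1 b hb) (base 32 (by omega) fun m hm => lcB h c hm))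
  have lw : ∀ n < 32, l (vec n) = F.ι (wv n) := fun n hn => by rw [lv n (by omega), lc, if_pos hn]
  have key : ∀ x u v, sB x u = 0 → sB x v = 1 → l u ≠ l v := fun x u v a b e => by
    have x0 : x ≠ 0 := by
      rintro rfl
      rw [← zero_smul (ZMod 2) (0 : V6), sB_smull, zero_mul] at b
      exact zero_ne_one b
    obtain ⟨y, p, q⟩ := trans (Q := fun x => ∃ y, sB x y = 1 ∧ l x = l y)
      (fun a u ⟨y, p, q⟩ => ⟨ta a y, by rw [sB_ta, p], by rw [← hT, ← hT, q]⟩) x0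
      (vec_ne (n := 16) (by omega) (by omega)) ⟨ta v x, by
        rw [ta, sB_addr, sB_smulr, sB_self, sB_comm v, b, one_mul, zero_add], by
        rw [← hT, ← e, hT, ta, sB_comm, a, zero_smul, add_zero]⟩
    obtain ⟨m, hm, rfl⟩ := vec_cdv y
    rw [sB_vec (by omega) hm] at p
    rw [lw 16 (by omega), lv m hm, lc, if_neg fun k => b16 m k p, wv16] at q
    refine h.2.2.2.2.2.1 (cj_cm' (g := F.ι (wv m)) ?_)
    rw [← q, wv16, ((al_comm _).map F.ι).eq, mul_inv_cancel_right]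
  refine ⟨F, l, hT, lw, fun u v _ _ e => by_contra fun n => ?_⟩
  obtain ⟨w, hw⟩ := nd (v := u + v) fun k => n (by rw [← add_zero u, ← v2 v, ← add_assoc, k, zero_add])
  rw [sB_comm, sB_addr] at hw
  rcases z01 (sB w u) with a | a
  · exact key w u v a (by rwa [a, zero_add] at hw) e
  · exact key w v u (by rwa [a, add_eq_left] at hw) a e.symm

end Fr

end Cfsg.Agent.YK.Sp
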