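import Cfsg.Agent.YK.P3

/-! The symplectic case of Yamaki's theorem. -/

set_option autoImplicit false

namespace Cfsg.Agent.YK.Sp

open Matrix

variable {G : Type*} [Group G]

theorem dih [Finite G] {a b : G} (ha : a * a = 1) (hb : b * b = 1) (K : Subgroup G) (aK : a ∈ K)
    (bK : b ∈ K) : (∃ k ∈ K, k * a * k⁻¹ = b) ∨ ∃ y, y * y = 1 ∧ y ≠ 1 ∧ Commute a y ∧
      Commute b y ∧ ((∃ k ∈ K, k * a * k⁻¹ = b * y) ∨ ∃ k, k * k = y ∧ k * b * k⁻¹ = b * y ∧
        (IsConj a (k * b) ∨ IsConj b (k * b))) := by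
  have ci : (a * b)⁻¹ = b * a := by
    rw [_root_.mul_inv_rev, inv_eq_of_mul_eq_one_right ha, inv_eq_of_mul_eq_one_right hb]
  have cb : a * b * b = a := by rw [mul_assoc, hb, mul_one]
  have pa : ∀ j : ℕ, a * ((a * b) ^ j)⁻¹ = (a * b) ^ j * a := fun j => by
    rw [← inv_pow]
    exact SemiconjBy.pow_right (by rw [SemiconjBy, ci, mul_assoc]) j
  have pb : ∀ j : ℕ, b * ((a * b) ^ j)⁻¹ = (a * b) ^ j * b := fun j => by
    rw [← inv_pow]
    exact SemiconjBy.pow_right (by rw [SemiconjBy, ci, cb, ← mul_assoc, hb, one_mul]) j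
  have qa : ∀ j : ℕ, (a * b) ^ j * a * ((a * b) ^ j)⁻¹ = (a * b) ^ (2 * j) * a := fun j => by
    rw [mul_assoc, pa, ← mul_assoc, ← pow_add, two_mul]
  have qb : ∀ j : ℕ, (a * b) ^ j * b * ((a * b) ^ j)⁻¹ = (a * b) ^ (2 * j) * b := fun j => by
    rw [mul_assoc, pb, ← mul_assoc, ← pow_add, two_mul]
  have mK : ∀ j : ℕ, (a * b) ^ j ∈ K := fun j => pow_mem (mul_mem aK bK) j
  have hp : 0 < orderOf (a * b) := orderOf_pos _
  have ho := pow_orderOf_eq_one (a * b)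
  rcases Nat.even_or_odd' (orderOf (a * b)) with ⟨m, e | e⟩
  · have y2 : (a * b) ^ m * (a * b) ^ m = 1 := by rw [← pow_add, ← two_mul, ← e, ho]
    have yi := inv_eq_of_mul_eq_one_right y2
    have cy : Commute b ((a * b) ^ m) := by rw [commute_iff_eq, ← pb, yi]
    refine Or.inr ⟨(a * b) ^ m, y2, pow_ne_one_of_lt_orderOf (by omega) (by omega),
      by rw [commute_iff_eq, ← pa, yi], cy, ?_⟩
    rw [cy.eq]
    rcases Nat.even_or_odd' m with ⟨j, rfl | rfl⟩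
    · refine Or.inr ⟨(a * b) ^ j, by rw [← pow_add, two_mul], qb j, ?_⟩
      rcases Nat.even_or_odd' j with ⟨i, rfl | rfl⟩
      · exact Or.inr (qb i ▸ ic _ _)
      · exact Or.inl (by rw [pow_succ, mul_assoc, cb, ← qa]; exact ic _ _)
    · exact Or.inl ⟨_, mK j, by rw [qa, pow_succ, mul_assoc, cb]⟩
  · refine Or.inl ⟨_, mK m, ?_⟩
    rw [e, pow_succ] at ho
    rw [qa, eq_inv_of_mul_eq_one_left ho, ci, mul_assoc, ha, mul_one]

def G0 (l : V6 → G) : Subgroup G := Subgroup.closure (l '' {v | v ≠ 0})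
def D0 (l : V6 → G) (x : G) : Prop := ∃ v, v ≠ 0 ∧ l v = x

namespace Lab
variable {F : Fr G} {l : V6 → G} (L : Lab F l)
include L

theorem l16 : l (vec 16) = F.ι al := by rw [L.lw 16 (by omega), wv16]

theorem mem (v : V6) : l v ∈ G0 l := by
  by_cases h : v = 0
  · rw [h, ← vec0, L.lw 0 (by omega), wv_s.1, map_one]; exact one_mem _
  · exact Subgroup.subset_closure ⟨v, h, rfl⟩

theorem memH (w : W) : F.ι w ∈ G0 l := by
  have b : ∀ n < 32, F.ι (wv n) ∈ G0 l := fun n hn => L.lw n hn ▸ L.mem _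
  have hr : ∀ i j, F.ι (r i j) ∈ G0 l := fun i j => by
    obtain ⟨n, hn, e⟩ := (gen_f i j).1
    rw [e]; exact b n hn
  have hf : ∀ i j, F.ι (f i j) ∈ G0 l := fun i j => by
    obtain ⟨n, hn, m, hm, e⟩ := (gen_f i j).2
    rw [e, map_mul]; exact mul_mem (b n hn) (b m hm)
  have ht : ∀ k j, F.ι (tr k j) ∈ G0 l := fun k j => by
    unfold tr; split
    · exact hr _ _
    · rw [map_mul]; exact mul_mem (hf _ _) (hr _ _)
  obtain ⟨a, -, b, -, c, -, d, -, e, -, rfl⟩ := cover w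
  simp only [map_mul]
  exact mul_mem (mul_mem (mul_mem (mul_mem (ht _ _) (ht _ _)) (ht _ _)) (ht _ _)) (ht _ _)

theorem cm0 {a b : V6} (ha : a ≠ 0) (hb : b ≠ 0) (c : Commute (l a) (l b)) : sB a b = 0 := by
  have := L.inj _ _ (ta_ne a hb) hb (by rw [← L.hT, c.eq, mul_inv_cancel_right])
  refine (z01 _).resolve_right fun e => ha ?_
  rwa [ta, e, one_smul, add_eq_left] at this

theorem iso : ∃ Φ : G0 l ≃* Matrix.symplecticGroup (Fin 3) (ZMod 2),
    ∀ (g : G0 l) v, v ≠ 0 → (g : G) * l v * (g : G)⁻¹ = l ((Φ g).1 *ᵥ v) := by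
  refine spId l (fun u v _ _ => L.hT u v) L.inj fun g _ h => ?_
  obtain ⟨w, rfl⟩ := F.cen g (L.l16 ▸ h _ (vec_ne (by omega) (by omega)))
  have k : ∀ n < 32, n ≠ 0 → Commute w (wv n) := fun n hn n0 =>
    (cm_map F.inj).1 (L.lw n hn ▸ h _ (vec_ne (by omega) n0))
  obtain ⟨-, e1, e2, e5, e8, e4, -⟩ := wv_s
  rcases center_W w (e1 ▸ k 1 (by omega) (by omega)) (e2 ▸ k 2 (by omega) (by omega))
    (e5 ▸ k 5 (by omega) (by omega)) (e8 ▸ k 8 (by omega) (by omega))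
    (e4 ▸ k 4 (by omega) (by omega)) with rfl | rfl
  · exact map_one _
  · have := L.cm0 (vec_ne (n := 16) (by omega) (by omega)) (vec_ne (n := 32) (by omega) (by omega))
      (L.l16 ▸ h _ (vec_ne (by omega) (by omega)))
    rw [sB_vec (by omega) (by omega)] at this
    exact absurd this (by decide +kernel)

theorem act {g : G} (hg : g ∈ G0 l) : ∃ M : Sp6, ∀ v, v ≠ 0 → g * l v * g⁻¹ = l (M.1 *ᵥ v) := by
  obtain ⟨Φ, h⟩ := L.iso
  exact ⟨Φ ⟨g, hg⟩, h ⟨g, hg⟩⟩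

theorem L1 {x : G} (h : D0 l x) : ∃ g ∈ G0 l, g * F.ι al * g⁻¹ = x := by
  obtain ⟨v, hv, rfl⟩ := h
  refine trans (Q := fun v => ∃ g ∈ G0 l, g * F.ι al * g⁻¹ = l v) ?_
    (vec_ne (n := 16) (by omega) (by omega)) hv ⟨1, one_mem _, by simp [L.l16]⟩
  rintro a u ⟨g, hg, e⟩
  exact ⟨l a * g, mul_mem (L.mem a) hg, by rw [← L.hT, ← e]; group⟩

theorem toD {x : G} (h : D0 l x) : F.D x := by
  obtain ⟨g, -, rfl⟩ := L.L1 h
  exact ic _ _

theorem cj0 {x g : G} (h : D0 l x) (hg : g ∈ G0 l) : D0 l (g * x * g⁻¹) := by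
  obtain ⟨v, hv, rfl⟩ := h
  obtain ⟨M, e⟩ := L.act hg
  exact ⟨_, sp_ne M hv, (e v hv).symm⟩

theorem wv0 {n : ℕ} (h : n < 32) (h0 : n ≠ 0) : D0 l (F.ι (wv n)) :=
  ⟨_, vec_ne (by omega) h0, L.lw n h⟩

theorem L2 {x y : G} (h : D0 l x) (hy : F.D y) (c : Commute y x) : D0 l y := by
  obtain ⟨g, hg, rfl⟩ := L.L1 h
  obtain ⟨n, hn, n0, e⟩ := (hy.cj g⁻¹).cd (cj_cm' (g := g) (by simpa [mul_assoc] using c))
  have := L.cj0 (L.wv0 hn n0) hg
  rw [← e] at this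
  simpa [mul_assoc] using this

theorem L3 {x k : G} (h : D0 l x) (h' : D0 l (k * x * k⁻¹)) : k ∈ G0 l := by
  obtain ⟨g, hg, rfl⟩ := L.L1 h
  obtain ⟨g', hg', e⟩ := L.L1 h'
  obtain ⟨w, hw⟩ := F.cen (g'⁻¹ * k * g) (by
    rw [commute_iff_eq, ← mul_inv_eq_iff_eq_mul]
    calc _ = g'⁻¹ * (k * (g * F.ι al * g⁻¹) * k⁻¹) * g' := by group
      _ = _ := by rw [← e]; group)
  have := mul_mem (mul_mem hg' (hw ▸ L.memH w)) (inv_mem hg)
  simpa [mul_assoc] using this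

theorem LC {a b : V6} (hab : sB a b = 0) (ne : a + b ≠ 0) {k : G} (hk : k ∈ G0 l)
    (c : Commute k (l a * l b)) : Commute k (l (a + b)) := by
  obtain ⟨M, hM⟩ := L.act hk
  have z : ∀ x, l a * l b * l x * (l a * l b)⁻¹ = l (ta a (ta b x)) := fun x => by
    rw [← L.hT, ← L.hT]; group
  have q : ∀ x, sB x (ta a (ta b x)) = sB x (a + b) := fun x => by
    simp only [ta, sB_addr, sB_smulr, sB_self, hab, sB_comm a x, sB_comm b x]
    generalize sB x a = s, sB x b = t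
    revert s t; decide
  have e : ∀ x, x ≠ 0 → M.1 *ᵥ ta a (ta b x) = ta a (ta b (M.1 *ᵥ x)) := fun x hx => by
    have n := ta_ne a (ta_ne b hx)
    refine L.inj _ _ (sp_ne M n) (ta_ne a (ta_ne b (sp_ne M hx))) ?_
    rw [← hM _ n, ← z, ← z, ← hM x hx]
    calc _ = (k * (l a * l b)) * l x * (k * (l a * l b))⁻¹ := by group
      _ = _ := by rw [c.eq]; group
  have f : M.1 *ᵥ (a + b) = a + b := by
    by_contra n
    obtain ⟨w, hw⟩ := nd (v := M.1 *ᵥ (a + b) + (a + b)) fun k =>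
      n (by rw [← add_zero (M.1 *ᵥ _), ← v2 (a + b), ← add_assoc, k, zero_add])
    have w0 : w ≠ 0 := by
      rintro rfl
      rw [← zero_smul (ZMod 2) (0 : V6), sB_smulr, zero_mul] at hw
      exact zero_ne_one hw
    have e' : w = M.1 *ᵥ (M⁻¹.1 *ᵥ w) := by
      rw [← mul_ap, mul_inv_cancel, show (1 : Sp6).1 = 1 from rfl, one_mulVec]
    rw [e', sB_comm, sB_addr, mem_sp.1 M.2, ← q (M.1 *ᵥ _), ← e _ (sp_ne _ w0), mem_sp.1 M.2, q,
      z2] at hw
    exact zero_ne_one hw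
  rw [commute_iff_eq, ← mul_inv_eq_iff_eq_mul, hM _ ne, f]

theorem LC' {e e' k : G} (h : D0 l e) (h' : D0 l e') (c : Commute e e') (ne : e ≠ e')
    (hk : k ∈ G0 l) (ck : Commute k (e * e')) (hD : F.D k) : D0 l k := by
  obtain ⟨a, ha, rfl⟩ := h
  obtain ⟨b, hb, rfl⟩ := h'
  have n : a + b ≠ 0 := fun k => ne (by rw [← add_zero a, ← v2 b, ← add_assoc, k, zero_add])
  exact L.L2 ⟨_, n, rfl⟩ hD (L.LC (L.cm0 ha hb c) n hk ck)

theorem L4 [Finite G] {d e : G} (hd : F.D d) (he : D0 l e) (K : Subgroup G) (dK : d ∈ K)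
    (eK : e ∈ K) : (∃ k ∈ K, k * d * k⁻¹ = e) ∨ ∃ e', D0 l e' ∧ e ≠ e' ∧ Commute e e' ∧
      Commute d (e * e') ∧ ∃ k ∈ K, k * d * k⁻¹ = e' := by
  have e2 := (L.toD he).sq
  refine (dih hd.sq e2 K dK eK).imp id ?_
  rintro ⟨y, y2, y1, dy, ey, h⟩
  have ee : e * (e * y) = y := by rw [← mul_assoc, e2, one_mul]
  have ce : Commute e (e * y) := (Commute.refl e).mul_right ey
  have ne : e ≠ e * y := fun k => y1 (left_eq_mul.1 k)
  rcases h with ⟨k, hk, h⟩ | ⟨k, k2, h, hx⟩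
  · exact ⟨e * y, L.L2 he (h ▸ hd.cj k) ce.symm, ne, ce, by rwa [ee], k, hk, h⟩
  · exfalso
    have h1 : D0 l (e * y) := L.L2 he (h ▸ (L.toD he).cj k) ce.symm
    have hk : k ∈ G0 l := L.L3 he (h ▸ h1)
    have eG : e ∈ G0 l := by obtain ⟨v, -, rfl⟩ := he; exact L.mem v
    obtain ⟨u, hu, hx⟩ := L.LC' he h1 ce ne (mul_mem hk eG) (by
      rw [ee]; exact Commute.mul_left (k2 ▸ (Commute.refl k).mul_right (Commute.refl k)) ey)
      (hx.elim (IsConj.trans hd) (IsConj.trans (L.toD he)))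
    obtain ⟨a, ha, rfl⟩ := he
    have u2 := (L.toD ⟨u, hu, rfl⟩).sq
    obtain rfl : k = l u * l a := by rw [hx, mul_assoc, e2, mul_one]
    have t1 := L.hT u a
    have t2 := L.hT a u
    rw [inv_eq_of_mul_eq_one_right u2, ta] at t1
    rw [inv_eq_of_mul_eq_one_right e2, ta, sB_comm] at t2
    have kk : l u * l a * (l u * l a) ≠ 1 := k2 ▸ y1
    rcases z01 (sB u a) with s | s
    · rw [s, zero_smul, add_zero] at t1
      exact kk (by rw [← mul_assoc, t1, e2])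
    · rw [s, one_smul] at t1 t2
      rw [add_comm, ← t1] at t2
      have k3 : l u * l a * y = 1 := by
        calc _ = (l u * l a * l u) * (l a * l u * l a) := by rw [← k2]; group
          _ = l u * (l a * (l u * l u) * l a) * l u := by rw [t2]; group
          _ = _ := by rw [u2, mul_one, e2, mul_one, u2]
      apply kk
      rw [eq_inv_of_mul_eq_one_left k3, ← _root_.mul_inv_rev, y2, inv_one]

theorem L5 [Finite G] {k : G} (c : Commute k (F.ι w1)) : Commute k (F.ι al) := by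
  have mK : ∀ {g : G}, g ∈ Subgroup.centralizer {F.ι w1} ↔ Commute g (F.ι w1) :=
    Subgroup.mem_centralizer_singleton_iff
  have a0 : D0 l (F.ι al) := wv16 ▸ L.wv0 (n := 16) (by omega) (by omega)
  have in0 : ∀ g, Commute g (F.ι w1) → D0 l (g * F.ι al * g⁻¹) → Commute g (F.ι al) :=
    fun g cg hg => by
      have := L.LC (a := vec 17) (b := vec 1) (by rw [sB_vec (by omega) (by omega)]; decide +kernel)
        (by decide +kernel) (L.L3 a0 hg) (by
          rwa [L.lw 17 (by omega), L.lw 1 (by omega), ← map_mul, ← w1_f.2.1])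
      rwa [show vec 17 + vec 1 = vec 16 by decide +kernel, L.l16] at this
  have in1 : ∀ g, Commute g (F.ι w1) → ∀ x, g * (k * F.ι al * k⁻¹) * g⁻¹ = x → D0 l x →
      x = F.ι al := fun g cg x e hx => by
    have e' : g * k * F.ι al * (g * k)⁻¹ = x := by rw [← e]; group
    rw [← e', (in0 _ (cg.mul_left c) (e' ▸ hx)).eq, mul_inv_cancel_right]
  have hd : F.D (k * F.ι al * k⁻¹) := ic _ _
  have dK : Commute (k * F.ι al * k⁻¹) (F.ι w1) :=
    (c.mul_left ((al_comm _).symm.map F.ι)).mul_left c.inv_left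
  have six' : ∀ e ∈ six, Commute (k * F.ι al * k⁻¹) (F.ι (wv e * al)) := fun e he => by
    obtain ⟨p1, p2, p3, p4, -⟩ := six_f e (List.mem_cons_of_mem _ he)
    rcases L.L4 hd (L.wv0 p1 p2) _ (mK.2 dK) (mK.2 (p3.map F.ι)) with
      ⟨g, hg, h⟩ | ⟨e', h0, -, -, cd, g, hg, h⟩
    · have := wv_inj _ p1 16 (by omega) (F.inj (wv16 ▸ in1 g (mK.1 hg) _ h (L.wv0 p1 p2)))
      exact absurd (this ▸ p4 he) (by decide)
    · rwa [in1 g (mK.1 hg) _ h h0, ← map_mul] at cd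
  refine in0 k c (L.L2 a0 hd ?_)
  generalize k * F.ι al * k⁻¹ = d at six'
  rw [← six_prod, map_list_prod]
  refine Commute.list_prod_right _ _ fun x hx => ?_
  simp only [List.mem_map] at hx
  obtain ⟨_, ⟨e, he, rfl⟩, rfl⟩ := hx
  exact six' e he

theorem L6 [Finite G] {e e' k : G} (h : D0 l e) (h' : D0 l e') (c : Commute e e') (ne : e ≠ e')
    (ck : Commute k (e * e')) : k ∈ G0 l := by
  obtain ⟨g, hg, rfl⟩ := L.L1 h
  obtain ⟨n, hn, n0, q⟩ := ((L.toD h').cj g⁻¹).rf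
    (cj_cm' (g := g) (by simpa [mul_assoc] using c.symm)) fun q => ne (by rw [← q]; group)
  obtain ⟨u, hu⟩ := rf_conj (rf_iff.2 ⟨n, hn, n0, rfl⟩)
  have t1 : l (vec 49) * l (vec 48) * F.ι al * (l (vec 49) * l (vec 48))⁻¹ = F.ι (wv 17) := by
    rw [← L.l16, ← L.lw 17 (by omega), ← show tc 49 (tc 48 16) = 17 by decide +kernel,
      ← ta_vec (by omega) (by decide +kernel), ← ta_vec (by omega) (by omega), ← L.hT, ← L.hT]
    group
  have t2 : l (vec 49) * l (vec 48) * F.ι s1 * (l (vec 49) * l (vec 48))⁻¹ = F.ι (wv 1) := by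
    rw [← wv1, ← L.lw 1 (by omega)]
    nth_rewrite 2 [← show tc 49 (tc 48 1) = 1 by decide +kernel]
    rw [← ta_vec (by omega) (by decide +kernel), ← ta_vec (by omega) (by omega), ← L.hT, ← L.hT]
    group
  have hs := mul_mem (L.mem (vec 49)) (L.mem (vec 48))
  generalize l (vec 49) * l (vec 48) = s at t1 t2 hs
  have hm : s * (g * F.ι u)⁻¹ ∈ G0 l := mul_mem hs (inv_mem (mul_mem hg (L.memH u)))
  have e1 : s * (g * F.ι u)⁻¹ * (g * F.ι al * g⁻¹ * e') * (s * (g * F.ι u)⁻¹)⁻¹ = F.ι w1 := by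
    have a : (F.ι u)⁻¹ * F.ι al * F.ι u = F.ι al := by
      rw [mul_assoc, ← ((al_comm u).map F.ι).eq, inv_mul_cancel_left]
    have b : (F.ι u)⁻¹ * (g⁻¹ * e' * g⁻¹⁻¹) * F.ι u = F.ι s1 := by
      rw [q, ← hu, map_mul, map_mul, map_inv]; group
    rw [w1_f.2.1, map_mul, ← t1, ← t2, ← b]
    nth_rewrite 2 [← a]; group
  obtain ⟨w, hw⟩ := F.cen _ (L.L5 (e1 ▸ cj_cm (s * (g * F.ι u)⁻¹) ck))
  generalize s * (g * F.ι u)⁻¹ = m at hm hw
  have := mul_mem (mul_mem (inv_mem hm) (hw ▸ L.memH w)) hm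
  simpa [mul_assoc] using this

theorem L7 [Finite G] {d : G} (hd : F.D d) : D0 l d := by
  by_contra n
  have w2 : F.ι w1 * F.ι w1 = 1 := by rw [← map_mul, w1_f.1, map_one]
  rcases dih hd.sq w2 ⊤ trivial trivial with ⟨k, -, e⟩ | ⟨y, y2, y1, dy, wy, -⟩
  · exact ((F.cl w1).1 (e ▸ hd.cj k)).elim w1_f.2.2.1 w1_f.2.2.2
  obtain ⟨z0, rfl⟩ := F.cen y (L.L5 wy.symm)
  obtain ⟨a, -, c, -, p1, ⟨e, he, be⟩, p2, p3, p4⟩ := invA z0
    (F.inj (by rw [map_mul, y2, map_one])) fun k => y1 (by rw [k, map_one])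
  have dz := cj_cm (F.ι (wv c * wv a)) dy
  rw [← map_inv F.ι, ← map_mul, ← map_mul, map_inv] at dz
  have n' : ¬ D0 l (F.ι (wv c * wv a) * d * (F.ι (wv c * wv a))⁻¹) := fun k => n (by
    simpa [mul_assoc] using L.cj0 k (inv_mem (L.memH (wv c * wv a))))
  have hd' := hd.cj (F.ι (wv c * wv a))
  generalize wv c * wv a * z0 * (wv c * wv a)⁻¹ = z at p1 be p2 p3 p4 dz
  generalize F.ι (wv c * wv a) * d * (F.ι (wv c * wv a))⁻¹ = d' at dz n' hd'
  have mK : ∀ {g : G}, g ∈ Subgroup.centralizer {F.ι z} ↔ Commute g (F.ι z) :=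
    Subgroup.mem_centralizer_singleton_iff
  have all : ∀ m < 32, m ≠ 0 → Commute z (wv m) →
      ∃ k, Commute k (F.ι z) ∧ k * d' * k⁻¹ = F.ι (wv m) := fun m hm m0 cz => by
    rcases L.L4 hd' (L.wv0 hm m0) _ (mK.2 dz) (mK.2 (cz.symm.map F.ι)) with
      ⟨g, hg, h⟩ | ⟨e', h0, ne, ce, cd, -⟩
    · exact ⟨g, mK.1 hg, h⟩
    · exact absurd (L.LC' (L.wv0 hm m0) h0 ce ne (L.L6 (L.wv0 hm m0) h0 ce ne cd) cd hd') n'
  obtain ⟨e1, e2, -, -, e3⟩ := six_f e (List.mem_cons_of_mem _ he)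
  obtain ⟨k1, c1, q1⟩ := all e e1 e2 (p1 e he)
  obtain ⟨k2, c2, q2⟩ := all 16 (by omega) (by omega) (wv16 ▸ al_comm z)
  have ck : Commute (k2 * k1⁻¹) (F.ι z) := c2.mul_left c1.inv_left
  have ke : k2 * k1⁻¹ * F.ι (wv e) * (k2 * k1⁻¹)⁻¹ = F.ι al := by rw [← wv16, ← q1, ← q2]; group
  generalize k2 * k1⁻¹ = k at ck ke
  have par : ∀ (k : G) (T : List ℕ), (∀ x ∈ T, ∃ w, Rf w ∧ k * F.ι (wv x) * k⁻¹ = F.ι w) →
      ∃ w, k * F.ι (T.map wv).prod * k⁻¹ = F.ι w ∧ sg w = (-1) ^ T.length := fun k T hT => by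
    induction T with
    | nil => exact ⟨1, by simp, by simp⟩
    | cons x T ih =>
      obtain ⟨w, a, b⟩ := ih fun y hy => hT y (List.mem_cons_of_mem _ hy)
      obtain ⟨v, a', b'⟩ := hT x (by simp)
      exact ⟨v * w, by rw [List.map_cons, List.prod_cons, map_mul, map_mul, ← a, ← b', conj_mul],
        by rw [map_mul, b, sg_rf a', List.length_cons, pow_succ']⟩
  obtain ⟨u1, a1, b1⟩ := par 1 (six.filter (bt z)) fun x hx => by
    have hx := (List.mem_filter.1 hx).1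
    obtain ⟨x1, -, -, x2, -⟩ := six_f x (List.mem_cons_of_mem _ hx)
    exact ⟨_, rf_iff.2 ⟨x, x1, x2 hx, rfl⟩, by simp⟩
  obtain ⟨u2, a2, b2⟩ := par k (16 :: six.filter fun x => !bt z x) fun x hx => by
    have hx' : x ∈ 16 :: six := by
      rcases List.mem_cons.1 hx with rfl | hx
      · simp
      · exact List.mem_cons_of_mem _ (List.mem_filter.1 hx).1
    have xe : x ≠ e := by
      rintro rfl
      rcases List.mem_cons.1 hx with rfl | hx
      · exact absurd he (by decide)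
      · simpa [be] using (List.mem_filter.1 hx).2
    obtain ⟨x1, x2, -⟩ := six_f x hx'
    obtain ⟨m, m1, m2, m3⟩ := ((Fr.D_wv (F := F) x1 x2).cj k).rf
      (ke ▸ cj_cm k ((e3 x hx').symm.map F.ι)) fun q => xe (wv_inj _ x1 _ e1 (F.inj (by
        simpa using q.trans ke.symm)))
    exact ⟨_, rf_iff.2 ⟨m, m1, m2, rfl⟩, m3⟩
  rw [← p2, one_mul, inv_one, mul_one] at a1
  rw [← p3, ck.eq, mul_inv_cancel_right] at a2
  rw [← F.inj a1] at b1
  rw [← F.inj a2, b1, List.length_cons] at b2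
  generalize (six.filter (bt z)).length = i at p4 b2
  generalize (six.filter fun x => !bt z x).length = j at p4 b2
  rcases Nat.even_or_odd i with s | s
  · rw [s.neg_one_pow, Odd.neg_one_pow (n := j + 1) (by grind)] at b2
    exact absurd b2 (by decide)
  · rw [s.neg_one_pow, Even.neg_one_pow (n := j + 1) (by grind)] at b2
    exact absurd b2 (by decide)

end Lab

end Cfsg.Agent.YK.Sp

namespace Cfsg.Agent.YK

open Sp in
theorem spThm {G : Type*} [Group G] [Finite G] (S : St G) (h : SpH S) :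
    Nonempty (G ≃* PSp 3 (ZMod 2)) := by
  obtain ⟨F, l, L⟩ := Fr.lab (G := G) ⟨S.ι, S.inj, S.cen, fun w => ⟨h.cl w, by
    rintro (rfl | e)
    · exact IsConj.refl _
    · obtain ⟨g, rfl⟩ := rf_conj e
      rw [map_mul, map_mul, map_inv]
      exact h.fu.trans (ic _ _)⟩⟩
  have top : G0 l = ⊤ := eq_top_iff.2 fun g _ =>
    L.L3 (wv16 ▸ L.wv0 (n := 16) (by omega) (by omega)) (L.L7 (wv16 ▸ ic g _))
  obtain ⟨Φ, -⟩ := L.iso
  obtain ⟨e⟩ := sp_psp
  exact ⟨(Subgroup.topEquiv.symm.trans (MulEquiv.subgroupCongr top.symm)).trans (Φ.trans e)⟩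

end Cfsg.Agent.YK
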