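import Cfsg.Agent.YK.W
import Cfsg.Prelude.Def_IsolatedElements
import Cfsg.Prelude.Def_Classical

/-! The setting of Yamaki's theorem and the interfaces between the parts of the proof. -/

set_option autoImplicit false

namespace Cfsg.Agent.YK

def w1 : W := f 0 1
def w2 : W := f 2 3
def w3 : W := f 4 5
def s1 : W := r 0 1
def s2 : W := r 2 3
def s3 : W := r 4 5
def ga : W := f 2 3 * f 4 5
def t1 : W := f 0 3

/-- the four-group on the first four points -/
def V1 (w : W) : Prop := w = 1 ∨ w = w1 ∨ w = s1 ∨ w = s1 * w1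
instance : DecidablePred V1 := fun _ => by unfold V1; infer_instance

/-- the copy of W(D4) fixing the first four points -/
def Q4 (w : W) : Prop := ap w.1 0 = 0 ∧ ap w.1 2 = 2
instance : DecidablePred Q4 := fun _ => by unfold Q4; infer_instance

/-- reflections -/
def Rf (w : W) : Prop := ∃ i j : Fin 6, i < j ∧ (w = r i j ∨ w = p i j)
instance : DecidablePred Rf := fun _ => by unfold Rf; infer_instance

/-- the elementary abelian subgroup of order 64 -/
def A0 : Subgroup W := Subgroup.centralizer {w1, s1, w2, s2, w3, s3}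

theorem mem_A0 {w : W} : w ∈ A0 ↔ Commute w w1 ∧ Commute w s1 ∧ Commute w w2 ∧ Commute w s2 ∧
    Commute w w3 ∧ Commute w s3 := by
  simp only [A0, Subgroup.mem_centralizer_iff, Set.mem_insert_iff, Set.mem_singleton_iff,
    forall_eq_or_imp, forall_eq, commute_iff_eq, eq_comm]

instance (w : W) : Decidable (w ∈ A0) := decidable_of_iff _ mem_A0.symm

/-- its elements -/
def av (n : ℕ) : W := (if n % 2 = 1 then w1 else 1) * (if n / 2 % 2 = 1 then s1 else 1) *
  (if n / 4 % 2 = 1 then w2 else 1) * (if n / 8 % 2 = 1 then s2 else 1) *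
  (if n / 16 % 2 = 1 then w3 else 1) * (if n / 32 % 2 = 1 then s3 else 1)

structure St (G : Type*) [Group G] where
  ι : W →* G
  inj : Function.Injective ι
  cen : ∀ g, Commute g (ι al) → ∃ w, ι w = g
  odd : Odd ι.range.index

variable {G : Type*} [Group G]

/-- the symplectic case -/
structure SpH (S : St G) : Prop where
  cl : ∀ w, IsConj (S.ι al) (S.ι w) → w = al ∨ Rf w
  fu : IsConj (S.ι al) (S.ι s1)

/-- the alternating case -/
structure AnH (S : St G) (x : G) : Prop where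
  ty : ∀ a b : W, a * a = 1 → b * b = 1 → IsConj (S.ι a) (S.ι b) → mv a = mv b
  x3 : x ^ 3 = 1
  xw : x * S.ι w1 * x⁻¹ = S.ι s1
  xs : x * S.ι s1 * x⁻¹ = S.ι (s1 * w1)
  xq : ∀ q, Q4 q → Commute x (S.ι q)
  xt : S.ι t1 * x * S.ι t1 = x⁻¹

/-- the structure of the centralizer of `ga` in the alternating case -/
structure YS (S : St G) (x : G) (Y : Subgroup G) : Prop extends AnH S x where
  xY : x ∈ Y
  wY : S.ι w1 ∈ Y
  cq : ∀ y ∈ Y, ∀ q, Q4 q → Commute y (S.ι q)
  nrm : ∀ g, Commute g (S.ι ga) → ∀ y ∈ Y, g * y * g⁻¹ ∈ Y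
  dec : ∀ g, Commute g (S.ι ga) → ∃ y ∈ Y, ∃ w, (Q4 w ∨ Q4 (t1 * w)) ∧ g = y * S.ι w
  YH : ∀ w, S.ι w ∈ Y → V1 w
  alt : Y = Subgroup.closure {x, S.ι w1} ∨ Nonempty (Y ≃* alternatingGroup (Fin 5))

end Cfsg.Agent.YK
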