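import Mathlib

/-! A coded model of the Weyl group of type D6 acting on twelve points. -/

set_option autoImplicit false

namespace Cfsg.Agent.YK
open Equiv

abbrev P12 : Type := Perm (Fin 12)

def al0 : P12 := swap (0 : Fin 12) 1 * swap (2 : Fin 12) 3 * swap (4 : Fin 12) 5 *
  swap (6 : Fin 12) 7 * swap (8 : Fin 12) 9 * swap (10 : Fin 12) 11

def H0 : Subgroup P12 := alternatingGroup (Fin 12) ⊓ Subgroup.centralizer {al0}

def frc {α : Type} (n : ℕ) (f : ℕ → α) : α := Nat.rec (f 0) (fun m _ => f (Nat.succ m)) n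

theorem frc_eq {α : Type} (n : ℕ) (f : ℕ → α) : frc n f = f n := by cases n <;> rfl

def ap (c i : ℕ) : ℕ := Nat.land (Nat.shiftRight c (Nat.mul 4 i)) 15

theorem ap_def (c i : ℕ) : ap c i = (c >>> (4 * i)) % 16 :=
  Nat.and_two_pow_sub_one_eq_mod _ 4

@[irreducible] def bld (f : ℕ → ℕ) : ℕ := f 0 + 16 * (f 1 + 16 * (f 2 + 16 * (f 3 + 16 * (f 4 + 16 * (f 5 +
  16 * (f 6 + 16 * (f 7 + 16 * (f 8 + 16 * (f 9 + 16 * (f 10 + 16 * f 11))))))))))

theorem bld_def (f : ℕ → ℕ) : bld f = f 0 + 16 * (f 1 + 16 * (f 2 + 16 * (f 3 + 16 * (f 4 +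
    16 * (f 5 + 16 * (f 6 + 16 * (f 7 + 16 * (f 8 + 16 * (f 9 + 16 * (f 10 +
    16 * f 11)))))))))) := by unfold bld; exact Eq.refl _

def bl (f : ℕ → ℕ) (i : ℕ) : ℕ → ℕ
  | 0 => 0
  | n + 1 => f i + 16 * bl f (i + 1) n

theorem bld_eq (f : ℕ → ℕ) : bld f = bl f 0 12 := by
  have h : ∀ i n j m, i + 1 = j → n + 1 = m → bl f i m = f i + 16 * bl f j n := by
    rintro i n _ _ rfl rfl; rw [bl]
  rw [h 0 11 1 12 rfl rfl, h 1 10 2 11 rfl rfl, h 2 9 3 10 rfl rfl, h 3 8 4 9 rfl rfl,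
    h 4 7 5 8 rfl rfl, h 5 6 6 7 rfl rfl, h 6 5 7 6 rfl rfl, h 7 4 8 5 rfl rfl,
    h 8 3 9 4 rfl rfl, h 9 2 10 3 rfl rfl, h 10 1 11 2 rfl rfl, h 11 0 12 1 rfl rfl, bl,
    mul_zero, add_zero, bld_def]

theorem ap_bl {f : ℕ → ℕ} (h : ∀ i < 12, f i < 16) {n : ℕ} : ∀ {i j : ℕ}, i + n ≤ 12 → j < n →
    ap (bl f i n) j = f (i + j) := by
  induction n with
  | zero => intro i j _ hj; omega
  | succ n ih =>
    intro i j hi hj
    have := h i (by omega)
    cases j with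
    | zero => simp only [ap_def, bl, mul_zero, Nat.shiftRight_zero, add_zero]; omega
    | succ j =>
      rw [show i + (j + 1) = i + 1 + j by omega, ← ih (by omega) (by omega)]
      simp only [ap_def, bl, Nat.shiftRight_eq_div_pow]
      rw [mul_add, pow_add, mul_comm (2 ^ _), ← Nat.div_div_eq_div_mul]
      congr 2
      omega

theorem ap_bld {f : ℕ → ℕ} (h : ∀ i < 12, f i < 16) {i : ℕ} (hi : i < 12) :
    ap (bld f) i = f i := by rw [bld_eq, ap_bl h (by omega) hi, zero_add]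

def ev (g : P12) (i : ℕ) : ℕ := if h : i < 12 then (g ⟨i, h⟩).val else 0

theorem ev_lt (g : P12) (i : ℕ) : ev g i < 12 := by
  unfold ev; split
  · exact Fin.isLt _
  · omega

theorem ev_fin (g : P12) (i : Fin 12) : ev g i = g i := by simp [ev]

def cd (g : P12) : ℕ := bld (ev g)

theorem ap_cd (g : P12) {i : ℕ} (hi : i < 12) : ap (cd g) i = ev g i := by
  rw [cd, ap_bld (fun j _ => (ev_lt g j).trans (by omega)) hi]

theorem bld_congr {f g : ℕ → ℕ} (h : ∀ i < 12, f i = g i) : bld f = bld g := by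
  rw [bld_def, bld_def, h 0 (by omega), h 1 (by omega), h 2 (by omega), h 3 (by omega), h 4 (by omega),
    h 5 (by omega), h 6 (by omega), h 7 (by omega), h 8 (by omega), h 9 (by omega),
    h 10 (by omega), h 11 (by omega)]

theorem cd_inj : Function.Injective cd := fun g h e => Equiv.ext fun i => Fin.ext (by
  rw [← ev_fin, ← ev_fin, ← ap_cd g i.2, ← ap_cd h i.2, e])

@[irreducible] def mulR (c d : ℕ) : ℕ :=
  (Nat.add (Nat.land (Nat.shiftRight c (Nat.mul 4 (Nat.land (Nat.shiftRight d 0) 15))) 15)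
  (Nat.mul 16 (Nat.add (Nat.land (Nat.shiftRight c (Nat.mul 4 (Nat.land (Nat.shiftRight d 4) 15))) 15)
  (Nat.mul 16 (Nat.add (Nat.land (Nat.shiftRight c (Nat.mul 4 (Nat.land (Nat.shiftRight d 8) 15))) 15)
  (Nat.mul 16 (Nat.add (Nat.land (Nat.shiftRight c (Nat.mul 4 (Nat.land (Nat.shiftRight d 12) 15))) 15)
  (Nat.mul 16 (Nat.add (Nat.land (Nat.shiftRight c (Nat.mul 4 (Nat.land (Nat.shiftRight d 16) 15))) 15)
  (Nat.mul 16 (Nat.add (Nat.land (Nat.shiftRight c (Nat.mul 4 (Nat.land (Nat.shiftRight d 20) 15))) 15)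
  (Nat.mul 16 (Nat.add (Nat.land (Nat.shiftRight c (Nat.mul 4 (Nat.land (Nat.shiftRight d 24) 15))) 15)
  (Nat.mul 16 (Nat.add (Nat.land (Nat.shiftRight c (Nat.mul 4 (Nat.land (Nat.shiftRight d 28) 15))) 15)
  (Nat.mul 16 (Nat.add (Nat.land (Nat.shiftRight c (Nat.mul 4 (Nat.land (Nat.shiftRight d 32) 15))) 15)
  (Nat.mul 16 (Nat.add (Nat.land (Nat.shiftRight c (Nat.mul 4 (Nat.land (Nat.shiftRight d 36) 15))) 15)
  (Nat.mul 16 (Nat.add (Nat.land (Nat.shiftRight c (Nat.mul 4 (Nat.land (Nat.shiftRight d 40) 15))) 15)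
  (Nat.mul 16 (Nat.land (Nat.shiftRight c (Nat.mul 4 (Nat.land (Nat.shiftRight d 44) 15))) 15)))))))))))))))))))))))

theorem mulR_eq (c d : ℕ) : mulR c d = bld fun i => ap c (ap d i) := by
  rw [bld_def]; unfold mulR; exact Eq.refl _

def mulC (c d : ℕ) : ℕ := frc c fun c => frc d fun d => mulR c d

theorem ev_mul (g h : P12) {i : ℕ} (hi : i < 12) : ev (g * h) i = ev g (ev h i) := by
  simp [ev, hi]

theorem cd_mul (g h : P12) : cd (g * h) = mulC (cd g) (cd h) := by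
  simp only [mulC, frc_eq, mulR_eq]
  exact bld_congr fun i hi => by rw [ap_cd h hi, ap_cd g (ev_lt _ _), ev_mul _ _ hi]

@[irreducible] def invR (c : ℕ) : ℕ :=
  (Nat.add (Nat.add (Nat.add (Nat.add (Nat.add (Nat.add (Nat.add (Nat.add (Nat.add (Nat.add (Nat.shiftLeft 1 (Nat.mul 4 (Nat.land (Nat.shiftRight c 4) 15)))
  (Nat.shiftLeft 2 (Nat.mul 4 (Nat.land (Nat.shiftRight c 8) 15))))
  (Nat.shiftLeft 3 (Nat.mul 4 (Nat.land (Nat.shiftRight c 12) 15))))
  (Nat.shiftLeft 4 (Nat.mul 4 (Nat.land (Nat.shiftRight c 16) 15))))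
  (Nat.shiftLeft 5 (Nat.mul 4 (Nat.land (Nat.shiftRight c 20) 15))))
  (Nat.shiftLeft 6 (Nat.mul 4 (Nat.land (Nat.shiftRight c 24) 15))))
  (Nat.shiftLeft 7 (Nat.mul 4 (Nat.land (Nat.shiftRight c 28) 15))))
  (Nat.shiftLeft 8 (Nat.mul 4 (Nat.land (Nat.shiftRight c 32) 15))))
  (Nat.shiftLeft 9 (Nat.mul 4 (Nat.land (Nat.shiftRight c 36) 15))))
  (Nat.shiftLeft 10 (Nat.mul 4 (Nat.land (Nat.shiftRight c 40) 15))))
  (Nat.shiftLeft 11 (Nat.mul 4 (Nat.land (Nat.shiftRight c 44) 15))))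

theorem invR_eq (c : ℕ) : invR c = 1 <<< (4 * ap c 1) + 2 <<< (4 * ap c 2) +
    3 <<< (4 * ap c 3) + 4 <<< (4 * ap c 4) + 5 <<< (4 * ap c 5) + 6 <<< (4 * ap c 6) +
    7 <<< (4 * ap c 7) + 8 <<< (4 * ap c 8) + 9 <<< (4 * ap c 9) + 10 <<< (4 * ap c 10) +
    11 <<< (4 * ap c 11) := by unfold invR; exact Eq.refl _

def invC (c : ℕ) : ℕ := frc c invR

theorem sum12 (F : ℕ → ℕ) : ∑ i : Fin 12, F i = F 0 + F 1 + F 2 + F 3 + F 4 + F 5 + F 6 + F 7 +
    F 8 + F 9 + F 10 + F 11 := by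
  rw [Fin.sum_univ_eq_sum_range]
  simp only [Finset.sum_range_succ, Finset.sum_range_zero, zero_add]

theorem cd_sum (g : P12) : cd g = ∑ i : Fin 12, ev g i * 16 ^ i.val := by
  rw [sum12 fun i => ev g i * 16 ^ i, cd, bld_def]
  ring

theorem cd_inv (g : P12) : cd g⁻¹ = invC (cd g) := by
  rw [cd_sum, ← Equiv.sum_comp g]
  simp only [invC, frc_eq, invR_eq, Nat.shiftLeft_eq, pow_mul, ev_fin, Perm.coe_inv, symm_apply_apply]
  rw [ap_cd g (by omega : 1 < 12), ap_cd g (by omega : 2 < 12), ap_cd g (by omega : 3 < 12),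
    ap_cd g (by omega : 4 < 12), ap_cd g (by omega : 5 < 12), ap_cd g (by omega : 6 < 12),
    ap_cd g (by omega : 7 < 12), ap_cd g (by omega : 8 < 12), ap_cd g (by omega : 9 < 12),
    ap_cd g (by omega : 10 < 12), ap_cd g (by omega : 11 < 12)]
  simp only [← ev_fin]
  rw [sum12 fun i => i * 16 ^ ev g i]
  norm_num

def ok (c : ℕ) : Prop := ∃ g ∈ H0, cd g = c

/-- the model group -/
def W : Type := {c : ℕ // ok c}

instance : DecidableEq W := fun a b =>
  decidable_of_iff (Nat.beq a.1 b.1 = true) (by rw [Nat.beq_eq]; exact Subtype.ext_iff.symm)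

instance : Mul W := ⟨fun a b => ⟨mulC a.1 b.1, by
  obtain ⟨g, hg, e⟩ := a.2; obtain ⟨h, hh, e'⟩ := b.2
  exact ⟨g * h, mul_mem hg hh, by rw [cd_mul, e, e']⟩⟩⟩
instance : One W := ⟨⟨205163983024656, 1, one_mem _, by decide +kernel⟩⟩
instance : Inv W := ⟨fun a => ⟨invC a.1, by
  obtain ⟨g, hg, e⟩ := a.2
  exact ⟨g⁻¹, inv_mem hg, by rw [cd_inv, e]⟩⟩⟩

noncomputable def pm (a : W) : P12 := a.2.choose
theorem pm_mem (a : W) : pm a ∈ H0 := a.2.choose_spec.1
theorem cd_pm (a : W) : cd (pm a) = a.1 := a.2.choose_spec.2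
theorem pm_inj : Function.Injective pm := fun a b e =>
  Subtype.ext (by rw [← cd_pm, ← cd_pm, e])
theorem pm_mul (a b : W) : pm (a * b) = pm a * pm b :=
  cd_inj (by rw [cd_mul, cd_pm, cd_pm, cd_pm]; rfl)
theorem pm_one : pm 1 = 1 := cd_inj (by rw [cd_pm]; decide +kernel)
theorem pm_inv (a : W) : pm a⁻¹ = (pm a)⁻¹ := cd_inj (by rw [cd_inv, cd_pm, cd_pm]; rfl)

instance : Group W := Group.ofLeftAxioms
  (fun a b c => pm_inj (by simp only [pm_mul, mul_assoc]))
  (fun a => pm_inj (by rw [pm_mul, pm_one, one_mul]))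
  (fun a => pm_inj (by rw [pm_mul, pm_inv, pm_one, inv_mul_cancel]))

instance : Finite W := Finite.of_injective pm pm_inj

/-- the model is the centralizer in the alternating group -/
noncomputable def eW : W ≃* H0 := MulEquiv.ofBijective
  (MonoidHom.mk' (fun a => (⟨pm a, pm_mem a⟩ : H0)) fun a b => Subtype.ext (pm_mul a b))
  ⟨fun _ _ e => pm_inj (congrArg Subtype.val e), fun g =>
    ⟨⟨cd g.1, g.1, g.2, rfl⟩, Subtype.ext (cd_inj (cd_pm _))⟩⟩

theorem ap_pm (a : W) {i : ℕ} (hi : i < 12) : ap a.1 i = ev (pm a) i := by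
  rw [← cd_pm, ap_cd _ hi]

theorem ap_lt (a : W) {i : ℕ} (hi : i < 12) : ap a.1 i < 12 := ap_pm a hi ▸ ev_lt _ _

theorem ap_mul (a b : W) {i : ℕ} (hi : i < 12) : ap (a * b).1 i = ap a.1 (ap b.1 i) := by
  rw [ap_pm _ hi, pm_mul, ev_mul _ _ hi, ap_pm b hi, ap_pm a (ev_lt _ _)]

theorem W_ext {a b : W} (h : ∀ i < 12, ap a.1 i = ap b.1 i) : a = b :=
  pm_inj (Equiv.ext fun i => Fin.ext (by
    rw [← ev_fin, ← ev_fin, ← ap_pm a i.2, ← ap_pm b i.2, h _ i.2]))

theorem ap_one {i : ℕ} (hi : i < 12) : ap (1 : W).1 i = i := by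
  rw [ap_pm _ hi, pm_one]; simp [ev, hi]

theorem ap_inj (a : W) {i j : ℕ} (hi : i < 12) (hj : j < 12) (h : ap a.1 i = ap a.1 j) :
    i = j := by rw [← ap_one hi, ← ap_one hj, ← inv_mul_cancel a, ap_mul _ _ hi, ap_mul _ _ hj, h]

def allLt (n : ℕ) (p : ℕ → Bool) : Bool := Nat.rec true (fun i acc => cond (p i) acc false) n

theorem allLt_iff {n : ℕ} {p : ℕ → Bool} : allLt n p = true ↔ ∀ i < n, p i = true := by
  induction n with
  | zero => simp [allLt]
  | succ n ih =>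
    have : allLt (n + 1) p = (p n && allLt n p) := by
      show cond _ _ _ = _
      cases p n <;> rfl
    rw [this, Bool.and_eq_true, ih, Nat.forall_lt_succ_right, and_comm]

def cmB (a b : ℕ) : Bool := frc a fun a => frc b fun b =>
  allLt 12 fun i => Nat.beq (ap a (ap b i)) (ap b (ap a i))

instance (a b : W) : Decidable (Commute a b) := decidable_of_iff (cmB a.1 b.1 = true) (by
  simp only [cmB, frc_eq, allLt_iff, Nat.beq_eq]
  exact ⟨fun h => W_ext fun i hi => by rw [ap_mul _ _ hi, ap_mul _ _ hi, h i hi],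
    fun h i hi => by rw [← ap_mul _ _ hi, ← ap_mul _ _ hi, h.eq]⟩)

/-! ### generators -/

def swC (i j : ℕ) : ℕ := bld fun p =>
  if p / 2 = i then 2 * j + p % 2 else if p / 2 = j then 2 * i + p % 2 else p

def flC (i j : ℕ) : ℕ := bld fun p =>
  if i = j then p else if p / 2 = i ∨ p / 2 = j then p ^^^ 1 else p

def pa (i : Fin 6) : Fin 12 := ⟨2 * i, by omega⟩
def pb (i : Fin 6) : Fin 12 := ⟨2 * i + 1, by omega⟩

theorem sw_ok (i j : Fin 6) : ok (swC i j) :=
  ⟨swap (pa i) (pa j) * swap (pb i) (pb j), ⟨by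
    show _ ∈ alternatingGroup _
    rw [Perm.mem_alternatingGroup, Perm.sign_mul]
    by_cases e : i = j
    · subst e; simp
    · rw [Perm.sign_swap (fun h => e (by simp [pa, Fin.ext_iff] at h ⊢; omega)),
        Perm.sign_swap (fun h => e (by simp [pb, Fin.ext_iff] at h ⊢; omega))]
      simp, by
    show _ ∈ Subgroup.centralizer _
    rw [Subgroup.mem_centralizer_singleton_iff]
    revert i j; decide +kernel⟩, by revert i j; decide +kernel⟩

theorem fl_ok (i j : Fin 6) : ok (flC i j) :=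
  ⟨swap (pa i) (pb i) * swap (pa j) (pb j), ⟨by
    show _ ∈ alternatingGroup _
    rw [Perm.mem_alternatingGroup, Perm.sign_mul,
      Perm.sign_swap (fun h => by simp [pa, pb, Fin.ext_iff] at h),
      Perm.sign_swap (fun h => by simp [pa, pb, Fin.ext_iff] at h)]
    simp, by
    show _ ∈ Subgroup.centralizer _
    rw [Subgroup.mem_centralizer_singleton_iff]
    revert i j; decide +kernel⟩, by revert i j; decide +kernel⟩

/-- the reflection in `e i - e j` -/
def r (i j : Fin 6) : W := ⟨swC i j, sw_ok i j⟩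
/-- the sign change at `i` and `j` -/
def f (i j : Fin 6) : W := ⟨flC i j, fl_ok i j⟩
/-- the reflection in `e i + e j` -/
def p (i j : Fin 6) : W := r i j * f i j
/-- the central involution -/
def al : W := f 0 1 * f 2 3 * f 4 5

theorem pm_al : pm al = al0 := cd_inj (by rw [cd_pm]; decide +kernel)

theorem al_comm (a : W) : Commute a al := pm_inj (by
  rw [pm_mul, pm_mul, pm_al]
  exact Subgroup.mem_centralizer_singleton_iff.1 (pm_mem a).2)

/-- transversals of the stabilizer chain -/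
def tr (k j : ℕ) : W :=
  if j % 2 = 0 then r (Fin.ofNat 6 k) (Fin.ofNat 6 (k + j / 2)) else
    f (Fin.ofNat 6 (k + j / 2)) (if k + j / 2 = 5 then 4 else 5) *
      r (Fin.ofNat 6 k) (Fin.ofNat 6 (k + j / 2))

theorem tr_spec : ∀ k < 5, ∀ j < 12 - 2 * k, ap (tr k j).1 (2 * k) = 2 * k + j ∧
    ∀ q < 2 * k, ap (tr k j).1 q = q := by decide +kernel

theorem ap_al : ∀ k < 6, ap al.1 (2 * k) = 2 * k + 1 := by decide +kernel

theorem tr_step {k : ℕ} (hk : k < 5) {w : W} (h : ∀ q < 2 * k, ap w.1 q = q) :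
    ∃ j < 12 - 2 * k, ∀ q < 2 * (k + 1), ap ((tr k j)⁻¹ * w).1 q = q := by
  have l := ap_lt w (by omega : 2 * k < 12)
  have g : 2 * k ≤ ap w.1 (2 * k) := by
    by_contra c
    have := ap_inj w l (by omega : 2 * k < 12) (h _ (by omega))
    omega
  refine ⟨ap w.1 (2 * k) - 2 * k, by omega, ?_⟩
  obtain ⟨s1, s2⟩ := tr_spec k hk (ap w.1 (2 * k) - 2 * k) (by omega)
  generalize tr k _ = t at s1 s2
  have key : ∀ q < 12, ap w.1 q = ap t.1 q → ap (t⁻¹ * w).1 q = q := fun q hq e => by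
    rw [ap_mul _ _ hq, e, ← ap_mul _ _ hq, inv_mul_cancel, ap_one hq]
  have e0 := key (2 * k) (by omega) (by omega)
  intro q hq
  rcases (by omega : q < 2 * k ∨ q = 2 * k ∨ q = 2 * k + 1) with e | rfl | rfl
  · exact key q (by omega) (by rw [h q e, s2 q e])
  · exact e0
  · rw [← ap_al k (by omega), ← ap_mul _ _ (by omega), (al_comm _).eq, ap_mul _ _ (by omega), e0]

theorem fix_ten {w : W} (h : ∀ q < 10, ap w.1 q = q) : w = 1 := by
  have s : Perm.sign (pm w) = 1 := Perm.mem_alternatingGroup.1 (pm_mem w).1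
  have l := ap_lt w (by omega : 10 < 12)
  have l' := ap_lt w (by omega : 11 < 12)
  have g : 10 ≤ ap w.1 10 := by
    by_contra c
    have := ap_inj w l (by omega : 10 < 12) (h _ (by omega))
    omega
  have g' : 10 ≤ ap w.1 11 := by
    by_contra c
    have := ap_inj w l' (by omega : 11 < 12) (h _ (by omega))
    omega
  have n : ap w.1 10 ≠ ap w.1 11 := fun e => by
    have := ap_inj w (by omega) (by omega) e
    omega
  by_cases e : ap w.1 10 = 10
  · refine W_ext fun i hi => ?_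
    rw [ap_one hi]
    rcases (by omega : i < 10 ∨ i = 10 ∨ i = 11) with c | rfl | rfl
    · exact h i c
    · exact e
    · omega
  · exfalso
    have : pm w = swap 10 11 := Equiv.ext fun i => Fin.ext (by
      rw [← ev_fin, ← ap_pm _ i.2]
      rcases (by omega : i.1 < 10 ∨ i = 10 ∨ i = 11) with c | rfl | rfl
      · rw [h _ c, swap_apply_of_ne_of_ne (by omega) (by omega)]
      · simp; omega
      · simp; omega)
    rw [this, Perm.sign_swap (by decide)] at s
    exact absurd s (by decide)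

theorem cover (w : W) : ∃ a < 12, ∃ b < 10, ∃ c < 8, ∃ d < 6, ∃ e < 4,
    w = tr 0 a * tr 1 b * tr 2 c * tr 3 d * tr 4 e := by
  obtain ⟨a, ha, h1⟩ := tr_step (k := 0) (w := w) (by omega) (by omega)
  obtain ⟨b, hb, h2⟩ := tr_step (k := 1) (by omega) h1
  obtain ⟨c, hc, h3⟩ := tr_step (k := 2) (by omega) h2
  obtain ⟨d, hd, h4⟩ := tr_step (k := 3) (by omega) h3
  obtain ⟨e, he, h5⟩ := tr_step (k := 4) (by omega) h4
  refine ⟨a, ha, b, hb, c, hc, d, hd, e, he, ?_⟩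
  have := fix_ten h5
  simp only [inv_mul_eq_iff_eq_mul, mul_one] at this
  simp only [this, mul_assoc]

def frW (w : W) (g : W → Bool) : Bool :=
  Nat.rec (motive := fun n => ok n → Bool) (fun h => g ⟨0, h⟩)
    (fun m _ h => g ⟨Nat.succ m, h⟩) w.1 w.2

theorem frW_eq (w : W) (g : W → Bool) : frW w g = g w := by
  obtain ⟨c, h⟩ := w
  cases c <;> rfl

def allW (P : W → Bool) : Bool :=
  allLt 12 fun a => frW (tr 0 a) fun x => allLt 10 fun b => frW (x * tr 1 b) fun x =>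
    allLt 8 fun c => frW (x * tr 2 c) fun x => allLt 6 fun d => frW (x * tr 3 d) fun x =>
      allLt 4 fun e => frW (x * tr 4 e) P

theorem allW_iff {P : W → Bool} : allW P = true ↔ ∀ w, P w = true := by
  simp only [allW, allLt_iff, frW_eq]
  refine ⟨fun h w => ?_, fun h _ _ _ _ _ _ _ _ _ _ => h _⟩
  obtain ⟨a, ha, b, hb, c, hc, d, hd, e, he, rfl⟩ := cover w
  exact h a ha b hb c hc d hd e he

/-- `∀ w : W, P w` is decided by running through the 23040 elements (`decide +kernel`) -/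
instance decW (P : W → Prop) [DecidablePred P] : Decidable (∀ w, P w) :=
  decidable_of_iff (allW (fun w => decide (P w)) = true) (by simp [allW_iff])

/-- number of moved points -/
def mv (w : W) : ℕ := frc w.1 fun c =>
  Nat.rec 0 (fun i acc => if ap c i = i then acc else acc + 1) 12

theorem center_W : ∀ w : W, Commute w (r 0 1) → Commute w (r 1 2) → Commute w (r 2 3) →
    Commute w (r 3 4) → Commute w (r 4 5) → w = 1 ∨ w = al := by decide +kernel

end Cfsg.Agent.YK
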