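import Cfsg.Agent.YK.F1

/-! Finite checks for the centralizer of `ga`. -/

set_option autoImplicit false

namespace Cfsg.Agent.YK
open Subgroup

def allC (C P : W → Bool) : Bool :=
  allLt 12 fun a => frW (tr 0 a) fun x => allLt 10 fun b => frW (x * tr 1 b) fun x =>
    !C x || allLt 8 fun c => frW (x * tr 2 c) fun x => allLt 6 fun d => frW (x * tr 3 d) fun x =>
      allLt 4 fun e => frW (x * tr 4 e) P

theorem allC_spec {C P : W → Prop} [DecidablePred C] [DecidablePred P]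
    (hc : ∀ x, ∀ k < 5, 2 ≤ k → ∀ j < 12 - 2 * k, C (x * tr k j) → C x)
    (h : allC (fun w => decide (C w)) (fun w => decide (P w)) = true) (w : W) (hw : C w) : P w := by
  simp only [allC, allLt_iff, frW_eq, Bool.or_eq_true, Bool.not_eq_true', decide_eq_false_iff_not,
    decide_eq_true_eq] at h
  obtain ⟨a, ha, b, hb, c, hc', d, hd, e, he, rfl⟩ := cover w
  exact (h a ha b hb).resolve_left (not_not.2 (hc _ 2 (by omega) le_rfl c hc'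
    (hc _ 3 (by omega) (by omega) d hd (hc _ 4 (by omega) (by omega) e he hw)))) c hc' d hd e he

theorem y_t : ∀ k < 5, 2 ≤ k → ∀ j < 12 - 2 * k, Commute (tr k j) ga := by decide +kernel

theorem y_c : ∀ w : W, Commute w ga → V1 (w * s1 * w⁻¹) ∧
    (w * w = 1 → mv w = 4 → mv (w * ga) = 12 → V1 w) ∧
    (∃ v ∈ [1, w1, s1, s1 * w1], Q4 (v * w) ∨ Q4 (t1 * (v * w))) ∧
    (V1 w ∨ ∃ y ∈ [w, w * s1, w * w2 * w⁻¹ * w2⁻¹, w * f 3 4 * w⁻¹ * (f 3 4)⁻¹],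
      y * y = 1 ∧ ¬ V1 y) ∧
    (V1 (r 2 3 * w * (r 2 3)⁻¹ * w⁻¹) → V1 (r 3 4 * w * (r 3 4)⁻¹ * w⁻¹) →
      V1 (r 4 5 * w * (r 4 5)⁻¹ * w⁻¹) → V1 (p 4 5 * w * (p 4 5)⁻¹ * w⁻¹) → V1 w ∨ V1 (w * ga)) :=
  allC_spec (fun x k h1 h2 j hj e => by simpa using e.mul_left (y_t k h1 h2 j hj).inv_left)
    (by decide +kernel)

theorem y_e : ∀ q : W, Q4 q → Commute q ga :=
  allC_spec (fun x k h1 h2 j hj e => by
    have := (tr_spec k h1 j hj).2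
    rwa [Q4, ap_mul _ _ (by omega), ap_mul _ _ (by omega), this 0 (by omega), this 2 (by omega)]
      at e) (by decide +kernel)

theorem y_d : w1 = al * ga ∧ al = w1 * ga ∧ Q4 ga ∧ w1 * w1 = 1 ∧ s1 * s1 = 1 ∧ w1 ≠ 1 ∧ s1 ≠ 1 ∧
    w1 * s1 = s1 * w1 ∧ s1 ≠ w1 ∧ ga * ga = 1 ∧ al * al = 1 ∧ mv w1 = 4 ∧ mv al = 12 ∧
    Commute w1 ga ∧ Commute s1 ga ∧ Commute w2 ga ∧ Commute (f 3 4) ga ∧ Commute t1 w1 ∧
    t1 * t1 = 1 ∧ (Q4 (r 2 3) ∧ Q4 (r 3 4) ∧ Q4 (r 4 5) ∧ Q4 (p 4 5)) ∧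
    r 0 4 * r 1 5 * w3 * (r 0 4 * r 1 5)⁻¹ = w1 ∧ ga = al * w1 := by decide +kernel

end Cfsg.Agent.YK
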