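import Cfsg.Agent.YK.C1
import Cfsg.Agent.YK.E2

/-! Identification of the alternating groups. -/

set_option autoImplicit false
set_option linter.unusedSectionVars false

namespace Cfsg.Agent.YK
open Subgroup

def Cd (v : W) : Prop := Q4 ((f 1 3)⁻¹ * v) ∨ ∃ m < 8, Q4 (tr 2 m) ∧ Q4 ((tr 2 m * r 1 2)⁻¹ * v)
instance : DecidablePred Cd := fun _ => by unfold Cd; infer_instance

theorem z_cd : ∀ i j : Fin 10, i ≠ j → Cd ((tr 1 i)⁻¹ * tr 1 j) := by decide +kernel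

set_option synthInstance.maxSize 2000 in
theorem z_e : ∀ e : W, Commute e ga → Q4 e ∨ Q4 (t1 * e) →
    V1 (f 1 3 * e * (f 1 3)⁻¹ * e⁻¹) → V1 (f 2 3 * e * (f 2 3)⁻¹ * e⁻¹) →
    V1 (f 3 4 * e * (f 3 4)⁻¹ * e⁻¹) → V1 (f 3 5 * e * (f 3 5)⁻¹ * e⁻¹) → e * e = 1 := by
  decide +kernel

theorem genW (P : Subgroup W) (a : ∀ j, r 0 j ∈ P) (b : ∀ j, f 0 j ∈ P) (w : W) : w ∈ P := by
  have k1 : ∀ i j : Fin 6, f i j = f 0 i * f 0 j ∧
    (r i j = 1 ∨ r i j = r 0 i ∨ r i j = r 0 i * r 0 j * r 0 i) := by decide +kernel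
  have hf : ∀ i j, f i j ∈ P := fun i j => (k1 i j).1 ▸ mul_mem (b i) (b j)
  have hr : ∀ i j, r i j ∈ P := fun i j => by
    rcases (k1 i j).2 with e | e | e <;> rw [e]
    exacts [one_mem _, a i, mul_mem (mul_mem (a i) (a j)) (a i)]
  have t : ∀ k j, tr k j ∈ P := fun k j => by
    unfold tr; split
    exacts [hr _ _, mul_mem (hf _ _) (hr _ _)]
  obtain ⟨_, -, _, -, _, -, _, -, _, -, rfl⟩ := cover w
  exact mul_mem (mul_mem (mul_mem (mul_mem (t _ _) (t _ _)) (t _ _)) (t _ _)) (t _ _)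

variable {G : Type*} [Group G] [Finite G] {S : St G} {x : G} {Y : Subgroup G}

def cx (S : St G) (x : G) (v : W) : G := S.ι v * x * (S.ι v)⁻¹

theorem cx_mul (u v : W) : cx S x (u * v) = S.ι u * cx S x v * (S.ι u)⁻¹ := by
  simp [cx, mul_assoc]

namespace YS
variable (h : YS S x Y)
include h

theorem cxq {u v : W} (q : Q4 (u⁻¹ * v)) : cx S x v = cx S x u := by
  rw [← mul_inv_cancel_left u v, cx_mul, cx, ← (h.xq _ q).eq, mul_inv_cancel_right, cx]

theorem cx13 : cx S x (f 1 3) = S.ι w1 * x⁻¹ * S.ι w1 := by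
  rw [show f 1 3 = w1 * t1 by decide +kernel, cx_mul, cx, ← map_inv, ← map_inv,
    show t1⁻¹ = t1 by decide +kernel, show w1⁻¹ = w1 by decide +kernel, h.xt]

theorem sw : x * cx S x (f 1 3) = S.ι (s1 * w1) := by
  rw [h.cx13, map_mul, ← h.xw]; simp [mul_assoc]

theorem rel (key : (x * (S.ι (r 1 2) * x * S.ι (r 1 2))) ^ 2 = 1) {v : W} (c : Cd v) :
    (x * cx S x v) ^ 2 = 1 := by
  rcases c with c | ⟨m, -, q, c⟩
  · rw [h.cxq c, h.sw, ← map_pow, show (s1 * w1) ^ 2 = 1 by decide +kernel, map_one]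
  · rw [h.cxq c, cx_mul, cx, ← map_inv, show (r 1 2)⁻¹ = r 1 2 by decide +kernel]
    conv_lhs => arg 1; arg 1; rw [← mul_inv_cancel_right x (S.ι (tr 2 m)), (h.xq _ q).eq]
    rw [conj_mul, conj_pow, key]; simp

theorem rel' (key : (x * (S.ι (r 1 2) * x * S.ι (r 1 2))) ^ 2 = 1) (i j : Fin 10) (n : i ≠ j) :
    (cx S x (tr 1 i) * cx S x (tr 1 j)) ^ 2 = 1 := by
  rw [← mul_inv_cancel_left (tr 1 i) (tr 1 j), cx_mul, cx, conj_mul, conj_pow,
    h.rel key (z_cd i j n)]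
  simp

theorem x0 : cx S x (tr 1 (0 : Fin 10)) = x := by
  rw [cx, show tr 1 (0 : Fin 10) = 1 by decide +kernel]; simp

theorem x1 : x ≠ 1 := fun e => by
  have := h.xw
  rw [e, one_mul, inv_one, mul_one] at this
  exact absurd (S.inj this) (by decide +kernel)

theorem allH {M : Subgroup G} (hM : ∀ i : Fin 10, cx S x (tr 1 i) ∈ M) (w : W) : S.ι w ∈ M := by
  have k : ∀ j : Fin 6, j = 0 ∧ r 0 j = 1 ∧ f 0 j = 1 ∨ (∃ i : Fin 10, Q4 ((tr 1 i)⁻¹ * r 1 j)) ∧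
    (∃ i : Fin 10, Q4 ((tr 1 i)⁻¹ * (r 1 j * f 1 3))) ∧ r 1 j * w1 * (r 1 j)⁻¹ = f 0 j ∧
    r 1 j * (s1 * w1) * (r 1 j)⁻¹ * f 0 j = r 0 j := by decide +kernel
  have : ∀ j, S.ι (r 0 j) ∈ M ∧ S.ι (f 0 j) ∈ M := fun j => by
    rcases k j with ⟨-, a, b⟩ | ⟨⟨i, a⟩, ⟨i', b⟩, c, d⟩
    · simp [a, b, one_mem]
    have a' : cx S x (r 1 j) ∈ M := h.cxq a ▸ hM i
    have b' : cx S x (r 1 j * f 1 3) ∈ M := h.cxq b ▸ hM i'
    have m1 : S.ι (r 1 j * (s1 * w1) * (r 1 j)⁻¹) ∈ M := by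
      have := mul_mem a' b'
      rwa [cx_mul, cx, conj_mul, h.sw, ← map_inv, ← map_mul, ← map_mul] at this
    have m2 : S.ι (f 0 j) ∈ M := by
      have := mul_mem (mul_mem a' m1) (inv_mem a')
      rw [← c, map_mul, map_mul, map_inv, ← h.xp]
      simpa [cx, mul_assoc] using this
    exact ⟨by rw [← d, map_mul]; exact mul_mem m1 m2, m2⟩
  exact genW (M.comap S.ι) (fun j => (this j).1) (fun j => (this j).2) w

theorem a13 (e : Y ≃* alternatingGroup (Fin 5)) : ∃ k : G, k ^ 3 = 1 ∧ (k * x) ^ 2 = 1 ∧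
    (∀ i : Fin 10, Commute k (S.ι (tr 1 i))) ∧
    ∀ M : Subgroup G, x ∈ M → S.ι w1 ∈ M → k ∈ M → Y ≤ M := by
  have w2' : S.ι w1 * S.ι w1 = 1 := by rw [← map_mul, show w1 * w1 = 1 by decide +kernel, map_one]
  obtain ⟨k, k3, k1, k2, ku, kg, kt⟩ := a5 e ⟨x, h.xY⟩ ⟨_, h.wY⟩ (Subtype.ext h.x3)
    (fun e => h.x1 (congrArg Subtype.val e)) (Subtype.ext w2')
    (fun e => absurd (S.inj ((congrArg Subtype.val e).trans (map_one _).symm)) (by decide +kernel))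
    (Subtype.ext (by
      show (x * (S.ι w1 * x⁻¹ * S.ι w1)) ^ 2 = 1
      rw [← h.cx13, h.sw, ← map_pow, show (s1 * w1) ^ 2 = 1 by decide +kernel, map_one]))
  have cg : ∀ t : W, Commute t ga → Commute (S.ι t) (S.ι ga) := fun t c => c.map S.ι
  have c13 := cg (f 1 3) (by decide +kernel)
  let θ : Y →* Y := MonoidHom.mk' (fun y => ⟨_, h.nrm _ c13 y.1 y.2⟩) fun a b =>
    Subtype.ext (by simp [mul_assoc])
  have θ1 : θ ⟨x, h.xY⟩ = ⟨_, h.wY⟩ * ⟨x, h.xY⟩⁻¹ * ⟨_, h.wY⟩ := Subtype.ext h.cx13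
  have θ2 : θ (⟨_, h.wY⟩ * ⟨x, h.xY⟩⁻¹ * ⟨_, h.wY⟩) = ⟨x, h.xY⟩ := Subtype.ext (by
    show S.ι (f 1 3) * (S.ι w1 * x⁻¹ * S.ι w1) * (S.ι (f 1 3))⁻¹ = x
    rw [← h.cx13, ← cx_mul, show f 1 3 * f 1 3 = 1 by decide +kernel, cx]; simp)
  have θ3 : θ k = k := ku _ (by rw [← map_pow, k3, map_one])
    (by rw [← θ2, ← map_mul, ← map_pow, k2, map_one])
    (by rw [← θ1, ← map_mul, ← map_pow, k1, map_one])
  have k3' : (k : G) ^ 3 = 1 := congrArg Subtype.val k3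
  have k1' : ((k : G) * x) ^ 2 = 1 := congrArg Subtype.val k1
  have kn : (k : G) ≠ 1 := fun e => h.x1 (by
    rw [e, one_mul] at k1'
    rw [← h.x3, pow_succ, k1', one_mul])
  let P : Subgroup W := (centralizer {(k : G)}).comap S.ι
  have mP : ∀ w, w ∈ P ↔ Commute (k : G) (S.ι w) := fun w => by
    rw [mem_comap, mem_centralizer_singleton_iff]; exact eq_comm
  have pq : ∀ q, Q4 q → q ∈ P := fun q hq => (mP q).2 (h.cq _ k.2 q hq)
  have p13 : f 1 3 ∈ P := (mP _).2 (mul_inv_eq_iff_eq_mul.1 (congrArg Subtype.val θ3)).symm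
  have cj : ∀ a ∈ P, ∀ b, r 1 2 * a * (r 1 2)⁻¹ = b → Commute (cx S k (r 1 2)) (S.ι b) :=
    fun a ha b e => by rw [← e, map_mul, map_mul, map_inv]; exact ((mP a).1 ha).conj _
  have p12 : r 1 2 ∈ P := by
    have hg := cj _ (mul_mem p13 (pq (f 4 5) (by decide +kernel))) ga (by decide +kernel)
    have h13 := cj _ (pq (f 2 3) (by decide +kernel)) (f 1 3) (by decide +kernel)
    obtain ⟨y, hy, a, ha, ea⟩ := h.dec _ hg
    have vv : ∀ t, Commute (cx S k (r 1 2)) (S.ι t) → Commute t ga → V1 (t * a * t⁻¹ * a⁻¹) :=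
      fun t c c' => h.YH _ (by
      have c1 := c.eq
      rw [ea] at c1
      have : S.ι (t * a * t⁻¹ * a⁻¹) = (S.ι t * y * (S.ι t)⁻¹)⁻¹ * y := by
        simp only [map_mul, map_inv]
        rw [eq_inv_mul_iff_mul_eq]
        calc _ = S.ι t * (y * S.ι a) * ((S.ι t)⁻¹ * (S.ι a)⁻¹) := by group
          _ = _ := by rw [← c1]; group
      exact this ▸ mul_mem (inv_mem (h.nrm _ (cg t c') y hy)) hy)
    have a2 : a * a = 1 := z_e a (k_L.2.2.1 a ha).2.1 ha (vv _ h13 (by decide +kernel))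
      (vv _ (cj _ p13 _ (by decide +kernel)) (by decide +kernel))
      (vv _ (cj _ (pq (f 3 4) (by decide +kernel)) _ (by decide +kernel)) (by decide +kernel))
      (vv _ (cj _ (pq (f 3 5) (by decide +kernel)) _ (by decide +kernel)) (by decide +kernel))
    have m3 : cx S k (r 1 2) ^ 3 = 1 := by rw [cx, conj_pow, k3']; simp
    have mY : cx S k (r 1 2) ∈ Y := by
      have : cx S k (r 1 2) ^ 2 ∈ Y := by
        have e2 : cx S k (r 1 2) ^ 2 = y * (S.ι a * y * (S.ι a)⁻¹) * S.ι (a * a) := by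
          rw [ea]; simp [pow_two, mul_assoc]
        rw [e2, a2, map_one, mul_one]
        exact mul_mem hy (h.nrm _ (cg a (k_L.2.2.1 a ha).2.1) y hy)
      have := pow_mem this 2
      rwa [← pow_mul, show 2 * 2 = 3 + 1 from rfl, pow_succ, m3, one_mul] at this
    rcases kt θ θ1 θ2 θ3 ⟨_, mY⟩ (Subtype.ext m3)
      (Subtype.ext (mul_inv_eq_iff_eq_mul.2 h13.eq.symm)) with e | e | e
    · have : cx S k (r 1 2) = 1 := congrArg Subtype.val e
      exact absurd (by simpa [cx] using this) kn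
    · exact (mP _).2 (mul_inv_eq_iff_eq_mul.1 (congrArg Subtype.val e)).symm
    · have e1 : cx S k (r 1 2) = (k : G)⁻¹ := congrArg Subtype.val e
      have e2 : cx S k (r 1 2 * s2) = (k : G)⁻¹ := by
        rw [cx_mul, cx, ← ((mP _).1 (pq s2 (by decide +kernel))).eq, mul_inv_cancel_right, ← e1, cx]
      have e3 : cx S k (r 1 2 * s2 * (r 1 2 * s2 * (r 1 2 * s2))) = (k : G)⁻¹ := by
        have e4 : S.ι (r 1 2 * s2) * k * (S.ι (r 1 2 * s2))⁻¹ = (k : G)⁻¹ := e2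
        rw [cx_mul _ (_ * (_ * _)), cx_mul _ (r 1 2 * s2), e2, ← conj_inv, e4, inv_inv, e4]
      rw [show r 1 2 * s2 * (r 1 2 * s2 * (r 1 2 * s2)) = 1 by decide +kernel, cx] at e3
      refine absurd ?_ kn
      have e5 : (k : G) * k = 1 := mul_eq_one_iff_eq_inv.2 (by simpa using e3)
      rw [← k3', pow_succ, pow_two, e5, one_mul]
  refine ⟨k, k3', k1', fun i => (mP _).1 ?_, fun M a b c y hy => ?_⟩
  · by_cases i0 : (0 : Fin 10) = i
    · exact i0 ▸ pq _ (by decide +kernel)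
    have := z_cd 0 i i0
    rw [show tr 1 (0 : Fin 10) = 1 by decide +kernel, inv_one, one_mul] at this
    rcases this with c | ⟨m, -, q, c⟩
    · simpa using mul_mem p13 (pq _ c)
    · simpa [mul_assoc] using mul_mem (mul_mem (pq _ q) p12) (pq _ c)
  · have : closure {⟨x, h.xY⟩, ⟨_, h.wY⟩ * ⟨x, h.xY⟩⁻¹ * ⟨_, h.wY⟩, k} ≤ M.subgroupOf Y := by
      rw [closure_le]
      rintro _ (rfl | rfl | rfl)
      exacts [a, mul_mem (mul_mem b (inv_mem a)) b, c]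
    exact this (kg ▸ mem_top (⟨y, hy⟩ : Y))

theorem anThm (key : (x * (S.ι (r 1 2) * x * S.ι (r 1 2))) ^ 2 = 1) :
    Nonempty (G ≃* alternatingGroup (Fin 12)) ∨ Nonempty (G ≃* alternatingGroup (Fin 13)) := by
  have c3 : ∀ i : Fin 10, cx S x (tr 1 i) ^ 3 = 1 := fun i => by rw [cx, conj_pow, h.x3]; simp
  rcases h.alt with e | ⟨⟨e⟩⟩
  · obtain ⟨φ⟩ := carm (m := 10) (by omega) (fun i => cx S x (tr 1 i)) c3 (h.rel' key)
      ⟨0, h.x0.symm ▸ h.x1⟩
    have hH := h.allH (M := closure (Set.range fun i : Fin 10 => cx S x (tr 1 i)))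
      fun i => subset_closure ⟨i, rfl⟩
    have := endg h _ hH (by
      rw [e, closure_le]
      rintro _ (rfl | rfl)
      exacts [subset_closure ⟨0, h.x0⟩, hH _])
    exact Or.inl ⟨(topEquiv.symm.trans (MulEquiv.subgroupCongr this.symm)).trans φ⟩
  · obtain ⟨k, k3, k1, kc, kY⟩ := h.a13 e
    have k2 : ∀ i : Fin 10, (k * cx S x (tr 1 i)) ^ 2 = 1 := fun i => by
      rw [← mul_inv_cancel_right k (S.ι (tr 1 i)), (kc i).eq, cx, conj_mul, conj_pow, k1]; simp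
    obtain ⟨φ⟩ := carm (m := 11) (by omega)
      (Fin.cons k (fun i : Fin 10 => cx S x (tr 1 i)) : Fin 11 → G)
      (Fin.cases k3 c3) (fun i j => by
        refine Fin.cases ?_ (fun i => ?_) i <;> refine Fin.cases ?_ (fun j => ?_) j <;> intro n
        · exact absurd rfl n
        · exact k2 j
        · show (cx S x (tr 1 i) * k) ^ 2 = 1
          rw [← mul_inv_cancel_right (_ * k) (cx S x (tr 1 i)), mul_assoc _ k, conj_pow, k2]; simp
        · exact h.rel' key i j fun e => n (e ▸ rfl)) ⟨Fin.succ 0, fun e => h.x1 (h.x0.symm.trans e)⟩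
    have hH := h.allH (M := closure (Set.range
      (Fin.cons k (fun i : Fin 10 => cx S x (tr 1 i)) : Fin 11 → G)))
      fun i => subset_closure ⟨i.succ, rfl⟩
    have := endg h _ hH (kY _ (subset_closure ⟨Fin.succ 0, h.x0⟩) (hH _) (subset_closure ⟨0, rfl⟩))
    exact Or.inr ⟨(topEquiv.symm.trans (MulEquiv.subgroupCongr this.symm)).trans φ⟩

end YS

end Cfsg.Agent.YK
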