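import Cfsg.Agent.YK.Z1
import Cfsg.Agent.YK.K1
import Cfsg.Agent.YK.F5
import Cfsg.Agent.YK.P4
import Cfsg.Agent.H3.ZCor

/-! Assembly of Yamaki's theorem. -/

set_option autoImplicit false
set_option linter.unusedSectionVars false

namespace Cfsg.Agent.YK
open Subgroup

theorem z_cm : ∀ w : W, Commute (w * w1 * w⁻¹) w1 ∧ Commute (w * w2 * w⁻¹) w2 := by decide +kernel

variable {G : Type*} [Group G] [Finite G]

theorem ex_st (α : G) (hα : orderOf α = 2) (P : Sylow 2 G)
    (hP : α ∈ centralizer ((P : Subgroup G) : Set G)) (e : centralizer ({α} : Set G) ≃* H0) :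
    ∃ S : St G, S.ι al = α := by
  let ι : W →* G := (centralizer {α}).subtype.comp (eW.trans e.symm).toMonoidHom
  have inj : Function.Injective ι := Subtype.val_injective.comp (eW.trans e.symm).injective
  have sj : ∀ g, Commute g α → ∃ w, ι w = g := fun g h => by
    obtain ⟨w, hw⟩ := (eW.trans e.symm).surjective ⟨g, mem_centralizer_singleton_iff.2 h⟩
    exact ⟨w, congrArg Subtype.val hw⟩
  have cm : ∀ w, Commute (ι w) α := fun w =>
    mem_centralizer_singleton_iff.1 ((eW.trans e.symm) w).2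
  obtain ⟨a, ha⟩ := sj α (Commute.refl α)
  have c : ∀ w, Commute a w := fun w => inj (by rw [map_mul, map_mul, ha, (cm w).eq])
  have : ι al = α := by
    rcases center_W a (c _) (c _) (c _) (c _) (c _) with rfl | rfl
    · rw [← ha, map_one, orderOf_one] at hα; omega
    · exact ha
  refine ⟨⟨ι, inj, this ▸ sj, ?_⟩, this⟩
  have le : (P : Subgroup G) ≤ ι.range := fun g hg => sj g (hP g hg)
  rw [← Nat.not_even_iff_odd, even_iff_two_dvd]
  exact fun h => P.not_dvd_index (h.trans (index_dvd_of_le le))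

theorem St.isoThm (S : St G) (h : IsIsolated (S.ι al)) :
    pPrimeCore 2 G ⊔ centralizer {S.ι al} = ⊤ ∧ IsMulCommutative (pPrimeCore 2 G) := by
  have a2 : S.ι al * S.ι al = 1 := by rw [← map_mul, al_sq, map_one]
  have o2 : orderOf (S.ι al) = 2 := orderOf_eq_prime (by rw [pow_two, a2]) fun e =>
    absurd (S.inj (e.trans (map_one _).symm)) (by decide +kernel)
  refine ⟨(sup_comm _ _).trans (H3.centralizer_sup_oddCore_of_isolated o2 h), ?_⟩
  have n : (pPrimeCore 2 G).Normal := inferInstance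
  have k : ∀ w : W, S.ι w ∈ pPrimeCore 2 G → w ^ 8 = 1 → w = 1 := fun w hw e => S.inj (by
    have d1 := orderOf_dvd_of_pow_eq_one (show S.ι w ^ 2 ^ 3 = 1 by rw [← map_pow]; simp [e])
    have d2 := (pPrimeCore 2 G).orderOf_dvd_natCard hw
    rw [map_one, ← orderOf_eq_one_iff]
    exact Nat.eq_one_of_dvd_coprimes ((H4.coprime_card_pPrimeCore 2 G).pow_right 3) d2 d1)
  have k2 : ∀ w a : W, S.ι w ∈ pPrimeCore 2 G → a * a = 1 → Commute (w * a * w⁻¹) a →
      w * a = a * w := fun w a hw a2 c => by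
    have := k (w * a * w⁻¹ * a) (by
      have := mul_mem hw (n.conj_mem _ (inv_mem hw) (S.ι a))
      rw [← map_inv _ a, inv_eq_of_mul_eq_one_right a2] at this
      simpa [mul_assoc] using this) (by
      rw [show 8 = 2 * 4 from rfl, pow_mul, c.mul_pow, conj_pow, pow_two, a2]; simp)
    rw [← mul_inv_eq_iff_eq_mul, eq_inv_of_mul_eq_one_left this, inv_eq_of_mul_eq_one_right a2]
  let φ : pPrimeCore 2 G →* pPrimeCore 2 G := MonoidHom.mk'
    (fun y => ⟨_, n.conj_mem y.1 y.2 (S.ι al)⟩) fun a b => Subtype.ext (by simp [mul_assoc])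
  have fp : MonoidHom.FixedPointFree φ := fun y hy => by
    obtain ⟨w, e⟩ := S.cen y (mul_inv_eq_iff_eq_mul.1 (congrArg Subtype.val hy)).symm
    have m : S.ι w ∈ pPrimeCore 2 G := e ▸ y.2
    have s : w ∈ S0 := Or.inl ⟨k2 w _ m (by decide +kernel) (z_cm w).1,
      k2 w _ m (by decide +kernel) (z_cm w).2⟩
    exact Subtype.ext (by rw [← e, k w m (S0_a w (S0_w3 w s) s).1, map_one]; rfl)
  exact ⟨⟨fun a b => fp.commute_all_of_involutive (fun y => Subtype.ext (by
    show S.ι al * (S.ι al * y * (S.ι al)⁻¹) * (S.ι al)⁻¹ = y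
    rw [← mul_assoc, ← mul_assoc, a2, mul_assoc, ← mul_inv_rev, a2]; simp)) a b⟩⟩

theorem fin (yT : ∀ {S : St G} {x : G}, AnH S x → ∃ Y, YS S x Y) (S : St G) :
    Nonempty (G ≃* alternatingGroup (Fin 12)) ∨ Nonempty (G ≃* alternatingGroup (Fin 13)) ∨
    (∃ (F : Type) (_ : Field F) (_ : Fintype F), Fintype.card F = 2 ∧ Nonempty (G ≃* PSp 3 F)) ∨
    (pPrimeCore 2 G ⊔ centralizer {S.ι al} = ⊤ ∧ IsMulCommutative (pPrimeCore 2 G)) := by
  rcases S.fus with h | ⟨S', h | ⟨x, h⟩⟩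
  · exact Or.inr (Or.inr (Or.inr (S.isoThm h)))
  · exact Or.inr (Or.inr (Or.inl ⟨ZMod 2, inferInstance, inferInstance, ZMod.card 2, spThm S' h⟩))
  · obtain ⟨Y, h⟩ := yT h
    exact (h.anThm h.key).imp_right Or.inl

end Cfsg.Agent.YK
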